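import Cfsg.Agent.Lib.JCtl.Degree3
import Cfsg.Agent.Lib.KInf.ChiefBound

/-!
# The action of an extremal `A ∈ A(S)` on chief factors inside `O_p(G)`
-/

set_option autoImplicit false
set_option linter.unusedSectionVars false

namespace Cfsg.Agent.Lib.JCtl.Chief

open Subgroup Cfsg Cfsg.Agent.Lib.JCtl.Exchange Cfsg.Agent.Lib.JCtl.Dich Cfsg.Agent.Lib.JCtl.Core
  Cfsg.Agent.Lib.KInf.Comm Cfsg.Agent.Lib.KInf.Critical
open scoped commutatorElement

variable {G : Type*} [Group G] [Finite G] {p : ℕ} [Fact p.Prime] {S O A : Subgroup G}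

section

variable (hp2 : p ≠ 2) (hS : IsPGroup p S) (hOp : IsPGroup p O) (hOn : O.Normal) (hOS : O ≤ S)
  (hA : AM S A) (hext : Extremal S O A) (hAO : ¬ A ≤ O) {u : G} (hu : u ∈ A)

include hp2 hS hOp hOn hOS hA hext hAO hu

/-- Chief factors with an abelian top inside `O`. -/
theorem chief_abelian {U V : Subgroup G} (hUV : IsChiefFactor U V) (hUO : U ≤ O)
    (hab : ∀ x ∈ U, ∀ y ∈ U, x * y = y * x) : iterCommutator U (zpowers u) 3 ≤ V := by
  obtain ⟨hlt, hUn, hVn, -⟩ := id hUV
  have hOU : ⁅U, O⁆ ≤ V := chief_comm_le hOp hOn hUV hUO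
  let c : Ctx p S O A U V :=
    { pS := hS, am := hA, ext := hext, OS := hOS, AO := hAO, DO := hUO, YD := hlt.le
      Yc := fun η hη d hd => hab d hd η (hlt.le hη)
      DD := fun v hv w hw => by
        rw [commutatorElement_eq_one_iff_mul_comm.2 (hab v hv w hw)]
        exact V.one_mem
      AD := fun a _ d hd => hUn.conj_mem d hd a
      AY := fun a _ η hη => hVn.conj_mem η hη a
      TD := fun t ht d hd => by
        rw [← commutatorElement_inv]
        exact V.inv_mem (hOU (Subgroup.commutator_mem_commutator hd ht.2)) }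
  refine c.iter_le_of_words hu ?_
  rintro x hx _ ⟨d, hd, _, ⟨a, ha, _, ⟨b, hb, _, h0, rfl⟩, rfl⟩, rfl⟩
  rw [Set.mem_singleton_iff.1 h0]
  have hE := c.E_le_D hx
  have hCH : CH A U x :=
    ⟨fun a' ha' z hz => hab _ (c.yD hx ha') z (hE hz),
      fun z hz z' hz' => hab z (hE hz) z' (hE hz'),
      fun b' hb' z hz => hab x hx _ (c.dlD hb' (hE hz)),
      fun a' ha' α hα => hab _ (c.yD hx ha') α hα.2⟩
  exact c.core_main hx hCH hp2 b hb a ha d hd

/-- The critical subgroup: four steps to the centre. -/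
theorem crit_iter {D : Subgroup G} (hDn : D.Normal) (hDO : D ≤ O) (hD : ⁅D, O⁆ ≤ Zc D) :
    iterCommutator D (zpowers u) 4 ≤ Zc D := by
  have hZn : (Zc D).Normal := Zc_normal hDn
  let c : Ctx p S O A D (Zc D) :=
    { pS := hS, am := hA, ext := hext, OS := hOS, AO := hAO, DO := hDO, YD := inf_le_left
      Yc := fun η hη d hd => (mem_Zc.1 hη).2 d hd
      DD := fun v hv w hw => hD (Subgroup.commutator_mem_commutator hv (hDO hw))
      AD := fun a _ d hd => hDn.conj_mem d hd a
      AY := fun a _ η hη => hZn.conj_mem η hη a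
      TD := fun t ht d hd => by
        rw [← commutatorElement_inv]
        exact Subgroup.inv_mem _ (hD (Subgroup.commutator_mem_commutator hd ht.2)) }
  exact c.iter_le_of_words hu (fun x hx => c.words4 hx hp2)

/-- Chief factors inside the critical subgroup. -/
theorem chief_crit {D : Subgroup G} (hDn : D.Normal) (hDO : D ≤ O) (hD : ⁅D, O⁆ ≤ Zc D)
    {E F : Subgroup G} (hEF : IsChiefFactor E F) (hED : E ≤ D) :
    iterCommutator E (zpowers u) 4 ≤ F := by
  obtain ⟨hlt, hEn, hFn, hmin⟩ := id hEF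
  have := hEn; have := hFn; have := hDn
  have hZn : (Zc D).Normal := Zc_normal hDn
  have := hZn
  have hEc : ⁅E, zpowers u⁆ ≤ E := comm_normal_le hEn _
  by_cases hEQ : E ⊓ Zc D ≤ F
  · have h1 : iterCommutator E (zpowers u) 4 ≤ iterCommutator D (zpowers u) 4 := iter_mono _ hED 4
    have h2 := crit_iter hp2 hS hOp hOn hOS hA hext hAO hu hDn hDO hD
    exact (le_inf (iter_le hEc 4) (h1.trans h2)).trans hEQ
  · have hEQn : (E ⊓ Zc D).Normal := Subgroup.normal_inf_normal _ _
    have hFQn : (F ⊓ Zc D).Normal := Subgroup.normal_inf_normal _ _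
    have hN : ((E ⊓ Zc D) ⊔ F).Normal := Subgroup.sup_normal _ _
    have hcov : (E ⊓ Zc D) ⊔ F = E := by
      rcases hmin _ hN le_sup_right (sup_le inf_le_left hlt.le) with h | h
      · exfalso
        apply hEQ
        rw [← h]
        exact le_sup_left
      · exact h
    have hchief : IsChiefFactor (E ⊓ Zc D) (F ⊓ Zc D) := by
      refine ⟨?_, hEQn, hFQn, ?_⟩
      · refine lt_of_le_of_ne (inf_le_inf_right _ hlt.le) ?_
        intro he
        exact hEQ (he ▸ inf_le_left)
      · intro N hNn hFN hNE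
        have := hNn
        have hN2 : (N ⊔ F).Normal := Subgroup.sup_normal _ _
        rcases hmin _ hN2 le_sup_right (sup_le (hNE.trans inf_le_left) hlt.le) with h | h
        · left
          refine le_antisymm ?_ hFN
          refine le_inf ?_ (hNE.trans inf_le_right)
          rw [← h]
          exact le_sup_left
        · right
          refine le_antisymm hNE ?_
          rintro x ⟨hxE, hxQ⟩
          have hx : x ∈ N ⊔ F := by rw [h]; exact hxE
          obtain ⟨n, hn, f, hf, rfl⟩ := mem_sup_normal hFn hx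
          have hnQ : n ∈ Zc D := (hNE hn).2
          have hfQ : f ∈ Zc D := by
            have := (Zc D).mul_mem ((Zc D).inv_mem hnQ) hxQ
            simpa using this
          exact N.mul_mem hn (hFN ⟨hf, hfQ⟩)
    have h1 := chief_abelian hp2 hS hOp hOn hOS hA hext hAO hu hchief
      ((inf_le_right.trans inf_le_left).trans hDO)
      (fun x hx y hy => by
        have h3 := (mem_Zc.1 hx.2).2 y ((mem_Zc.1 hy.2).1)
        exact h3.symm)
    have h2 : iterCommutator E (zpowers u) 3 ≤ F :=
      iter_le_of_cover hFn hcov.ge (h1.trans inf_le_left)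
    exact (iter_antitone hEc (show 3 ≤ 4 by omega)).trans h2

/-- All chief factors inside `O`: six steps. -/
theorem chief_six {E F : Subgroup G} (hEF : IsChiefFactor E F) (hEO : E ≤ O) :
    iterCommutator E (zpowers u) 6 ≤ F := by
  obtain ⟨D, hDn, hDO, hD, hCT⟩ := exists_critical hOp hOn
  have hQ3 : ⁅O, D⁆ ≤ Zc D := by
    rw [Subgroup.commutator_comm]
    exact hD
  have hQ4 : O ⊓ centralizer (D : Set G) = Zc D := by
    apply le_antisymm
    · rintro x ⟨hxO, hxC⟩
      exact ⟨hCT ⟨hxO, hxC⟩, hxC⟩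
    · rintro x ⟨hxD, hxC⟩
      exact ⟨hDO hxD, hxC⟩
  exact Cfsg.Agent.Lib.KInf.ChiefBound.chief_bound hOn hOp hDn hDO hQ3 hQ4 u 4 3 (by omega) (by omega)
    (fun U V hUV hUD => chief_crit hp2 hS hOp hOn hOS hA hext hAO hu hDn hDO hD hUV hUD)
    (fun U V hUV hUZ => chief_abelian hp2 hS hOp hOn hOS hA hext hAO hu hUV
      ((hUZ.trans inf_le_left).trans hDO)
      (fun x hx y hy => ((mem_Zc.1 (hUZ hx)).2 y ((mem_Zc.1 (hUZ hy)).1)).symm)) hEF hEO

end

end Cfsg.Agent.Lib.JCtl.Chief
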