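import Cfsg.Agent.Lib.JCtl.Dich

/-!
# The action of an extremal `A ∈ A(S)` on a section of class at most two: set-up
-/

set_option autoImplicit false
set_option linter.unusedSectionVars false

namespace Cfsg.Agent.Lib.JCtl.Core

open Subgroup Cfsg Cfsg.Agent.Lib.JCtl.Exchange Cfsg.Agent.Lib.JCtl.Dich
open scoped commutatorElement

section Gen

variable {G : Type*} [Group G]

lemma conj_eq (a z : G) : a * z * a⁻¹ = ⁅a, z⁆ * z := by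
  rw [commutatorElement_def]; group

lemma swap_eq {a b x : G} (hab : a * b = b * a) :
    ⁅a, ⁅b, x⁆⁆ = ⁅b, ⁅a, x⁆⁆ * ⁅⁅a, x⁆, ⁅b, x⁆⁆ := by
  have h : ⁅a * b, x⁆ = ⁅b * a, x⁆ := by rw [hab]
  rw [Cfsg.Agent.Lib.KInf.Comm.comm_mul_left, Cfsg.Agent.Lib.KInf.Comm.comm_mul_left] at h
  generalize ⁅a, x⁆ = ya at *
  generalize ⁅b, x⁆ = yb at *
  have h2 : a * yb * a⁻¹ = b * ya * b⁻¹ * yb * ya⁻¹ := by
    rw [eq_mul_inv_iff_mul_eq]
    exact h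
  rw [commutatorElement_def a yb, h2, commutatorElement_def b ya, commutatorElement_def ya yb]
  group

lemma comm_swap {e f n : G} (hef : e * f = f * e) (hc : ⁅e, n⁆ * ⁅f, n⁆ = ⁅f, n⁆ * ⁅e, n⁆) :
    ⁅e, ⁅f, n⁆⁆ = ⁅f, ⁅e, n⁆⁆ := by
  rw [swap_eq hef, commutatorElement_eq_one_iff_mul_comm.2 hc, mul_one]

lemma comm_of_comm {g u v : G} (hu : g * u = u * g) (hv : g * v = v * g) : g * ⁅u, v⁆ = ⁅u, v⁆ * g := by
  have hu' : Commute g u := hu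
  have hv' : Commute g v := hv
  have : Commute g ⁅u, v⁆ := by
    rw [commutatorElement_def]
    exact ((hu'.mul_right hv').mul_right hu'.inv_right).mul_right hv'.inv_right
  exact this

lemma dl_of_comm {u z t : G} (h : u * t = t * u) : ⁅u, z * t⁆ = ⁅u, z⁆ := by
  rw [commutatorElement_def, commutatorElement_def]
  have h' : t * u⁻¹ = u⁻¹ * t := by
    have := congrArg (fun w => u⁻¹ * w * u⁻¹) h
    simp only [mul_assoc, inv_mul_cancel_left, mul_inv_cancel, mul_one] at this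
    exact this
  calc u * (z * t) * u⁻¹ * (z * t)⁻¹ = u * z * (t * u⁻¹) * t⁻¹ * z⁻¹ := by group
    _ = u * z * (u⁻¹ * t) * t⁻¹ * z⁻¹ := by rw [h']
    _ = _ := by group

lemma conj_closure {s : Set G} {a : G} (h : ∀ g ∈ s, a * g * a⁻¹ ∈ closure s) :
    ∀ z ∈ closure s, a * z * a⁻¹ ∈ closure s := by
  intro z hz
  induction hz using Subgroup.closure_induction with
  | mem x hx => exact h x hx
  | one => simp
  | mul x y _ _ hx hy =>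
    have := Subgroup.mul_mem _ hx hy
    simpa [mul_assoc] using this
  | inv x _ hx =>
    have := Subgroup.inv_mem _ hx
    simpa [mul_assoc] using this

end Gen

variable {G : Type*} [Group G] [Finite G]

/-- The general situation: `D ≤ O` normalized by `A`, with `Y` central in `D`, `D / Y` abelian, and
`A ∩ O` acting trivially on `D / Y`. -/
structure Ctx (p : ℕ) (S O A D Y : Subgroup G) : Prop where
  pS : IsPGroup p S
  am : AM S A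
  ext : Extremal S O A
  OS : O ≤ S
  AO : ¬ A ≤ O
  DO : D ≤ O
  YD : Y ≤ D
  Yc : ∀ η ∈ Y, ∀ d ∈ D, d * η = η * d
  DD : ∀ v ∈ D, ∀ w ∈ D, ⁅v, w⁆ ∈ Y
  AD : ∀ a ∈ A, ∀ d ∈ D, a * d * a⁻¹ ∈ D
  AY : ∀ a ∈ A, ∀ η ∈ Y, a * η * a⁻¹ ∈ Y
  TD : ∀ t ∈ A ⊓ O, ∀ d ∈ D, ⁅t, d⁆ ∈ Y

namespace Ctx

variable {p : ℕ} [Fact p.Prime] {S O A D Y : Subgroup G} (c : Ctx p S O A D Y)

include c

lemma dlD {a d : G} (ha : a ∈ A) (hd : d ∈ D) : ⁅a, d⁆ ∈ D := by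
  rw [commutatorElement_def]
  exact D.mul_mem (c.AD a ha d hd) (D.inv_mem hd)

lemma dlY {a η : G} (ha : a ∈ A) (hη : η ∈ Y) : ⁅a, η⁆ ∈ Y := by
  rw [commutatorElement_def]
  exact Y.mul_mem (c.AY a ha η hη) (Y.inv_mem hη)

lemma Yab {η η' : G} (h : η ∈ Y) (h' : η' ∈ Y) : η * η' = η' * η :=
  (c.Yc η' h' η (c.YD h))

lemma comm_Y_l {η d : G} (h : η ∈ Y) (hd : d ∈ D) : ⁅η, d⁆ = 1 :=
  commutatorElement_eq_one_iff_mul_comm.2 (c.Yc η h d hd).symm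

lemma comm_Y_r {η d : G} (h : η ∈ Y) (hd : d ∈ D) : ⁅d, η⁆ = 1 :=
  commutatorElement_eq_one_iff_mul_comm.2 (c.Yc η h d hd)

lemma bil_r {u v w : G} (hu : u ∈ D) (hv : v ∈ D) (hw : w ∈ D) : ⁅u, v * w⁆ = ⁅u, v⁆ * ⁅u, w⁆ := by
  rw [Cfsg.Agent.Lib.KInf.Comm.comm_mul_right, c.Yc _ (c.DD u hu w hw) v hv]
  group

lemma bil_l {u v w : G} (hu : u ∈ D) (hv : v ∈ D) (hw : w ∈ D) : ⁅u * v, w⁆ = ⁅u, w⁆ * ⁅v, w⁆ := by
  rw [Cfsg.Agent.Lib.KInf.Comm.comm_mul_left, c.Yc _ (c.DD v hv w hw) u hu, mul_inv_cancel_right,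
    c.Yab (c.DD v hv w hw) (c.DD u hu w hw)]

lemma inv_r {u v : G} (hu : u ∈ D) (hv : v ∈ D) : ⁅u, v⁻¹⁆ = ⁅u, v⁆⁻¹ := by
  have h := c.bil_r hu hv (D.inv_mem hv)
  rw [mul_inv_cancel, commutatorElement_one_right] at h
  exact eq_inv_of_mul_eq_one_right h.symm

lemma inv_l {u v : G} (hu : u ∈ D) (hv : v ∈ D) : ⁅u⁻¹, v⁆ = ⁅u, v⁆⁻¹ := by
  have h := c.bil_l hu (D.inv_mem hu) hv
  rw [mul_inv_cancel, commutatorElement_one_left] at h
  exact eq_inv_of_mul_eq_one_right h.symm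

lemma comm_anti {u v : G} : ⁅u, v⁆ = ⁅v, u⁆⁻¹ := (commutatorElement_inv v u).symm

/-- The action of `A` on commutators. -/
lemma expand {a v w : G} (ha : a ∈ A) (hv : v ∈ D) (hw : w ∈ D) :
    ⁅a, ⁅v, w⁆⁆ = ⁅⁅a, v⁆, ⁅a, w⁆⁆ * ⁅⁅a, v⁆, w⁆ * ⁅v, ⁅a, w⁆⁆ := by
  have hav := c.dlD ha hv
  have haw := c.dlD ha hw
  have e : ⁅a, ⁅v, w⁆⁆ * ⁅v, w⁆ = ⁅⁅a, v⁆ * v, ⁅a, w⁆ * w⁆ := by
    rw [← conj_eq, ← conj_eq, ← conj_eq]
    exact Cfsg.Agent.Lib.KInf.Comm.conj_comm a v w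
  rw [c.bil_l hav hv (D.mul_mem haw hw), c.bil_r hav haw hw, c.bil_r hv haw hw] at e
  apply mul_right_cancel (b := ⁅v, w⁆)
  rw [e]
  group

/-- `A ∩ O` centralizes `[D, D]`. -/
lemma T_comm {t v w : G} (ht : t ∈ A ⊓ O) (hv : v ∈ D) (hw : w ∈ D) : t * ⁅v, w⁆ = ⁅v, w⁆ * t := by
  rw [← commutatorElement_eq_one_iff_mul_comm, c.expand ht.1 hv hw]
  have h1 := c.TD t ht v hv
  have h2 := c.TD t ht w hw
  rw [c.comm_Y_l h1 (c.YD h2), c.comm_Y_l h1 hw, c.comm_Y_r h2 hv]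
  group

/-- `A` acts quadratically on `[D, D]`. -/
lemma ww {a b v w : G} (ha : a ∈ A) (hb : b ∈ A) (hv : v ∈ D) (hw : w ∈ D) :
    ⁅b, ⁅a, ⁅v, w⁆⁆⁆ = 1 := by
  have hW : ⁅D, D⁆ ≤ Y := by
    rw [Subgroup.commutator_le]
    exact c.DD
  refine quad_of_T c.pS c.am c.ext c.OS c.AO (W := ⁅D, D⁆) ((hW.trans c.YD).trans c.DO)
    (fun x hx y hy => c.Yab (hW hx) (hW hy)) ?_ ?_ a ha b hb _ (Subgroup.commutator_mem_commutator hv hw)
  · intro a ha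
    exact Cfsg.Agent.Lib.KInf.Comm.conj_mem_commutator (c.AD a ha) (c.AD a ha)
  · intro t ht z hz
    refine (?_ : ⁅D, D⁆ ≤ Subgroup.centralizer ({t} : Set G)) hz |> fun h =>
      (Subgroup.mem_centralizer_singleton_iff.1 h).symm
    rw [Subgroup.commutator_le]
    intro v hv w hw
    rw [Subgroup.mem_centralizer_singleton_iff]
    exact (c.T_comm ht hv hw).symm

end Ctx

/-- The smallest `A`-invariant subgroup containing all `[c, [a, x]]`. -/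
def EE (A : Subgroup G) (x : G) : Subgroup G :=
  sInf {N | (∀ c ∈ A, ∀ a ∈ A, ⁅c, ⁅a, x⁆⁆ ∈ N) ∧ ∀ c ∈ A, ∀ n ∈ N, c * n * c⁻¹ ∈ N}

section EE

variable {A : Subgroup G} {x : G}

lemma EE_le {N : Subgroup G} (h1 : ∀ c ∈ A, ∀ a ∈ A, ⁅c, ⁅a, x⁆⁆ ∈ N)
    (h2 : ∀ c ∈ A, ∀ n ∈ N, c * n * c⁻¹ ∈ N) : EE A x ≤ N := sInf_le ⟨h1, h2⟩

lemma gen_mem_EE {c a : G} (hc : c ∈ A) (ha : a ∈ A) : ⁅c, ⁅a, x⁆⁆ ∈ EE A x :=
  Subgroup.mem_sInf.2 fun _ hN => hN.1 c hc a ha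

lemma conj_mem_EE {c z : G} (hc : c ∈ A) (hz : z ∈ EE A x) : c * z * c⁻¹ ∈ EE A x :=
  Subgroup.mem_sInf.2 fun N hN => hN.2 c hc z (Subgroup.mem_sInf.1 hz N hN)

lemma dl_mem_EE {c z : G} (hc : c ∈ A) (hz : z ∈ EE A x) : ⁅c, z⁆ ∈ EE A x := by
  rw [commutatorElement_def]
  exact Subgroup.mul_mem _ (conj_mem_EE hc hz) (Subgroup.inv_mem _ hz)

/-- An element commuting with `A` and the generators commutes with `EE`. -/
lemma EE_comm {g : G} (hA : ∀ a ∈ A, g * a = a * g) (hg : ∀ c ∈ A, ∀ a ∈ A, g * ⁅c, ⁅a, x⁆⁆ = ⁅c, ⁅a, x⁆⁆ * g) :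
    ∀ z ∈ EE A x, g * z = z * g := by
  have h : EE A x ≤ Subgroup.centralizer ({g} : Set G) := by
    refine EE_le ?_ ?_
    · intro c hc a ha
      rw [Subgroup.mem_centralizer_singleton_iff]
      exact (hg c hc a ha).symm
    · intro c hc n hn
      rw [Subgroup.mem_centralizer_singleton_iff] at hn ⊢
      have hc' : Commute g c := hA c hc
      have hn' : Commute g n := hn.symm
      exact ((hc'.mul_right hn').mul_right hc'.inv_right).symm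
  intro z hz
  exact (Subgroup.mem_centralizer_singleton_iff.1 (h hz)).symm

end EE

/-- The hypotheses of the core theorem. -/
structure CH (A D : Subgroup G) (x : G) : Prop where
  e1 : ∀ a ∈ A, ∀ z ∈ EE A x, ⁅a, x⁆ * z = z * ⁅a, x⁆
  e2 : ∀ z ∈ EE A x, ∀ z' ∈ EE A x, z * z' = z' * z
  e3 : ∀ b ∈ A, ∀ z ∈ EE A x, x * ⁅b, z⁆ = ⁅b, z⁆ * x
  cc : ∀ a ∈ A, ∀ α ∈ A ⊓ D, ⁅a, x⁆ * α = α * ⁅a, x⁆

/-- The abelian group `F`. -/
def FF (A D Y : Subgroup G) (x : G) : Subgroup G := (EE A x ⊔ (A ⊓ D)) ⊔ Y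

namespace Ctx

variable {p : ℕ} [Fact p.Prime] {S O A D Y : Subgroup G} (c : Ctx p S O A D Y) {x : G}
  (hx : x ∈ D) (h : CH A D x)

include c hx

lemma yD {a : G} (ha : a ∈ A) : ⁅a, x⁆ ∈ D := c.dlD ha hx

lemma E_le_D : EE A x ≤ D := by
  refine EE_le ?_ c.AD
  intro c' hc' a ha
  exact c.dlD hc' (c.yD hx ha)

lemma F_le_D : FF A D Y x ≤ D :=
  sup_le (sup_le (c.E_le_D hx) inf_le_right) c.YD

lemma E_mem_Y_comm {z η : G} (hz : z ∈ EE A x) (hη : η ∈ Y) : z * η = η * z :=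
  c.Yc η hη z (c.E_le_D hx hz)

include h

lemma E_comm_alpha {α : G} (hα : α ∈ A ⊓ D) : ∀ z ∈ EE A x, α * z = z * α := by
  refine EE_comm (fun a ha => c.am.comm α hα.1 a ha) ?_
  intro c' hc' a ha
  refine comm_of_comm (c.am.comm α hα.1 c' hc') ?_
  exact (h.cc a ha α hα).symm

lemma F_comm : ∀ z ∈ FF A D Y x, ∀ z' ∈ FF A D Y x, z * z' = z' * z := by
  refine comm_sup (comm_sup h.e2 (fun a ha b hb => c.am.comm a ha.1 b hb.1) ?_) (fun a ha b hb => c.Yab ha hb) ?_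
  · intro z hz α hα
    exact (c.E_comm_alpha hx h hα z hz).symm
  · intro z hz η hη
    exact c.Yc η hη z ((sup_le (c.E_le_D hx) inf_le_right) hz)

lemma F_conj {a z : G} (ha : a ∈ A) (hz : z ∈ FF A D Y x) : a * z * a⁻¹ ∈ FF A D Y x := by
  have key : FF A D Y x ≤ (FF A D Y x).comap (MulAut.conj a).toMonoidHom := by
    refine sup_le (sup_le ?_ ?_) ?_
    · intro e he
      exact Subgroup.mem_sup_left (Subgroup.mem_sup_left (conj_mem_EE ha he))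
    · intro α hα
      refine Subgroup.mem_sup_left (Subgroup.mem_sup_right ?_)
      show a * α * a⁻¹ ∈ A ⊓ D
      rw [c.am.comm a ha α hα.1]
      simpa using hα
    · intro η hη
      exact Subgroup.mem_sup_right (c.AY a ha η hη)
  exact key hz

lemma F_dl {a z : G} (ha : a ∈ A) (hz : z ∈ FF A D Y x) : ⁅a, z⁆ ∈ FF A D Y x := by
  rw [commutatorElement_def]
  exact Subgroup.mul_mem _ (c.F_conj hx h ha hz) (Subgroup.inv_mem _ hz)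

lemma y_comm_F {a z : G} (ha : a ∈ A) (hz : z ∈ FF A D Y x) : ⁅a, x⁆ * z = z * ⁅a, x⁆ := by
  refine comm_sup_right (X := EE A x ⊔ (A ⊓ D)) (Y := Y) ?_ ?_ z hz
  · refine comm_sup_right (h.e1 a ha) (h.cc a ha)
  · intro η hη
    exact c.Yc η hη _ (c.yD hx ha)

lemma dl_mul_F {a z z' : G} (ha : a ∈ A) (hz : z ∈ FF A D Y x) (hz' : z' ∈ FF A D Y x) :
    ⁅a, z * z'⁆ = ⁅a, z⁆ * ⁅a, z'⁆ := by
  rw [Cfsg.Agent.Lib.KInf.Comm.comm_mul_right, c.F_comm hx h z hz _ (c.F_dl hx h ha hz')]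
  group

lemma dl_inv_F {a z : G} (ha : a ∈ A) (hz : z ∈ FF A D Y x) : ⁅a, z⁻¹⁆ = ⁅a, z⁆⁻¹ := by
  have h1 := c.dl_mul_F hx h ha hz (Subgroup.inv_mem _ hz)
  rw [mul_inv_cancel, commutatorElement_one_right] at h1
  exact eq_inv_of_mul_eq_one_right h1.symm

omit h in
lemma E_le_F : EE A x ≤ FF A D Y x := le_sup_left.trans le_sup_left

omit h in
lemma alpha_le_F : A ⊓ D ≤ FF A D Y x := le_sup_right.trans le_sup_left

omit h in
lemma Y_le_F : Y ≤ FF A D Y x := le_sup_right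

omit c hx h in
lemma FF_induction {A D Y : Subgroup G} {x : G} {P : G → Prop} (h1 : P 1)
    (hm : ∀ u v, u ∈ FF A D Y x → v ∈ FF A D Y x → P u → P v → P (u * v))
    (hE : ∀ z ∈ EE A x, P z) (hα : ∀ z ∈ A ⊓ D, P z) (hY : ∀ z ∈ Y, P z) :
    ∀ z ∈ FF A D Y x, P z := by
  let L := finSub (fun z => z ∈ FF A D Y x ∧ P z) ⟨Subgroup.one_mem _, h1⟩
    (fun a b ha hb => ⟨Subgroup.mul_mem _ ha.1 hb.1, hm a b ha.1 hb.1 ha.2 hb.2⟩)
  have hL : FF A D Y x ≤ L := by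
    refine sup_le (sup_le ?_ ?_) ?_
    · intro z hz
      exact ⟨Subgroup.mem_sup_left (Subgroup.mem_sup_left hz), hE z hz⟩
    · intro z hz
      exact ⟨Subgroup.mem_sup_left (Subgroup.mem_sup_right hz), hα z hz⟩
    · intro z hz
      exact ⟨Subgroup.mem_sup_right hz, hY z hz⟩
  intro z hz
  exact (hL hz).2

/-- `x` commutes with `[f, z]` for `z ∈ F`. -/
lemma x_comm_dl {f z : G} (hf : f ∈ A) (hz : z ∈ FF A D Y x) : x * ⁅f, z⁆ = ⁅f, z⁆ * x := by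
  revert f
  refine FF_induction (P := fun z => ∀ {f : G}, f ∈ A → x * ⁅f, z⁆ = ⁅f, z⁆ * x) ?_ ?_ ?_ ?_ ?_ z hz
  · intro f _
    simp
  · intro u v hu hv hPu hPv f hf
    rw [c.dl_mul_F hx h hf hu hv]
    have h1 : Commute x ⁅f, u⁆ := hPu hf
    have h2 : Commute x ⁅f, v⁆ := hPv hf
    exact h1.mul_right h2
  · intro z hz f hf
    exact h.e3 f hf z hz
  · intro α hα f hf
    rw [commutatorElement_eq_one_iff_mul_comm.2 (c.am.comm f hf α hα.1)]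
    simp
  · intro η hη f hf
    exact c.Yc _ (c.dlY hf hη) x hx

end Ctx

end Cfsg.Agent.Lib.JCtl.Core
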