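import Cfsg.Agent.Lib.JCtl.Core

/-!
# The subgroups `A₂`, `D₂`, `K` and `M` of the core argument
-/

set_option autoImplicit false
set_option linter.unusedSectionVars false

namespace Cfsg.Agent.Lib.JCtl.Core

open Subgroup Cfsg Cfsg.Agent.Lib.JCtl.Exchange Cfsg.Agent.Lib.JCtl.Dich
open scoped commutatorElement

variable {G : Type*} [Group G] [Finite G]

namespace Ctx

variable {p : ℕ} [Fact p.Prime] {S O A D Y : Subgroup G} (c : Ctx p S O A D Y) {x : G}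
  (hx : x ∈ D) (h : CH A D x)

/-- `A₂ = {a ∈ A : [a, x] ∈ F}`. -/
def A2 : Subgroup G :=
  finSub (fun a => a ∈ A ∧ ⁅a, x⁆ ∈ FF A D Y x) ⟨A.one_mem, by simp [Subgroup.one_mem]⟩
    (fun a b ha hb => ⟨A.mul_mem ha.1 hb.1, by
      rw [Cfsg.Agent.Lib.KInf.Comm.comm_mul_left]
      exact Subgroup.mul_mem _ (c.F_conj hx h ha.1 hb.2) ha.2⟩)

lemma mem_A2 {a : G} : a ∈ c.A2 hx h ↔ a ∈ A ∧ ⁅a, x⁆ ∈ FF A D Y x := Iff.rfl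

/-- `D₂ = {d ∈ A : [d, x] ∈ A}`. -/
def D2 (A : Subgroup G) (x : G) : Subgroup G :=
  finSub (fun a => a ∈ A ∧ ⁅a, x⁆ ∈ A) ⟨A.one_mem, by simp [Subgroup.one_mem]⟩
    (fun a b ha hb => ⟨A.mul_mem ha.1 hb.1, by
      rw [Cfsg.Agent.Lib.KInf.Comm.comm_mul_left]
      exact A.mul_mem (A.mul_mem (A.mul_mem ha.1 hb.2) (A.inv_mem ha.1)) ha.2⟩)

lemma mem_D2 {a : G} : a ∈ D2 A x ↔ a ∈ A ∧ ⁅a, x⁆ ∈ A := Iff.rfl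

include c hx in
lemma D_le_S : D ≤ S := c.DO.trans c.OS

include c hx h

lemma D2_le_A2 : D2 A x ≤ c.A2 hx h := by
  rintro d ⟨hd, hdy⟩
  exact ⟨hd, c.alpha_le_F hx ⟨hdy, c.yD hx hd⟩⟩

lemma A2_le : c.A2 hx h ≤ A := fun _ ha => ha.1

omit hx h in
lemma swapA {a b : G} (ha : a ∈ A) (hb : b ∈ A) :
    ⁅a, ⁅b, x⁆⁆ = ⁅b, ⁅a, x⁆⁆ * ⁅⁅a, x⁆, ⁅b, x⁆⁆ := swap_eq (c.am.comm a ha b hb)

lemma swap_A2 {u b : G} (hu : u ∈ c.A2 hx h) (hb : b ∈ A) : ⁅u, ⁅b, x⁆⁆ = ⁅b, ⁅u, x⁆⁆ := by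
  rw [c.swapA hu.1 hb]
  have : ⁅⁅u, x⁆, ⁅b, x⁆⁆ = 1 :=
    commutatorElement_eq_one_iff_mul_comm.2 (c.y_comm_F hx h hb hu.2).symm
  rw [this, mul_one]

omit h in
lemma bt_mem {a : G} (ha : a ∈ A) : ⁅x, ⁅a, x⁆⁆ ∈ Y := c.DD x hx _ (c.yD hx ha)

lemma bt_dl {a f : G} (ha : a ∈ A) (hf : f ∈ A) :
    ⁅a, ⁅x, ⁅f, x⁆⁆⁆ = ⁅⁅a, x⁆, ⁅f, x⁆⁆ * ⁅x, ⁅a, ⁅f, x⁆⁆⁆ := by
  rw [c.expand ha hx (c.yD hx hf)]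
  have : ⁅⁅a, x⁆, ⁅a, ⁅f, x⁆⁆⁆ = 1 :=
    commutatorElement_eq_one_iff_mul_comm.2 (h.e1 a ha _ (gen_mem_EE ha hf))
  rw [this, one_mul]

lemma A2_comm_bt {v f : G} (hv : v ∈ c.A2 hx h) (hf : f ∈ A) : ⁅v, ⁅x, ⁅f, x⁆⁆⁆ = 1 := by
  rw [c.bt_dl hx h hv.1 hf, c.swap_A2 hx h hv hf]
  have h1 : ⁅⁅v, x⁆, ⁅f, x⁆⁆ = 1 :=
    commutatorElement_eq_one_iff_mul_comm.2 (c.y_comm_F hx h hf hv.2).symm
  have h2 : ⁅x, ⁅f, ⁅v, x⁆⁆⁆ = 1 :=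
    commutatorElement_eq_one_iff_mul_comm.2 (c.x_comm_dl hx h hf hv.2)
  rw [h1, h2, one_mul]

lemma bt_fix {a f : G} (hf : f ∈ c.A2 hx h) (ha : a ∈ A) : ⁅a, ⁅x, ⁅f, x⁆⁆⁆ = 1 := by
  rw [c.bt_dl hx h ha hf.1]
  have h1 : ⁅⁅a, x⁆, ⁅f, x⁆⁆ = 1 :=
    commutatorElement_eq_one_iff_mul_comm.2 (c.y_comm_F hx h ha hf.2)
  have h2 : ⁅x, ⁅a, ⁅f, x⁆⁆⁆ = 1 :=
    commutatorElement_eq_one_iff_mul_comm.2 (c.x_comm_dl hx h ha hf.2)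
  rw [h1, h2, one_mul]

omit h in
lemma wwb {a b f : G} (ha : a ∈ A) (hb : b ∈ A) (hf : f ∈ A) : ⁅b, ⁅a, ⁅x, ⁅f, x⁆⁆⁆⁆ = 1 :=
  c.ww ha hb hx (c.yD hx hf)

omit h in
lemma dlbt_mem_A {a f : G} (ha : a ∈ A) (hf : f ∈ A) : ⁅a, ⁅x, ⁅f, x⁆⁆⁆ ∈ A := by
  refine c.am.mem_of_comm ?_ ?_
  · exact c.D_le_S hx (c.YD (c.dlY ha (c.bt_mem hx hf)))
  · intro b hb
    exact commutatorElement_eq_one_iff_mul_comm.1 (c.wwb hx ha hb hf)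

lemma gamma_mem_A {z : G} (hz : z ∈ EE A x) : ⁅x, z⁆ ∈ A := by
  have hzD := c.E_le_D hx hz
  refine c.am.mem_of_comm (c.D_le_S hx (c.YD (c.DD x hx z hzD))) ?_
  intro a ha
  rw [← commutatorElement_eq_one_iff_mul_comm, c.expand ha hx hzD]
  have h1 : ⁅⁅a, x⁆, ⁅a, z⁆⁆ = 1 :=
    commutatorElement_eq_one_iff_mul_comm.2 (h.e1 a ha _ (dl_mem_EE ha hz))
  have h2 : ⁅⁅a, x⁆, z⁆ = 1 := commutatorElement_eq_one_iff_mul_comm.2 (h.e1 a ha z hz)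
  have h3 : ⁅x, ⁅a, z⁆⁆ = 1 := commutatorElement_eq_one_iff_mul_comm.2 (h.e3 a ha z hz)
  rw [h1, h2, h3]
  simp

omit h in
lemma y_mul {a b : G} : ⁅a * b, x⁆ = ⁅a, ⁅b, x⁆⁆ * ⁅b, x⁆ * ⁅a, x⁆ := by
  rw [Cfsg.Agent.Lib.KInf.Comm.comm_mul_left, conj_eq]

lemma bt_mul {a a' : G} (ha : a ∈ A) (ha' : a' ∈ A) :
    ⁅x, ⁅a * a', x⁆⁆ = ⁅x, ⁅a, ⁅a', x⁆⁆⁆ * ⁅x, ⁅a', x⁆⁆ * ⁅x, ⁅a, x⁆⁆ := by
  have h1 := c.yD hx ha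
  have h2 := c.yD hx ha'
  have h3 := c.dlD ha h2
  rw [c.y_mul hx, c.bil_r hx (D.mul_mem h3 h2) h1, c.bil_r hx h3 h2]

/-- `u` is attached to `a`. -/
def Good (u a : G) : Prop := u ∈ c.A2 hx h ∧ ⁅x, ⁅a, x⁆⁆ * ⁅u, x⁆⁻¹ ∈ A

lemma Good.le {u a : G} (hG : c.Good hx h u a) : u ∈ A := hG.1.1

lemma good_alpha {u a : G} (ha : a ∈ A) (hG : c.Good hx h u a) : ⁅x, ⁅a, x⁆⁆ * ⁅u, x⁆⁻¹ ∈ A ⊓ D :=
  ⟨hG.2, D.mul_mem (c.YD (c.bt_mem hx ha)) (D.inv_mem (c.yD hx hG.1.1))⟩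

lemma good_dl {u a b : G} (ha : a ∈ A) (hG : c.Good hx h u a) (hb : b ∈ A) :
    ⁅b, ⁅u, x⁆⁆ = ⁅b, ⁅x, ⁅a, x⁆⁆⁆ := by
  have e : ⁅u, x⁆ = (⁅x, ⁅a, x⁆⁆ * ⁅u, x⁆⁻¹)⁻¹ * ⁅x, ⁅a, x⁆⁆ := by
    rw [mul_inv_rev, inv_inv, inv_mul_cancel_right]
  have hα := c.good_alpha hx h ha hG
  conv_lhs => rw [e]
  rw [c.dl_mul_F hx h hb (Subgroup.inv_mem _ (c.alpha_le_F hx hα)) (c.Y_le_F hx (c.bt_mem hx ha)),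
    commutatorElement_eq_one_iff_mul_comm.2 (c.am.comm b hb _ (A.inv_mem hα.1)), one_mul]

lemma good_act {u a b : G} (ha : a ∈ A) (hG : c.Good hx h u a) (hb : b ∈ A) :
    ⁅u, ⁅b, x⁆⁆ = ⁅b, ⁅x, ⁅a, x⁆⁆⁆ := by
  rw [c.swap_A2 hx h hG.1 hb, c.good_dl hx h ha hG hb]

lemma y_mul_good {u u' a : G} (ha : a ∈ A) (hG : c.Good hx h u a) (hu' : u' ∈ c.A2 hx h) :
    ⁅u * u', x⁆ = ⁅u', x⁆ * ⁅u, x⁆ := by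
  rw [c.y_mul hx, c.good_act hx h ha hG hu'.1, c.A2_comm_bt hx h hu' ha, one_mul]

/-- `K = {a ∈ A : β_a ≡ y_u mod A for some u ∈ A₂}`. -/
def KK : Subgroup G :=
  finSub (fun a => a ∈ A ∧ ∃ u, c.Good hx h u a)
    ⟨A.one_mem, 1, Subgroup.one_mem _, by simp⟩
    (fun a a' ha ha' => by
      obtain ⟨ha, u, hu⟩ := ha
      obtain ⟨ha', u', hu'⟩ := ha'
      refine ⟨A.mul_mem ha ha', u * u', Subgroup.mul_mem _ hu.1 hu'.1, ?_⟩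
      rw [c.y_mul_good hx h ha hu hu'.1, c.bt_mul hx h ha ha']
      have hγ : ⁅x, ⁅a, ⁅a', x⁆⁆⁆ ∈ A := c.gamma_mem_A hx h (gen_mem_EE ha ha')
      have hα := c.good_alpha hx h ha hu
      have hα' := c.good_alpha hx h ha' hu'
      have hb' := c.bt_mem hx ha'
      have e : ⁅x, ⁅a, ⁅a', x⁆⁆⁆ * ⁅x, ⁅a', x⁆⁆ * ⁅x, ⁅a, x⁆⁆ * (⁅u', x⁆ * ⁅u, x⁆)⁻¹ =
          ⁅x, ⁅a, ⁅a', x⁆⁆⁆ * (⁅x, ⁅a, x⁆⁆ * ⁅u, x⁆⁻¹) * (⁅x, ⁅a', x⁆⁆ * ⁅u', x⁆⁻¹) := by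
        have h1 := c.Yc _ hb' _ hα.2
        calc _ = ⁅x, ⁅a, ⁅a', x⁆⁆⁆ * (⁅x, ⁅a', x⁆⁆ * (⁅x, ⁅a, x⁆⁆ * ⁅u, x⁆⁻¹)) * ⁅u', x⁆⁻¹ := by group
          _ = ⁅x, ⁅a, ⁅a', x⁆⁆⁆ * ((⁅x, ⁅a, x⁆⁆ * ⁅u, x⁆⁻¹) * ⁅x, ⁅a', x⁆⁆) * ⁅u', x⁆⁻¹ := by rw [← h1]
          _ = _ := by group
      rw [e]
      exact A.mul_mem (A.mul_mem hγ hα.1) hα'.1)

lemma mem_KK {a : G} : a ∈ c.KK hx h ↔ a ∈ A ∧ ∃ u, c.Good hx h u a := Iff.rfl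

lemma A2_le_KK : c.A2 hx h ≤ c.KK hx h := by
  intro f hf
  refine ⟨hf.1, 1, Subgroup.one_mem _, ?_⟩
  simp only [commutatorElement_one_left, inv_one, mul_one]
  exact c.am.mem_of_comm (c.D_le_S hx (c.YD (c.bt_mem hx hf.1)))
    fun a ha => commutatorElement_eq_one_iff_mul_comm.1 (c.bt_fix hx h hf ha)

/-- The generators of `M`. -/
def gM : Set G :=
  (EE A x : Set G) ∪ {z | ∃ v ∈ c.A2 hx h, z = ⁅v, x⁆} ∪ {z | ∃ f ∈ A, z = ⁅x, ⁅f, x⁆⁆} ∪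
    {z | ∃ a ∈ A, ∃ f ∈ A, z = ⁅a, ⁅x, ⁅f, x⁆⁆⁆}

/-- The group `M`. -/
def MM : Subgroup G := closure (c.gM hx h)

lemma gM_cases {P : G → Prop} (h1 : ∀ z ∈ EE A x, P z) (h2 : ∀ v ∈ c.A2 hx h, P ⁅v, x⁆)
    (h3 : ∀ f ∈ A, P ⁅x, ⁅f, x⁆⁆) (h4 : ∀ a ∈ A, ∀ f ∈ A, P ⁅a, ⁅x, ⁅f, x⁆⁆⁆) : ∀ z ∈ c.gM hx h, P z := by
  rintro z (((hz | ⟨v, hv, rfl⟩) | ⟨f, hf, rfl⟩) | ⟨a, ha, f, hf, rfl⟩)
  · exact h1 z hz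
  · exact h2 v hv
  · exact h3 f hf
  · exact h4 a ha f hf

lemma E_le_M : EE A x ≤ c.MM hx h := fun _ hz => subset_closure (Or.inl (Or.inl (Or.inl hz)))

lemma y_mem_M {v : G} (hv : v ∈ c.A2 hx h) : ⁅v, x⁆ ∈ c.MM hx h :=
  subset_closure (Or.inl (Or.inl (Or.inr ⟨v, hv, rfl⟩)))

lemma bt_mem_M {f : G} (hf : f ∈ A) : ⁅x, ⁅f, x⁆⁆ ∈ c.MM hx h :=
  subset_closure (Or.inl (Or.inr ⟨f, hf, rfl⟩))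

lemma dlbt_mem_M {a f : G} (ha : a ∈ A) (hf : f ∈ A) : ⁅a, ⁅x, ⁅f, x⁆⁆⁆ ∈ c.MM hx h :=
  subset_closure (Or.inr ⟨a, ha, f, hf, rfl⟩)

lemma M_le_F : c.MM hx h ≤ FF A D Y x := by
  rw [MM, closure_le]
  refine c.gM_cases hx h ?_ ?_ ?_ ?_
  · exact fun z hz => c.E_le_F hx hz
  · exact fun v hv => hv.2
  · exact fun f hf => c.Y_le_F hx (c.bt_mem hx hf)
  · exact fun a ha f hf => c.Y_le_F hx (c.dlY ha (c.bt_mem hx hf))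

lemma M_comm : ∀ z ∈ c.MM hx h, ∀ z' ∈ c.MM hx h, z * z' = z' * z := fun z hz z' hz' =>
  c.F_comm hx h z (c.M_le_F hx h hz) z' (c.M_le_F hx h hz')

lemma gen_comm_A {a b f : G} (ha : a ∈ A) (hb : b ∈ A) (hf : f ∈ A) :
    b * ⁅a, ⁅x, ⁅f, x⁆⁆⁆ = ⁅a, ⁅x, ⁅f, x⁆⁆⁆ * b :=
  commutatorElement_eq_one_iff_mul_comm.1 (c.wwb hx ha hb hf)

lemma M_conj {a : G} (ha : a ∈ A) : ∀ z ∈ c.MM hx h, a * z * a⁻¹ ∈ c.MM hx h := by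
  refine conj_closure ?_
  refine c.gM_cases hx h ?_ ?_ ?_ ?_
  · intro z hz
    exact c.E_le_M hx h (conj_mem_EE ha hz)
  · intro v hv
    rw [conj_eq]
    exact Subgroup.mul_mem _ (c.E_le_M hx h (gen_mem_EE ha hv.1)) (c.y_mem_M hx h hv)
  · intro f hf
    rw [conj_eq]
    exact Subgroup.mul_mem _ (c.dlbt_mem_M hx h ha hf) (c.bt_mem_M hx h hf)
  · intro b hb f hf
    rw [c.gen_comm_A hx h hb ha hf, mul_inv_cancel_right]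
    exact c.dlbt_mem_M hx h hb hf

/-- An element of `A` commuting with `E`, the `y_v` (`v ∈ A₂`) and the `β_f` commutes with `M`. -/
lemma comm_M {g : G} (hg : g ∈ A) (h1 : ∀ z ∈ EE A x, g * z = z * g)
    (h2 : ∀ v ∈ c.A2 hx h, g * ⁅v, x⁆ = ⁅v, x⁆ * g) (h3 : ∀ f ∈ A, g * ⁅x, ⁅f, x⁆⁆ = ⁅x, ⁅f, x⁆⁆ * g) :
    ∀ z ∈ c.MM hx h, g * z = z * g := by
  refine comm_closure ?_
  refine c.gM_cases hx h h1 h2 h3 ?_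
  intro a ha f hf
  exact c.gen_comm_A hx h ha hg hf

lemma good_comm_E {u a : G} (ha : a ∈ A) (hG : c.Good hx h u a) : ∀ z ∈ EE A x, u * z = z * u := by
  refine EE_comm (fun b hb => c.am.comm u hG.1.1 b hb) ?_
  intro c' hc' f hf
  rw [← commutatorElement_eq_one_iff_mul_comm]
  have hf1 : ⁅u, ⁅f, x⁆⁆ = ⁅f, ⁅x, ⁅a, x⁆⁆⁆ := c.good_act hx h ha hG hf
  have hF : ⁅u, ⁅f, x⁆⁆ ∈ FF A D Y x := by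
    rw [c.swap_A2 hx h hG.1 hf]
    exact c.F_dl hx h hf hG.1.2
  rw [comm_swap (c.am.comm u hG.1.1 c' hc')
    (c.F_comm hx h _ hF _ (c.E_le_F hx (gen_mem_EE hc' hf))), hf1]
  exact c.wwb hx hf hc' ha

lemma good_comm_M {u a : G} (ha : a ∈ A) (hG : c.Good hx h u a) :
    ∀ z ∈ c.MM hx h, u * z = z * u := by
  refine c.comm_M hx h hG.1.1 (c.good_comm_E hx h ha hG) ?_ ?_
  · intro v hv
    rw [← commutatorElement_eq_one_iff_mul_comm, c.good_act hx h ha hG hv.1]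
    exact c.A2_comm_bt hx h hv ha
  · intro f hf
    exact commutatorElement_eq_one_iff_mul_comm.1 (c.A2_comm_bt hx h hG.1 hf)

lemma D2_comm_y {d a : G} (hd : d ∈ D2 A x) (ha : a ∈ A) : d * ⁅a, x⁆ = ⁅a, x⁆ * d := by
  rw [← commutatorElement_eq_one_iff_mul_comm, c.swapA hd.1 ha,
    commutatorElement_eq_one_iff_mul_comm.2 (c.am.comm a ha _ hd.2), one_mul,
    commutatorElement_eq_one_iff_mul_comm]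
  exact (h.cc a ha _ ⟨hd.2, c.yD hx hd.1⟩).symm

lemma D2_comm_E {d : G} (hd : d ∈ D2 A x) : ∀ z ∈ EE A x, d * z = z * d := by
  refine EE_comm (fun b hb => c.am.comm d hd.1 b hb) ?_
  intro c' hc' f hf
  exact comm_of_comm (c.am.comm d hd.1 c' hc') (c.D2_comm_y hx h hd hf)

lemma D2_comm_M {d : G} (hd : d ∈ D2 A x) : ∀ z ∈ c.MM hx h, d * z = z * d := by
  refine c.comm_M hx h hd.1 (c.D2_comm_E hx h hd) ?_ ?_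
  · intro v hv
    exact c.D2_comm_y hx h hd hv.1
  · intro f hf
    exact commutatorElement_eq_one_iff_mul_comm.1 (c.A2_comm_bt hx h (c.D2_le_A2 hx h hd) hf)

end Ctx

end Cfsg.Agent.Lib.JCtl.Core
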