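import Cfsg.Agent.Lib.JCtl.Core2

/-!
# The counting step of the core argument
-/

set_option autoImplicit false
set_option linter.unusedSectionVars false

namespace Cfsg.Agent.Lib.JCtl.Core

open Subgroup Cfsg Cfsg.Agent.Lib.JCtl.Exchange Cfsg.Agent.Lib.JCtl.Dich
open scoped commutatorElement

variable {G : Type*} [Group G] [Finite G]

/-- Injections between products of coset spaces. -/
lemma rel_inj {H₁ K₁ H₂ K₂ H₃ K₃ : Subgroup G} (f : G → G → G)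
    (hf : ∀ k₁ ∈ K₁, ∀ k₂ ∈ K₂, f k₁ k₂ ∈ K₃)
    (h1 : ∀ k₁ ∈ K₁, ∀ k₁' ∈ K₁, ∀ k₂ ∈ K₂, ∀ k₂' ∈ K₂, (f k₁ k₂)⁻¹ * f k₁' k₂' ∈ H₃ → k₁⁻¹ * k₁' ∈ H₁)
    (h2 : ∀ k₁ ∈ K₁, ∀ k₂ ∈ K₂, ∀ k₂' ∈ K₂, (f k₁ k₂)⁻¹ * f k₁ k₂' ∈ H₃ → k₂⁻¹ * k₂' ∈ H₂) :
    H₁.relIndex K₁ * H₂.relIndex K₂ ≤ H₃.relIndex K₃ ∧
      (H₃.relIndex K₃ ≤ H₁.relIndex K₁ * H₂.relIndex K₂ →
        ∀ m ∈ K₃, ∃ k₁ ∈ K₁, ∃ k₂ ∈ K₂, (f k₁ k₂)⁻¹ * m ∈ H₃) := by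
  classical
  let Φ : (K₁ ⧸ H₁.subgroupOf K₁) × (K₂ ⧸ H₂.subgroupOf K₂) → K₃ ⧸ H₃.subgroupOf K₃ := fun q =>
    QuotientGroup.mk ⟨f (q.1.out : K₁) (q.2.out : K₂), hf _ (q.1.out).2 _ (q.2.out).2⟩
  have hinj : Function.Injective Φ := by
    rintro ⟨q₁, q₂⟩ ⟨r₁, r₂⟩ he
    have h3 := QuotientGroup.eq.1 he
    rw [Subgroup.mem_subgroupOf] at h3
    have h4 : (f (q₁.out : K₁) (q₂.out : K₂))⁻¹ * f (r₁.out : K₁) (r₂.out : K₂) ∈ H₃ := h3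
    have h5 := h1 _ (q₁.out).2 _ (r₁.out).2 _ (q₂.out).2 _ (r₂.out).2 h4
    have h6 : q₁ = r₁ := by
      rw [← QuotientGroup.out_eq' q₁, ← QuotientGroup.out_eq' r₁]
      apply QuotientGroup.eq.2
      rw [Subgroup.mem_subgroupOf]
      exact h5
    subst h6
    have h7 := h2 _ (q₁.out).2 _ (q₂.out).2 _ (r₂.out).2 h4
    have h8 : q₂ = r₂ := by
      rw [← QuotientGroup.out_eq' q₂, ← QuotientGroup.out_eq' r₂]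
      apply QuotientGroup.eq.2
      rw [Subgroup.mem_subgroupOf]
      exact h7
    rw [h8]
  have hc : Nat.card ((K₁ ⧸ H₁.subgroupOf K₁) × (K₂ ⧸ H₂.subgroupOf K₂)) =
      H₁.relIndex K₁ * H₂.relIndex K₂ := by
    rw [Nat.card_prod]
    rfl
  have hc3 : Nat.card (K₃ ⧸ H₃.subgroupOf K₃) = H₃.relIndex K₃ := rfl
  refine ⟨?_, ?_⟩
  · rw [← hc, ← hc3]
    exact Nat.card_le_card_of_injective Φ hinj
  · intro hle m hm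
    have hbij := hinj.bijective_of_nat_card_le (by rw [hc, hc3]; exact hle)
    obtain ⟨⟨q₁, q₂⟩, hq⟩ := hbij.2 (QuotientGroup.mk ⟨m, hm⟩)
    refine ⟨_, (q₁.out).2, _, (q₂.out).2, ?_⟩
    have h3 := QuotientGroup.eq.1 hq
    rw [Subgroup.mem_subgroupOf] at h3
    exact h3

namespace Ctx

variable {p : ℕ} [Fact p.Prime] {S O A D Y : Subgroup G} (c : Ctx p S O A D Y) {x : G}
  (hx : x ∈ D) (h : CH A D x)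

/-- Elements of `A` acting on the `y_b` through `Y` and centralizing `M`. -/
def AA3 : Subgroup G :=
  finSub (fun t => t ∈ A ∧ (∀ b ∈ A, ⁅t, ⁅b, x⁆⁆ ∈ Y) ∧ ∀ z ∈ c.MM hx h, t * z = z * t)
    ⟨A.one_mem, by simp [Subgroup.one_mem], by simp⟩
    (fun a a' ha ha' => ⟨A.mul_mem ha.1 ha'.1, fun b hb => by
        rw [Cfsg.Agent.Lib.KInf.Comm.comm_mul_left]
        exact Y.mul_mem (c.AY a ha.1 _ (ha'.2.1 b hb)) (ha.2.1 b hb), fun z hz => by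
        have h1 : Commute a z := ha.2.2 z hz
        have h2 : Commute a' z := ha'.2.2 z hz
        exact h1.mul_left h2⟩)

include c hx h

lemma good_mem_AA3 {u a : G} (ha : a ∈ A) (hG : c.Good hx h u a) : u ∈ c.AA3 hx h := by
  refine ⟨hG.1.1, fun b hb => ?_, c.good_comm_M hx h ha hG⟩
  rw [c.good_act hx h ha hG hb]
  exact c.dlY hb (c.bt_mem hx ha)

lemma good_conj_pow {u a b : G} (ha : a ∈ A) (hG : c.Good hx h u a) (hb : b ∈ A) (n : ℕ) :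
    u ^ n * ⁅b, x⁆ * (u ^ n)⁻¹ = ⁅b, ⁅x, ⁅a, x⁆⁆⁆ ^ n * ⁅b, x⁆ := by
  have hzA := c.dlbt_mem_A hx hb ha
  have huc : u * ⁅b, ⁅x, ⁅a, x⁆⁆⁆ = ⁅b, ⁅x, ⁅a, x⁆⁆⁆ * u := c.am.comm _ hG.1.1 _ hzA
  induction n with
  | zero => simp
  | succ n ih =>
    rw [pow_succ' u, pow_succ ⁅b, ⁅x, ⁅a, x⁆⁆⁆]
    calc u * u ^ n * ⁅b, x⁆ * (u * u ^ n)⁻¹ = u * (u ^ n * ⁅b, x⁆ * (u ^ n)⁻¹) * u⁻¹ := by group
      _ = u * (⁅b, ⁅x, ⁅a, x⁆⁆⁆ ^ n * ⁅b, x⁆) * u⁻¹ := by rw [ih]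
      _ = ⁅b, ⁅x, ⁅a, x⁆⁆⁆ ^ n * (u * ⁅b, x⁆ * u⁻¹) := by
          have : Commute u (⁅b, ⁅x, ⁅a, x⁆⁆⁆ ^ n) := Commute.pow_right huc n
          rw [← mul_assoc u, this.eq]
          group
      _ = _ := by
          rw [conj_eq, c.good_act hx h ha hG hb]
          group

/-- The relation between the two actions. -/
lemma zeta_rel {a b : G} (ha : a ∈ A) (hb : b ∈ A) :
    ⁅a, ⁅x, ⁅b, x⁆⁆⁆ = ⁅b, ⁅x, ⁅a, x⁆⁆⁆ * (⁅⁅a, x⁆, ⁅b, x⁆⁆ * ⁅⁅a, x⁆, ⁅b, x⁆⁆) := by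
  have hya := c.yD hx ha
  have hyb := c.yD hx hb
  have ht := c.DD _ hya _ hyb
  rw [c.bt_dl hx h ha hb, c.bt_dl hx h hb ha, c.swapA ha hb,
    c.bil_r hx (c.dlD hb hya) (c.YD ht), c.comm_Y_r ht hx, mul_one, ← commutatorElement_inv ⁅a, x⁆ ⁅b, x⁆]
  have hw := c.DD x hx _ (c.dlD hb hya)
  have e := c.Yab ht hw
  generalize ⁅⁅a, x⁆, ⁅b, x⁆⁆ = t at *
  generalize ⁅x, ⁅b, ⁅a, x⁆⁆⁆ = w at *
  calc t * w = w * t := e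
    _ = w * t⁻¹ * (t * t) := by group
    _ = t⁻¹ * w * (t * t) := by rw [← (show Commute t w from e).inv_left.eq]

/-- The corrected generators commute. -/
lemma X_comm (e : ℕ) (he : ∀ s ∈ S, s ^ (2 * e) = s) {u u' a b : G} (ha : a ∈ A) (hb : b ∈ A)
    (hG : c.Good hx h u a) (hG' : c.Good hx h u' b) :
    (u ^ e * ⁅a, x⁆) * (u' ^ e * ⁅b, x⁆) = (u' ^ e * ⁅b, x⁆) * (u ^ e * ⁅a, x⁆) := by
  have e1 := c.good_conj_pow hx h ha hG hb e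
  have e2 := c.good_conj_pow hx h hb hG' ha e
  have hrel := c.zeta_rel hx h ha hb
  have htY := c.DD _ (c.yD hx ha) _ (c.yD hx hb)
  have hz1Y := c.dlY hb (c.bt_mem hx ha)
  have hz2A := c.dlbt_mem_A hx ha hb
  have hz1A := c.dlbt_mem_A hx hb ha
  have hz1Yp : ⁅b, ⁅x, ⁅a, x⁆⁆⁆ ^ e ∈ Y := Y.pow_mem hz1Y e
  have hU : u ^ e ∈ A := A.pow_mem hG.1.1 e
  have hV : u' ^ e ∈ A := A.pow_mem hG'.1.1 e
  have hts : ⁅⁅a, x⁆, ⁅b, x⁆⁆ ∈ S := c.D_le_S hx (c.YD htY)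
  have ht2 : (⁅⁅a, x⁆, ⁅b, x⁆⁆ * ⁅⁅a, x⁆, ⁅b, x⁆⁆) ^ e = ⁅⁅a, x⁆, ⁅b, x⁆⁆ := by
    rw [← pow_two, ← pow_mul]
    exact he _ hts
  have hzt : Commute ⁅b, ⁅x, ⁅a, x⁆⁆⁆ (⁅⁅a, x⁆, ⁅b, x⁆⁆ * ⁅⁅a, x⁆, ⁅b, x⁆⁆) :=
    (show Commute ⁅b, ⁅x, ⁅a, x⁆⁆⁆ ⁅⁅a, x⁆, ⁅b, x⁆⁆ from c.Yab hz1Y htY).mul_right
      (show Commute ⁅b, ⁅x, ⁅a, x⁆⁆⁆ ⁅⁅a, x⁆, ⁅b, x⁆⁆ from c.Yab hz1Y htY)
  have hZ : ⁅a, ⁅x, ⁅b, x⁆⁆⁆ ^ e = ⁅b, ⁅x, ⁅a, x⁆⁆⁆ ^ e * ⁅⁅a, x⁆, ⁅b, x⁆⁆ := by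
    rw [hrel, hzt.mul_pow, ht2]
  have hz1Ap : ⁅b, ⁅x, ⁅a, x⁆⁆⁆ ^ e ∈ A := A.pow_mem hz1A e
  have hz2Ap : ⁅a, ⁅x, ⁅b, x⁆⁆⁆ ^ e ∈ A := A.pow_mem hz2A e
  have hc1 : Commute (⁅b, ⁅x, ⁅a, x⁆⁆⁆ ^ e) ⁅⁅a, x⁆, ⁅b, x⁆⁆ := c.Yab hz1Yp htY
  generalize ⁅a, ⁅x, ⁅b, x⁆⁆⁆ ^ e = Z₂ at *
  generalize ⁅b, ⁅x, ⁅a, x⁆⁆⁆ ^ e = Z₁ at *
  generalize hP : ⁅a, x⁆ = P at *
  generalize hQ : ⁅b, x⁆ = Q at *
  generalize u ^ e = U at *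
  generalize u' ^ e = V at *
  have hVZ : V * Z₂ = Z₂ * V := c.am.comm V hV Z₂ hz2Ap
  have hUZ : U * Z₁ = Z₁ * U := c.am.comm U hU Z₁ hz1Ap
  have hUV : U * V = V * U := c.am.comm U hU V hV
  have hPV : P * V = V * (Z₂⁻¹ * P) := by
    have h1 : V * P = Z₂ * P * V := by rw [← e2]; group
    have h2 : V * Z₂⁻¹ = Z₂⁻¹ * V := (show Commute V Z₂ from hVZ).inv_right
    rw [← mul_assoc, h2, mul_assoc, h1]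
    group
  have hQU : Q * U = U * (Z₁⁻¹ * Q) := by
    have h1 : U * Q = Z₁ * Q * U := by rw [← e1]; group
    have h2 : U * Z₁⁻¹ = Z₁⁻¹ * U := (show Commute U Z₁ from hUZ).inv_right
    rw [← mul_assoc, h2, mul_assoc, h1]
    group
  have hPQ : P * Q = ⁅P, Q⁆ * (Q * P) := by
    rw [commutatorElement_def]; group
  have hfin : Z₂⁻¹ * (P * Q) = Z₁⁻¹ * (Q * P) := by
    rw [hPQ, hZ, ← mul_assoc, mul_inv_rev]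
    have : ⁅P, Q⁆⁻¹ * Z₁⁻¹ * ⁅P, Q⁆ = Z₁⁻¹ := by
      have h3 : Z₁⁻¹ * ⁅P, Q⁆ = ⁅P, Q⁆ * Z₁⁻¹ := hc1.inv_left.eq
      rw [mul_assoc, h3]
      group
    rw [this]
  calc U * P * (V * Q) = U * (P * V) * Q := by group
    _ = U * V * (Z₂⁻¹ * (P * Q)) := by rw [hPV]; group
    _ = V * U * (Z₁⁻¹ * (Q * P)) := by rw [hUV, hfin]
    _ = V * (U * (Z₁⁻¹ * Q)) * P := by group
    _ = V * (Q * U) * P := by rw [hQU]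
    _ = _ := by group

/-- The corrected generators. -/
def gX (e : ℕ) : Set G := {g | ∃ a ∈ A, ∃ u, c.Good hx h u a ∧ g = u ^ e * ⁅a, x⁆}

/-- The abelian group `I♯`. -/
def II (e : ℕ) : Subgroup G := closure ((c.MM hx h : Set G) ∪ c.gX hx h e)

lemma M_le_II (e : ℕ) : c.MM hx h ≤ c.II hx h e := fun _ hz => subset_closure (Or.inl hz)

lemma X_mem_II (e : ℕ) {a u : G} (ha : a ∈ A) (hG : c.Good hx h u a) : u ^ e * ⁅a, x⁆ ∈ c.II hx h e :=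
  subset_closure (Or.inr ⟨a, ha, u, hG, rfl⟩)

omit c hx h in
lemma comm_closure2 {s : Set G} (hs : ∀ a ∈ s, ∀ b ∈ s, a * b = b * a) :
    ∀ a ∈ closure s, ∀ b ∈ closure s, a * b = b * a := by
  intro a ha b hb
  refine comm_closure (g := a) ?_ b hb
  intro y hy
  exact (comm_closure (g := y) (fun z hz => hs y hy z hz) a ha).symm

lemma II_comm (e : ℕ) (he : ∀ s ∈ S, s ^ (2 * e) = s) :
    ∀ a ∈ c.II hx h e, ∀ b ∈ c.II hx h e, a * b = b * a := by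
  have hXM : ∀ g ∈ c.gX hx h e, ∀ z ∈ c.MM hx h, g * z = z * g := by
    rintro _ ⟨a, ha, u, hG, rfl⟩ z hz
    have h1 : Commute u z := c.good_comm_M hx h ha hG z hz
    have h2 : Commute ⁅a, x⁆ z := c.y_comm_F hx h ha (c.M_le_F hx h hz)
    exact (h1.pow_left e).mul_left h2
  refine comm_closure2 ?_
  rintro g₁ (hg₁ | hg₁) g₂ (hg₂ | hg₂)
  · exact c.M_comm hx h g₁ hg₁ g₂ hg₂
  · exact (hXM g₂ hg₂ g₁ hg₁).symm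
  · exact hXM g₁ hg₁ g₂ hg₂
  · obtain ⟨a, ha, u, hG, rfl⟩ := hg₁
    obtain ⟨b, hb, u', hG', rfl⟩ := hg₂
    exact c.X_comm hx h e he ha hb hG hG'

lemma II_le_S (e : ℕ) : c.II hx h e ≤ S := by
  rw [II, closure_le]
  rintro g (hg | ⟨a, ha, u, hG, rfl⟩)
  · exact c.D_le_S hx ((c.M_le_F hx h).trans (c.F_le_D hx) hg)
  · exact S.mul_mem (S.pow_mem (c.am.le hG.1.1) e) (c.D_le_S hx (c.yD hx ha))

lemma D2_comm_II (e : ℕ) {d : G} (hd : d ∈ D2 A x) : ∀ z ∈ c.II hx h e, d * z = z * d := by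
  refine comm_closure ?_
  rintro g (hg | ⟨a, ha, u, hG, rfl⟩)
  · exact c.D2_comm_M hx h hd g hg
  · have h1 : Commute d u := c.am.comm d hd.1 u hG.1.1
    have h2 : Commute d ⁅a, x⁆ := c.D2_comm_y hx h hd ha
    exact (h1.pow_right e).mul_right h2

/-- The bound for `I♯`. -/
lemma card_II (e : ℕ) (he : ∀ s ∈ S, s ^ (2 * e) = s) : A.relIndex (c.II hx h e) ≤ (D2 A x).relIndex A := by
  have hDA : D2 A x ≤ A := fun _ hd => hd.1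
  have hcomm : ∀ z ∈ c.II hx h e, ∀ d ∈ D2 A x, z * d = d * z :=
    fun z hz d hd => (c.D2_comm_II hx h e hd z hz).symm
  have h1 := Cfsg.Agent.Lib.Transfer.JCore.card_sup_mul_card_inf_of_comm hcomm
  have h2 := c.am.max _ (sup_le (c.II_le_S hx h e) (hDA.trans c.am.le))
    (comm_sup (c.II_comm hx h e he) (fun a ha b hb => c.am.comm a (hDA ha) b (hDA hb)) hcomm)
  have h3 : Nat.card (c.II hx h e ⊓ D2 A x : Subgroup G) ≤ Nat.card (c.II hx h e ⊓ A : Subgroup G) :=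
    Subgroup.card_le_of_le (inf_le_inf_left _ hDA)
  have h4 : Nat.card (c.II hx h e ⊓ A : Subgroup G) * A.relIndex (c.II hx h e) = Nat.card (c.II hx h e) := by
    have := Subgroup.relIndex_mul_relIndex (⊥ : Subgroup G) (c.II hx h e ⊓ A) (c.II hx h e) bot_le inf_le_left
    rwa [Subgroup.relIndex_bot_left, Subgroup.relIndex_bot_left, Subgroup.inf_relIndex_left] at this
  have h5 : Nat.card (D2 A x) * (D2 A x).relIndex A = Nat.card A := by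
    have := Subgroup.relIndex_mul_relIndex (⊥ : Subgroup G) (D2 A x) A bot_le hDA
    rwa [Subgroup.relIndex_bot_left, Subgroup.relIndex_bot_left] at this
  have hpos : 0 < Nat.card (c.II hx h e ⊓ A : Subgroup G) * Nat.card (D2 A x) :=
    Nat.mul_pos Nat.card_pos Nat.card_pos
  apply Nat.le_of_mul_le_mul_left _ hpos
  calc _ = Nat.card (c.II hx h e) * Nat.card (D2 A x) := by rw [← h4]; ring
    _ = Nat.card (c.II hx h e ⊔ D2 A x : Subgroup G) * Nat.card (c.II hx h e ⊓ D2 A x : Subgroup G) := h1.symm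
    _ ≤ Nat.card A * Nat.card (c.II hx h e ⊓ A : Subgroup G) := Nat.mul_le_mul h2 h3
    _ = _ := by rw [← h5]; ring

lemma A2_of_F {a a' : G} (ha : a ∈ A) (ha' : a' ∈ A) (hF : ⁅a, x⁆⁻¹ * ⁅a', x⁆ ∈ FF A D Y x) :
    a⁻¹ * a' ∈ c.A2 hx h := by
  refine ⟨A.mul_mem (A.inv_mem ha) ha', ?_⟩
  set w := a⁻¹ * a' with hw
  have e : a * w = a' := by rw [hw]; group
  have h1 : ⁅a', x⁆ = a * ⁅w, x⁆ * a⁻¹ * ⁅a, x⁆ := by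
    rw [← Cfsg.Agent.Lib.KInf.Comm.comm_mul_left, e]
  have h2 := c.y_comm_F hx h ha hF
  have h3 : a * ⁅w, x⁆ * a⁻¹ = ⁅a, x⁆⁻¹ * ⁅a', x⁆ := by
    have h4 : ⁅a, x⁆ * (⁅a, x⁆⁻¹ * ⁅a', x⁆) * ⁅a, x⁆⁻¹ = ⁅a, x⁆⁻¹ * ⁅a', x⁆ := by
      rw [h2]; group
    rw [← h4, h1]
    group
  have h5 : a * ⁅w, x⁆ * a⁻¹ ∈ FF A D Y x := by rw [h3]; exact hF
  have h6 := c.F_conj hx h (A.inv_mem ha) h5
  have h7 : a⁻¹ * (a * ⁅w, x⁆ * a⁻¹) * a⁻¹⁻¹ = ⁅w, x⁆ := by group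
  rwa [h7] at h6

/-- The first injection. -/
lemma psi1 (e : ℕ) : (c.A2 hx h).relIndex (c.KK hx h) * A.relIndex (c.MM hx h) ≤ A.relIndex (c.II hx h e) := by
  classical
  let uu : G → G := fun a => if hh : ∃ u, c.Good hx h u a then hh.choose else 1
  have huu : ∀ a ∈ c.KK hx h, c.Good hx h (uu a) a := by
    intro a ha
    have hh : ∃ u, c.Good hx h u a := ha.2
    show c.Good hx h (if hh : ∃ u, c.Good hx h u a then hh.choose else 1) a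
    rw [dif_pos hh]
    exact hh.choose_spec
  refine (rel_inj (fun a m => (uu a) ^ e * ⁅a, x⁆ * m) ?_ ?_ ?_).1
  · intro a ha m hm
    exact Subgroup.mul_mem _ (c.X_mem_II hx h e ha.1 (huu a ha)) (c.M_le_II hx h e hm)
  · intro a ha a' ha' m hm m' hm' hmem
    apply c.A2_of_F hx h ha.1 ha'.1
    have hU : (uu a) ^ e ∈ c.AA3 hx h :=
      Subgroup.pow_mem _ (c.good_mem_AA3 hx h ha.1 (huu a ha)) e
    have hV : (uu a') ^ e ∈ c.AA3 hx h :=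
      Subgroup.pow_mem _ (c.good_mem_AA3 hx h ha'.1 (huu a' ha')) e
    generalize (uu a) ^ e = U at *
    generalize (uu a') ^ e = V at *
    set τ := U⁻¹ * V with hτ
    have hτm : τ ∈ c.AA3 hx h := Subgroup.mul_mem _ (Subgroup.inv_mem _ hU) hV
    have hP' := c.yD hx ha'.1
    have hP := c.yD hx ha.1
    have hη : ⁅τ, ⁅a', x⁆⁆ ∈ Y := hτm.2.1 a' ha'.1
    have hτz : τ * m' = m' * τ := hτm.2.2 m' hm'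
    set η := ⁅τ, ⁅a', x⁆⁆ with hηdef
    have hstep : τ * ⁅a', x⁆ = η * ⁅a', x⁆ * τ := by
      rw [hηdef, ← conj_eq]; group
    have hexpr : (U * ⁅a, x⁆ * m)⁻¹ * (V * ⁅a', x⁆ * m') =
        (m⁻¹ * (⁅a, x⁆⁻¹ * (η * ⁅a', x⁆)) * m') * τ := by
      calc _ = m⁻¹ * ⁅a, x⁆⁻¹ * (τ * ⁅a', x⁆) * m' := by rw [hτ]; group
        _ = m⁻¹ * ⁅a, x⁆⁻¹ * (η * ⁅a', x⁆ * τ) * m' := by rw [hstep]
        _ = m⁻¹ * ⁅a, x⁆⁻¹ * η * ⁅a', x⁆ * (τ * m') := by group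
        _ = m⁻¹ * ⁅a, x⁆⁻¹ * η * ⁅a', x⁆ * (m' * τ) := by rw [hτz]
        _ = _ := by group
    rw [hexpr] at hmem
    have hW : m⁻¹ * (⁅a, x⁆⁻¹ * (η * ⁅a', x⁆)) * m' ∈ A := by
      have := A.mul_mem hmem (A.inv_mem hτm.1)
      simpa using this
    have hmF := c.M_le_F hx h hm
    have hmF' := c.M_le_F hx h hm'
    have hmD := c.F_le_D hx hmF
    have hmD' := c.F_le_D hx hmF'
    have hWD : m⁻¹ * (⁅a, x⁆⁻¹ * (η * ⁅a', x⁆)) * m' ∈ D :=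
      D.mul_mem (D.mul_mem (D.inv_mem hmD) (D.mul_mem (D.inv_mem hP) (D.mul_mem (c.YD hη) hP'))) hmD'
    have hWF := c.alpha_le_F hx ⟨hW, hWD⟩
    have hc : ⁅a, x⁆⁻¹ * η = η * ⁅a, x⁆⁻¹ := (show Commute η ⁅a, x⁆ from (c.Yc η hη _ hP).symm).inv_right.symm.eq
    have hfinal : ⁅a, x⁆⁻¹ * ⁅a', x⁆ =
        η⁻¹ * (m * (m⁻¹ * (⁅a, x⁆⁻¹ * (η * ⁅a', x⁆)) * m') * m'⁻¹) := by
      calc _ = η⁻¹ * (η * ⁅a, x⁆⁻¹) * ⁅a', x⁆ := by group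
        _ = η⁻¹ * (⁅a, x⁆⁻¹ * η) * ⁅a', x⁆ := by rw [hc]
        _ = _ := by group
    rw [hfinal]
    exact Subgroup.mul_mem _ (Subgroup.inv_mem _ (c.Y_le_F hx hη))
      (Subgroup.mul_mem _ (Subgroup.mul_mem _ hmF hWF) (Subgroup.inv_mem _ hmF'))
  · intro a _ m _ m' _ hmem
    have e1 : ((uu a) ^ e * ⁅a, x⁆ * m)⁻¹ * ((uu a) ^ e * ⁅a, x⁆ * m') = m⁻¹ * m' := by group
    rwa [e1] at hmem

lemma y_div {v v' : G} (hv : v ∈ c.A2 hx h) (hv' : v' ∈ c.A2 hx h) :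
    ⁅v, x⁆⁻¹ * ⁅v', x⁆ = v * ⁅v⁻¹ * v', x⁆ * v⁻¹ := by
  have hw : v⁻¹ * v' ∈ c.A2 hx h := Subgroup.mul_mem _ (Subgroup.inv_mem _ hv) hv'
  have e : v * (v⁻¹ * v') = v' := by group
  have h1 : ⁅v', x⁆ = v * ⁅v⁻¹ * v', x⁆ * v⁻¹ * ⁅v, x⁆ := by
    rw [← Cfsg.Agent.Lib.KInf.Comm.comm_mul_left, e]
  have h2 := c.y_comm_F hx h hv.1 (c.F_conj hx h hv.1 hw.2)
  rw [h1, ← h2]
  group

/-- The surjectivity statement. -/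
theorem M_surj (e : ℕ) (he : ∀ s ∈ S, s ^ (2 * e) = s) :
    ∀ m ∈ c.MM hx h, ∃ a ∈ A, ∃ v ∈ c.A2 hx h, (⁅v, x⁆ * ⁅x, ⁅a, x⁆⁆)⁻¹ * m ∈ A := by
  have hinj := rel_inj (H₁ := c.KK hx h) (K₁ := A) (H₂ := D2 A x) (K₂ := c.A2 hx h)
    (H₃ := A) (K₃ := c.MM hx h) (fun a v => ⁅v, x⁆ * ⁅x, ⁅a, x⁆⁆) ?_ ?_ ?_
  · apply hinj.2
    have h1 := c.psi1 hx h e
    have h2 := c.card_II hx h e he
    have hKA : c.KK hx h ≤ A := fun _ hk => hk.1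
    have hA2K := c.A2_le_KK hx h
    have hDA2 := c.D2_le_A2 hx h
    have h3 : (D2 A x).relIndex A = (D2 A x).relIndex (c.A2 hx h) * (c.A2 hx h).relIndex (c.KK hx h) * (c.KK hx h).relIndex A := by
      rw [Subgroup.relIndex_mul_relIndex _ _ _ hDA2 hA2K, Subgroup.relIndex_mul_relIndex _ _ _ (hDA2.trans hA2K) hKA]
    have hpos : 0 < (c.A2 hx h).relIndex (c.KK hx h) := Nat.pos_of_ne_zero Subgroup.FiniteIndex.index_ne_zero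
    apply Nat.le_of_mul_le_mul_left _ hpos
    calc _ ≤ (D2 A x).relIndex A := h1.trans h2
      _ = _ := by rw [h3]; ring
  · intro a ha v hv
    exact Subgroup.mul_mem _ (c.y_mem_M hx h hv) (c.bt_mem_M hx h ha)
  · intro a ha a' ha' v hv v' hv' hmem
    set t := a⁻¹ * a' with ht
    have htA : t ∈ A := A.mul_mem (A.inv_mem ha) ha'
    set w := v⁻¹ * v' with hw
    have hwA2 : w ∈ c.A2 hx h := Subgroup.mul_mem _ (Subgroup.inv_mem _ hv) hv'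
    refine ⟨htA, w⁻¹, Subgroup.inv_mem _ hwA2, ?_⟩
    have hat : a * t = a' := by rw [ht]; group
    have hbm := c.bt_mul hx h ha htA
    rw [hat] at hbm
    have hγ : ⁅x, ⁅a, ⁅t, x⁆⁆⁆ ∈ A := c.gamma_mem_A hx h (gen_mem_EE ha htA)
    have hγY : ⁅x, ⁅a, ⁅t, x⁆⁆⁆ ∈ Y := c.DD x hx _ (c.dlD ha (c.yD hx htA))
    have hβt := c.bt_mem hx htA
    have hβa := c.bt_mem hx ha
    have hdiv := c.y_div hx h hv hv'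
    rw [← hw] at hdiv
    have hZD : v * ⁅w, x⁆ * v⁻¹ ∈ D := c.AD v hv.1 _ (c.yD hx hwA2.1)
    -- the expression
    have hexpr : (⁅v, x⁆ * ⁅x, ⁅a, x⁆⁆)⁻¹ * (⁅v', x⁆ * ⁅x, ⁅a', x⁆⁆) =
        (v * ⁅w, x⁆ * v⁻¹) * ⁅x, ⁅t, x⁆⁆ * ⁅x, ⁅a, ⁅t, x⁆⁆⁆ := by
      rw [hbm]
      generalize ⁅x, ⁅a, ⁅t, x⁆⁆⁆ = γ at *
      generalize ⁅x, ⁅t, x⁆⁆ = βt at *
      generalize ⁅x, ⁅a, x⁆⁆ = βa at *
      have hc1 := c.Yc _ hβa _ (D.mul_mem (D.mul_mem hZD (c.YD hβt)) (c.YD hγY))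
      have hc2 := c.Yab hγY hβt
      calc _ = βa⁻¹ * (⁅v, x⁆⁻¹ * ⁅v', x⁆) * (γ * βt * βa) := by group
        _ = βa⁻¹ * ((v * ⁅w, x⁆ * v⁻¹) * (βt * γ)) * βa := by rw [hdiv, ← hc2]; group
        _ = βa⁻¹ * (βa * ((v * ⁅w, x⁆ * v⁻¹) * βt * γ)) := by
            rw [mul_assoc, ← hc1]; group
        _ = _ := by group
    rw [hexpr] at hmem
    have h1 : (v * ⁅w, x⁆ * v⁻¹) * ⁅x, ⁅t, x⁆⁆ ∈ A := by
      have := A.mul_mem hmem (A.inv_mem hγ)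
      rwa [mul_inv_cancel_right] at this
    have hvt : v * ⁅x, ⁅t, x⁆⁆ = ⁅x, ⁅t, x⁆⁆ * v :=
      commutatorElement_eq_one_iff_mul_comm.1 (c.A2_comm_bt hx h hv htA)
    have h2 : ⁅w, x⁆ * ⁅x, ⁅t, x⁆⁆ ∈ A := by
      have h3 := A.mul_mem (A.mul_mem (A.inv_mem hv.1) h1) hv.1
      have h4 : v⁻¹ * ((v * ⁅w, x⁆ * v⁻¹) * ⁅x, ⁅t, x⁆⁆) * v = ⁅w, x⁆ * ⁅x, ⁅t, x⁆⁆ := by
        calc _ = ⁅w, x⁆ * (v⁻¹ * ⁅x, ⁅t, x⁆⁆ * v) := by group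
          _ = ⁅w, x⁆ * (v⁻¹ * (v * ⁅x, ⁅t, x⁆⁆)) := by rw [mul_assoc v⁻¹, ← hvt]
          _ = _ := by group
      rwa [h4] at h3
    have hwt : w * ⁅x, ⁅t, x⁆⁆ = ⁅x, ⁅t, x⁆⁆ * w :=
      commutatorElement_eq_one_iff_mul_comm.1 (c.A2_comm_bt hx h hwA2 htA)
    have h5 : ⁅x, ⁅t, x⁆⁆ * ⁅w⁻¹, x⁆⁻¹ = w⁻¹ * (⁅w, x⁆ * ⁅x, ⁅t, x⁆⁆) * w := by
      rw [Cfsg.Agent.Lib.KInf.Comm.comm_inv_left]
      have h6 := c.Yc _ hβt _ (c.yD hx hwA2.1)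
      have h7 : ⁅x, ⁅t, x⁆⁆ * w⁻¹ = w⁻¹ * ⁅x, ⁅t, x⁆⁆ := (show Commute w ⁅x, ⁅t, x⁆⁆ from hwt).inv_left.eq.symm
      calc _ = ⁅x, ⁅t, x⁆⁆ * w⁻¹ * ⁅w, x⁆ * w := by group
        _ = w⁻¹ * ⁅x, ⁅t, x⁆⁆ * ⁅w, x⁆ * w := by rw [h7]
        _ = w⁻¹ * (⁅x, ⁅t, x⁆⁆ * ⁅w, x⁆) * w := by group
        _ = _ := by rw [← h6]
    rw [h5]
    exact A.mul_mem (A.mul_mem (A.inv_mem hwA2.1) h2) hwA2.1
  · intro a ha v hv v' hv' hmem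
    have hβa := c.bt_mem hx ha
    have hdiv := c.y_div hx h hv hv'
    have hwA2 : v⁻¹ * v' ∈ c.A2 hx h := Subgroup.mul_mem _ (Subgroup.inv_mem _ hv) hv'
    refine ⟨hwA2.1, ?_⟩
    have hZD : v * ⁅v⁻¹ * v', x⁆ * v⁻¹ ∈ D := c.AD v hv.1 _ (c.yD hx hwA2.1)
    have hexpr : (⁅v, x⁆ * ⁅x, ⁅a, x⁆⁆)⁻¹ * (⁅v', x⁆ * ⁅x, ⁅a, x⁆⁆) = v * ⁅v⁻¹ * v', x⁆ * v⁻¹ := by
      calc _ = ⁅x, ⁅a, x⁆⁆⁻¹ * ((⁅v, x⁆⁻¹ * ⁅v', x⁆) * ⁅x, ⁅a, x⁆⁆) := by group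
        _ = ⁅x, ⁅a, x⁆⁆⁻¹ * ((v * ⁅v⁻¹ * v', x⁆ * v⁻¹) * ⁅x, ⁅a, x⁆⁆) := by rw [hdiv]
        _ = ⁅x, ⁅a, x⁆⁆⁻¹ * (⁅x, ⁅a, x⁆⁆ * (v * ⁅v⁻¹ * v', x⁆ * v⁻¹)) := by
            rw [c.Yc _ hβa _ hZD]
        _ = _ := by group
    rw [hexpr] at hmem
    have h3 := A.mul_mem (A.mul_mem (A.inv_mem hv.1) hmem) hv.1
    have h4 : v⁻¹ * (v * ⁅v⁻¹ * v', x⁆ * v⁻¹) * v = ⁅v⁻¹ * v', x⁆ := by group
    rwa [h4] at h3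

end Ctx

end Cfsg.Agent.Lib.JCtl.Core
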