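import Cfsg.Agent.Lib.JCtl.Core3

/-!
# The core theorem
-/

set_option autoImplicit false
set_option linter.unusedSectionVars false

namespace Cfsg.Agent.Lib.JCtl.Core

open Subgroup Cfsg Cfsg.Agent.Lib.JCtl.Exchange Cfsg.Agent.Lib.JCtl.Dich
open scoped commutatorElement

variable {G : Type*} [Group G] [Finite G]

lemma dl_conj {d v z : G} (h : d * v = v * d) : ⁅v, d * z * d⁻¹⁆ = d * ⁅v, z⁆ * d⁻¹ := by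
  rw [Cfsg.Agent.Lib.KInf.Comm.conj_comm]
  have : d * v * d⁻¹ = v := by rw [h]; group
  rw [this]

lemma exists_half {p : ℕ} [Fact p.Prime] {S : Subgroup G} (hp : p ≠ 2) (hS : IsPGroup p S) :
    ∃ e : ℕ, ∀ s ∈ S, s ^ (2 * e) = s := by
  obtain ⟨k, hk⟩ := IsPGroup.iff_card.1 hS
  have hpp : p.Prime := Fact.out
  have hodd : Odd (Nat.card S) := by
    rw [hk]
    exact (hpp.odd_of_ne_two hp).pow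
  obtain ⟨m, hm⟩ := hodd
  refine ⟨m + 1, ?_⟩
  intro s hs
  have h1 : (⟨s, hs⟩ : S) ^ Nat.card S = 1 := pow_card_eq_one'
  have h2 : s ^ Nat.card S = 1 := congrArg Subtype.val h1
  have e : 2 * (m + 1) = Nat.card S + 1 := by omega
  rw [e, pow_succ, h2, one_mul]

namespace Ctx

variable {p : ℕ} [Fact p.Prime] {S O A D Y : Subgroup G} (c : Ctx p S O A D Y) {x : G}
  (hx : x ∈ D) (h : CH A D x)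

/-- The abelian group attached to `b`. -/
def QQ (b : G) : Subgroup G := closure (c.gM hx h ∪ {⁅b, x⁆})

lemma M_le_QQ (b : G) : c.MM hx h ≤ c.QQ hx h b := closure_mono Set.subset_union_left

lemma y_mem_QQ (b : G) : ⁅b, x⁆ ∈ c.QQ hx h b := subset_closure (Or.inr rfl)

include c hx h

lemma QQ_comm {b : G} (hb : b ∈ A) : ∀ z ∈ c.QQ hx h b, ∀ z' ∈ c.QQ hx h b, z * z' = z' * z := by
  refine comm_closure2 ?_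
  have hF : ∀ g ∈ c.gM hx h, g ∈ FF A D Y x := fun g hg => c.M_le_F hx h (subset_closure hg)
  rintro g₁ (hg₁ | hg₁) g₂ (hg₂ | hg₂)
  · exact c.F_comm hx h g₁ (hF _ hg₁) g₂ (hF _ hg₂)
  · rw [Set.mem_singleton_iff.1 hg₂]
    exact (c.y_comm_F hx h hb (hF _ hg₁)).symm
  · rw [Set.mem_singleton_iff.1 hg₁]
    exact c.y_comm_F hx h hb (hF _ hg₂)
  · rw [Set.mem_singleton_iff.1 hg₁, Set.mem_singleton_iff.1 hg₂]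

lemma QQ_conj {b a : G} (ha : a ∈ A) (hb : b ∈ A) : ∀ z ∈ c.QQ hx h b, a * z * a⁻¹ ∈ c.QQ hx h b := by
  refine conj_closure ?_
  rintro g (hg | hg)
  · exact c.M_le_QQ hx h b (c.M_conj hx h ha g (subset_closure hg))
  · rw [Set.mem_singleton_iff.1 hg, conj_eq]
    exact Subgroup.mul_mem _ (c.M_le_QQ hx h b (c.E_le_M hx h (gen_mem_EE ha hb))) (c.y_mem_QQ hx h b)

lemma QQ_le_D {b : G} (hb : b ∈ A) : c.QQ hx h b ≤ D := by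
  rw [QQ, closure_le]
  rintro g (hg | hg)
  · exact c.F_le_D hx (c.M_le_F hx h (subset_closure hg))
  · rw [Set.mem_singleton_iff.1 hg]
    exact c.yD hx hb

/-- The identity on the generators. -/
lemma key_gen {v a₀ b' a' α e' c₁ : G} (hv : v ∈ c.A2 hx h) (ha₀ : a₀ ∈ A) (hb' : b' ∈ A) (ha' : a' ∈ A)
    (hα : α ∈ A) (hy : ⁅a₀, ⁅b', x⁆⁆ = ⁅v, x⁆ * ⁅x, ⁅a', x⁆⁆ * α) (he' : e' ∈ A) (hc₁ : c₁ ∈ A) :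
    ⁅v, ⁅e', ⁅c₁, x⁆⁆⁆ = ⁅a₀, ⁅b', ⁅e', ⁅c₁, x⁆⁆⁆⁆ := by
  have E_F := c.E_le_F (Y := Y) hx
  have gE : ∀ {r s : G}, r ∈ A → s ∈ A → ⁅r, ⁅s, x⁆⁆ ∈ FF A D Y x := fun hr hs => E_F (gen_mem_EE hr hs)
  have hβ : ⁅x, ⁅a', x⁆⁆ ∈ FF A D Y x := c.Y_le_F hx (c.bt_mem hx ha')
  have hyF : ⁅a₀, ⁅b', x⁆⁆ ∈ FF A D Y x := gE ha₀ hb'
  have hαD : α ∈ D := by
    have e : α = (⁅v, x⁆ * ⁅x, ⁅a', x⁆⁆)⁻¹ * ⁅a₀, ⁅b', x⁆⁆ := by rw [hy]; group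
    rw [e]
    exact D.mul_mem (D.inv_mem (D.mul_mem (c.yD hx hv.1) (c.YD (c.bt_mem hx ha'))))
      (c.dlD ha₀ (c.yD hx hb'))
  have hαF : α⁻¹ ∈ FF A D Y x := Subgroup.inv_mem _ (c.alpha_le_F hx ⟨hα, hαD⟩)
  -- s1, s2
  have hvcF : ⁅v, ⁅c₁, x⁆⁆ ∈ FF A D Y x := by
    rw [c.swap_A2 hx h hv hc₁]
    exact c.F_dl hx h hc₁ hv.2
  have s1 : ⁅v, ⁅e', ⁅c₁, x⁆⁆⁆ = ⁅e', ⁅v, ⁅c₁, x⁆⁆⁆ :=
    comm_swap (c.am.comm v hv.1 e' he') (c.F_comm hx h _ hvcF _ (gE he' hc₁))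
  -- s3
  have hyv : ⁅v, x⁆ = ⁅a₀, ⁅b', x⁆⁆ * α⁻¹ * ⁅x, ⁅a', x⁆⁆⁻¹ := by rw [hy]; group
  have s3 : ⁅v, ⁅c₁, x⁆⁆ = ⁅c₁, ⁅a₀, ⁅b', x⁆⁆⁆ * ⁅c₁, ⁅x, ⁅a', x⁆⁆⁆⁻¹ := by
    rw [c.swap_A2 hx h hv hc₁, hyv, c.dl_mul_F hx h hc₁ (Subgroup.mul_mem _ hyF hαF) (Subgroup.inv_mem _ hβ),
      dl_of_comm (c.am.comm c₁ hc₁ _ (A.inv_mem hα)), c.dl_inv_F hx h hc₁ hβ]
  -- s4
  have hcβF : ⁅c₁, ⁅x, ⁅a', x⁆⁆⁆ ∈ FF A D Y x := c.F_dl hx h hc₁ hβ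
  have s4 : ⁅e', ⁅c₁, ⁅a₀, ⁅b', x⁆⁆⁆ * ⁅c₁, ⁅x, ⁅a', x⁆⁆⁆⁻¹⁆ = ⁅e', ⁅c₁, ⁅a₀, ⁅b', x⁆⁆⁆⁆ := by
    rw [c.dl_mul_F hx h he' (c.F_dl hx h hc₁ hyF) (Subgroup.inv_mem _ hcβF), c.dl_inv_F hx h he' hcβF,
      c.wwb hx hc₁ he' ha']
    simp
  -- s5
  have s5 : ⁅c₁, ⁅a₀, ⁅b', x⁆⁆⁆ = ⁅a₀, ⁅c₁, ⁅b', x⁆⁆⁆ :=
    comm_swap (c.am.comm c₁ hc₁ a₀ ha₀) (h.e2 _ (gen_mem_EE hc₁ hb') _ (gen_mem_EE ha₀ hb'))
  -- s6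
  have hν : ⁅⁅c₁, x⁆, ⁅b', x⁆⁆ ∈ Y := c.DD _ (c.yD hx hc₁) _ (c.yD hx hb')
  have s6 : ⁅a₀, ⁅c₁, ⁅b', x⁆⁆⁆ = ⁅a₀, ⁅b', ⁅c₁, x⁆⁆⁆ * ⁅a₀, ⁅⁅c₁, x⁆, ⁅b', x⁆⁆⁆ := by
    rw [c.swapA hc₁ hb', c.dl_mul_F hx h ha₀ (gE hb' hc₁) (c.Y_le_F hx hν)]
  -- s7
  have hw1 : ⁅a₀, ⁅b', ⁅c₁, x⁆⁆⁆ ∈ FF A D Y x := c.F_dl hx h ha₀ (gE hb' hc₁)
  have hw2 : ⁅a₀, ⁅⁅c₁, x⁆, ⁅b', x⁆⁆⁆ ∈ FF A D Y x := c.F_dl hx h ha₀ (c.Y_le_F hx hν)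
  have s7 : ⁅e', ⁅a₀, ⁅b', ⁅c₁, x⁆⁆⁆ * ⁅a₀, ⁅⁅c₁, x⁆, ⁅b', x⁆⁆⁆⁆ = ⁅e', ⁅a₀, ⁅b', ⁅c₁, x⁆⁆⁆⁆ := by
    rw [c.dl_mul_F hx h he' hw1 hw2, c.ww ha₀ he' (c.yD hx hc₁) (c.yD hx hb'), mul_one]
  -- s8, s9
  have hwE : ⁅b', ⁅c₁, x⁆⁆ ∈ EE A x := gen_mem_EE hb' hc₁
  have s8 : ⁅e', ⁅a₀, ⁅b', ⁅c₁, x⁆⁆⁆⁆ = ⁅a₀, ⁅e', ⁅b', ⁅c₁, x⁆⁆⁆⁆ :=
    comm_swap (c.am.comm e' he' a₀ ha₀) (h.e2 _ (dl_mem_EE he' hwE) _ (dl_mem_EE ha₀ hwE))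
  have s9 : ⁅e', ⁅b', ⁅c₁, x⁆⁆⁆ = ⁅b', ⁅e', ⁅c₁, x⁆⁆⁆ :=
    comm_swap (c.am.comm e' he' b' hb') (h.e2 _ (gen_mem_EE he' hc₁) _ (gen_mem_EE hb' hc₁))
  rw [s1, s3, s4, s5, s6, s7, s8, s9]

/-- The identity on the first term of the chain. -/
lemma step {v a₀ b' a' α b : G} (hv : v ∈ c.A2 hx h) (ha₀ : a₀ ∈ A) (hb' : b' ∈ A) (ha' : a' ∈ A)
    (hα : α ∈ A) (hy : ⁅a₀, ⁅b', x⁆⁆ = ⁅v, x⁆ * ⁅x, ⁅a', x⁆⁆ * α) (hb : b ∈ A) :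
    ∀ z ∈ chain A (c.QQ hx h b) 1, ⁅v, z⁆ = ⁅a₀, ⁅b', z⁆⁆ := by
  let L : Subgroup G := finSub (fun z => z ∈ FF A D Y x ∧ ⁅v, z⁆ = ⁅a₀, ⁅b', z⁆⁆)
    ⟨Subgroup.one_mem _, by simp⟩
    (fun z z' hz hz' => ⟨Subgroup.mul_mem _ hz.1 hz'.1, by
      rw [c.dl_mul_F hx h hv.1 hz.1 hz'.1, c.dl_mul_F hx h hb' hz.1 hz'.1,
        c.dl_mul_F hx h ha₀ (c.F_dl hx h hb' hz.1) (c.F_dl hx h hb' hz'.1), hz.2, hz'.2]⟩)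
  have hLconj : ∀ d ∈ A, ∀ z ∈ L, d * z * d⁻¹ ∈ L := by
    intro d hd z hz
    refine ⟨c.F_conj hx h hd hz.1, ?_⟩
    rw [dl_conj (c.am.comm d hd v hv.1), dl_conj (c.am.comm d hd b' hb'), dl_conj (c.am.comm d hd a₀ ha₀), hz.2]
  have hEL : EE A x ≤ L := by
    refine EE_le ?_ hLconj
    intro e' he' c₁ hc₁
    exact ⟨c.E_le_F hx (gen_mem_EE he' hc₁), c.key_gen hx h hv ha₀ hb' ha' hα hy he' hc₁⟩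
  have hQc := c.QQ_comm hx h hb
  have hQconj : ∀ a ∈ A, ∀ z ∈ c.QQ hx h b, a * z * a⁻¹ ∈ c.QQ hx h b := fun a ha => c.QQ_conj hx h ha hb
  have hdlQ : ∀ {e' n : G}, e' ∈ A → n ∈ c.QQ hx h b → ⁅e', n⁆ ∈ c.QQ hx h b := by
    intro e' n he' hn
    rw [commutatorElement_def]
    exact Subgroup.mul_mem _ (hQconj e' he' n hn) (Subgroup.inv_mem _ hn)
  let P : Subgroup G := finSub (fun n => n ∈ c.QQ hx h b ∧ ∀ e' ∈ A, ⁅e', n⁆ ∈ L)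
    ⟨Subgroup.one_mem _, by simp [Subgroup.one_mem]⟩
    (fun n n' hn hn' => ⟨Subgroup.mul_mem _ hn.1 hn'.1, fun e' he' => by
      rw [Cfsg.Agent.Lib.KInf.Comm.comm_mul_right, hQc n hn.1 _ (hdlQ he' hn'.1)]
      have : ⁅e', n⁆ * (⁅e', n'⁆ * n * n⁻¹) = ⁅e', n⁆ * ⁅e', n'⁆ := by group
      rw [this]
      exact L.mul_mem (hn.2 e' he') (hn'.2 e' he')⟩)
  have hQP : c.QQ hx h b ≤ P := by
    rw [QQ, closure_le]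
    rintro g (hg | hg)
    · refine ⟨subset_closure (Or.inl hg), ?_⟩
      revert hg g
      refine c.gM_cases hx h ?_ ?_ ?_ ?_
      · intro z hz e' he'
        exact hEL (dl_mem_EE he' hz)
      · intro u hu e' he'
        exact hEL (gen_mem_EE he' hu.1)
      · intro f hf e' he'
        refine ⟨c.Y_le_F hx (c.dlY he' (c.bt_mem hx hf)), ?_⟩
        rw [c.wwb hx he' hv.1 hf, c.wwb hx he' hb' hf]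
        simp
      · intro a ha f hf e' he'
        rw [commutatorElement_eq_one_iff_mul_comm.2 (c.gen_comm_A hx h ha he' hf)]
        exact L.one_mem
    · rw [Set.mem_singleton_iff.1 hg]
      refine ⟨c.y_mem_QQ hx h b, fun e' he' => hEL (gen_mem_EE he' hb)⟩
  have hcL : chain A (c.QQ hx h b) 1 ≤ L := by
    show ⁅A, c.QQ hx h b⁆ ≤ L
    rw [Subgroup.commutator_le]
    intro e' he' n hn
    exact (hQP hn).2 e' he'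
  intro z hz
  exact (hcL hz).2

/-- The core theorem. -/
theorem core_final (e : ℕ) (he : ∀ s ∈ S, s ^ (2 * e) = s) {b : G} (hb : b ∈ A) :
    ∀ a ∈ A, ∀ d ∈ A, ⁅d, ⁅a, ⁅b, x⁆⁆⁆ ∈ Y := by
  set Q := c.QQ hx h b with hQ
  have hQD : Q ≤ D := c.QQ_le_D hx h hb
  have hQO : Q ≤ O := hQD.trans c.DO
  have hQS : Q ≤ S := hQO.trans c.OS
  have hQc : ∀ z ∈ Q, ∀ z' ∈ Q, z * z' = z' * z := c.QQ_comm hx h hb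
  have hAQ : ∀ a ∈ A, ∀ q ∈ Q, a * q * a⁻¹ ∈ Q := fun a ha => c.QQ_conj hx h ha hb
  obtain ⟨i, hi1, hi2, hi3⟩ := exists_index (O := O) hAQ c.pS c.am hQS c.AO
  obtain ⟨j, rfl⟩ : ∃ j, i = j + 1 := ⟨i - 1, by omega⟩
  have hExt := chain_ext hAQ c.am hQS hQc j
  have hle : chain A Q (j + 1) ≤ Q := chain_antitone hAQ c.am (Nat.zero_le _)
  have hd := dichotomy c.am c.ext c.OS (hle.trans hQO)
    (fun u hu v hv => hQc u (hle hu) v (hle hv)) hExt hi2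
  by_cases hj : j = 0
  · subst hj
    intro a ha d hd'
    obtain ⟨a₀, ha₀, t, ht, rfl⟩ := hd d hd'
    have hz : ⁅a, ⁅b, x⁆⁆ ∈ chain A Q 1 :=
      Subgroup.commutator_mem_commutator ha (c.y_mem_QQ hx h b)
    have hzD : ⁅a, ⁅b, x⁆⁆ ∈ D := hQD (hle hz)
    rw [Cfsg.Agent.Lib.KInf.Comm.comm_mul_left,
      commutatorElement_eq_one_iff_mul_comm.2 (Subgroup.mem_centralizer_iff.1 ha₀.2 _ hz).symm, mul_one]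
    exact c.AY a₀ ha₀.1 _ (c.TD t ht _ hzD)
  · -- the main case
    have hkey : ∀ a₀ ∈ A ⊓ centralizer ((chain A Q (j + 1) : Subgroup G) : Set G), ∀ b' ∈ A,
        ∃ η ∈ Y, ∃ α ∈ A ⊓ D, ⁅a₀, ⁅b', x⁆⁆ = η * α := by
      intro a₀ ha₀ b' hb'
      have hyE : ⁅a₀, ⁅b', x⁆⁆ ∈ EE A x := gen_mem_EE ha₀.1 hb'
      obtain ⟨a', ha', v, hv, hmem⟩ := c.M_surj hx h e he _ (c.E_le_M hx h hyE)
      set α := (⁅v, x⁆ * ⁅x, ⁅a', x⁆⁆)⁻¹ * ⁅a₀, ⁅b', x⁆⁆ with hαdef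
      have hy : ⁅a₀, ⁅b', x⁆⁆ = ⁅v, x⁆ * ⁅x, ⁅a', x⁆⁆ * α := by rw [hαdef]; group
      have hs := c.step hx h hv ha₀.1 hb' ha' hmem hy hb
      have hle1 : chain A Q j ≤ chain A Q 1 := chain_antitone hAQ c.am (by omega)
      have hvC : v ∈ A ⊓ centralizer ((chain A Q j : Subgroup G) : Set G) := by
        refine ⟨hv.1, Subgroup.mem_centralizer_iff.2 fun z hz => ?_⟩
        have h1 := hs z (hle1 hz)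
        have h2 : ⁅b', z⁆ ∈ chain A Q (j + 1) := Subgroup.commutator_mem_commutator hb' hz
        have h3 : ⁅a₀, ⁅b', z⁆⁆ = 1 :=
          commutatorElement_eq_one_iff_mul_comm.2 (Subgroup.mem_centralizer_iff.1 ha₀.2 _ h2).symm
        rw [h3, commutatorElement_eq_one_iff_mul_comm] at h1
        exact h1.symm
      have hvO : v ∈ O := hi3 j (by omega) (by omega) hvC
      have hvY : ⁅v, x⁆ ∈ Y := c.TD v ⟨hv.1, hvO⟩ x hx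
      refine ⟨⁅v, x⁆ * ⁅x, ⁅a', x⁆⁆, Y.mul_mem hvY (c.bt_mem hx ha'), α, ⟨hmem, ?_⟩, hy⟩
      rw [hαdef]
      exact D.mul_mem (D.inv_mem (c.YD (Y.mul_mem hvY (c.bt_mem hx ha')))) (c.dlD ha₀.1 (c.yD hx hb'))
    intro a ha d hd'
    obtain ⟨a₀, ha₀, t, ht, rfl⟩ := hd a ha
    obtain ⟨η, hη, α, hα, hy⟩ := hkey a₀ ha₀ b hb
    have hη' : a₀ * ⁅t, ⁅b, x⁆⁆ * a₀⁻¹ ∈ Y := c.AY a₀ ha₀.1 _ (c.TD t ht _ (c.yD hx hb))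
    rw [Cfsg.Agent.Lib.KInf.Comm.comm_mul_left, hy, ← mul_assoc,
      dl_of_comm (c.am.comm d hd' α hα.1)]
    exact c.dlY hd' (Y.mul_mem hη' hη)

/-- The core theorem, for `p` odd. -/
theorem core_main (hp : p ≠ 2) : ∀ b ∈ A, ∀ a ∈ A, ∀ d ∈ A, ⁅d, ⁅a, ⁅b, x⁆⁆⁆ ∈ Y := by
  obtain ⟨e, he⟩ := exists_half hp c.pS
  intro b hb
  exact c.core_final hx h e he hb

end Ctx

end Cfsg.Agent.Lib.JCtl.Core
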