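import Cfsg.Agent.Lib.JCtl.Core4

/-!
# Words in `A` on a section of class two and the degree lemma
-/

set_option autoImplicit false
set_option linter.unusedSectionVars false

namespace Cfsg.Agent.Lib.JCtl.Core

open Subgroup Cfsg Cfsg.Agent.Lib.JCtl.Exchange Cfsg.Agent.Lib.JCtl.Dich
open scoped commutatorElement

variable {G : Type*} [Group G] [Finite G]

/-- The `k`-fold commutators with elements of `A` ending at `x`. -/
def Wd (A : Subgroup G) (x : G) : ℕ → Set G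
  | 0 => {x}
  | k + 1 => {z | ∃ a ∈ A, ∃ w ∈ Wd A x k, z = ⁅a, w⁆}

lemma Wd_succ {A : Subgroup G} {x a w : G} {k : ℕ} (ha : a ∈ A) (hw : w ∈ Wd A x k) :
    ⁅a, w⁆ ∈ Wd A x (k + 1) := ⟨a, ha, w, hw, rfl⟩

/-- The abstract algebra of the last step. -/
lemma alg_eq {M : Type*} [CommGroup M] {pa pb pc pd pe : M} (E1 : pe * pd = pb * (pc * pa))
    (E2 : pe * pc = pb * (pd * pa)) : pd * pd = pc * pc := by
  apply mul_left_cancel (a := pe * pb * pa)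
  calc pe * pb * pa * (pd * pd) = (pe * pd) * (pb * (pd * pa)) := by ac_rfl
    _ = (pb * (pc * pa)) * (pe * pc) := by rw [E1, ← E2]
    _ = _ := by ac_rfl

namespace Ctx

variable {p : ℕ} [Fact p.Prime] {S O A D Y : Subgroup G} (c : Ctx p S O A D Y) {x : G}
  (hx : x ∈ D)

include c

lemma alg_eq' {pa pb pc pd pe : G} (ha : pa ∈ Y) (hb : pb ∈ Y) (hc : pc ∈ Y) (hd : pd ∈ Y) (he : pe ∈ Y)
    (E1 : pe * pd = pb * (pc * pa)) (E2 : pe * pc = pb * (pd * pa)) : pd * pd = pc * pc := by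
  letI : CommGroup Y :=
    { (inferInstance : Group Y) with mul_comm := fun a b => Subtype.ext (c.Yab a.2 b.2) }
  have := alg_eq (M := Y) (pa := ⟨pa, ha⟩) (pb := ⟨pb, hb⟩) (pc := ⟨pc, hc⟩) (pd := ⟨pd, hd⟩) (pe := ⟨pe, he⟩)
    (Subtype.ext E1) (Subtype.ext E2)
  exact congrArg Subtype.val this

lemma Y_odd (hp : p ≠ 2) {z z' : G} (hz : z ∈ Y) (hz' : z' ∈ Y) (h : z * z = z' * z') : z = z' := by
  have hS : Y ≤ S := (c.YD.trans c.DO).trans c.OS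
  have hw : z * z'⁻¹ ∈ Y := Y.mul_mem hz (Y.inv_mem hz')
  have e : (⟨z * z'⁻¹, hS hw⟩ : S) * ⟨z * z'⁻¹, hS hw⟩ = 1 := by
    apply Subtype.ext
    show z * z'⁻¹ * (z * z'⁻¹) = 1
    have hc : z'⁻¹ * z = z * z'⁻¹ := (show Commute z' z from c.Yab hz' hz).inv_left.eq
    calc z * z'⁻¹ * (z * z'⁻¹) = z * (z'⁻¹ * z) * z'⁻¹ := by group
      _ = z * (z * z'⁻¹) * z'⁻¹ := by rw [hc]
      _ = (z * z) * z'⁻¹ * z'⁻¹ := by group
      _ = 1 := by rw [h]; group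
  have h1 := Cfsg.Agent.Lib.Transfer.JCore.CoreData.eq_one_of_mul_self_of_pGroup c.pS hp _ e
  have h2 : z * z'⁻¹ = 1 := congrArg Subtype.val h1
  exact mul_inv_eq_one.1 h2

lemma dl_mul_Y {b η η' : G} (hb : b ∈ A) (h : η ∈ Y) (h' : η' ∈ Y) : ⁅b, η * η'⁆ = ⁅b, η⁆ * ⁅b, η'⁆ := by
  rw [Cfsg.Agent.Lib.KInf.Comm.comm_mul_right, c.Yc _ (c.dlY hb h') _ (c.YD h)]
  group

/-- The double expansion. -/
lemma expand2 {a b v w : G} (ha : a ∈ A) (hb : b ∈ A) (hv : v ∈ D) (hw : w ∈ D) :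
    (⁅⁅b, ⁅a, v⁆⁆, ⁅b, ⁅a, w⁆⁆⁆ * ⁅⁅b, ⁅a, v⁆⁆, ⁅a, w⁆⁆ * ⁅⁅a, v⁆, ⁅b, ⁅a, w⁆⁆⁆) *
      (⁅⁅b, ⁅a, v⁆⁆, ⁅b, w⁆⁆ * ⁅⁅b, ⁅a, v⁆⁆, w⁆ * ⁅⁅a, v⁆, ⁅b, w⁆⁆) *
      (⁅⁅b, v⁆, ⁅b, ⁅a, w⁆⁆⁆ * ⁅⁅b, v⁆, ⁅a, w⁆⁆ * ⁅v, ⁅b, ⁅a, w⁆⁆⁆) = 1 := by
  have h1 := c.ww ha hb hv hw
  have hav := c.dlD ha hv
  have haw := c.dlD ha hw
  rw [c.expand ha hv hw] at h1
  have hX := c.DD _ hav _ haw
  have hY' := c.DD _ hav _ hw
  have hZ := c.DD _ hv _ haw
  rw [c.dl_mul_Y hb (Y.mul_mem hX hY') hZ, c.dl_mul_Y hb hX hY',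
    c.expand hb hav haw, c.expand hb hav hw, c.expand hb hv haw] at h1
  exact h1

omit c in
include c hx in
lemma Wd_D : ∀ k, ∀ w ∈ Wd A x k, w ∈ D := by
  intro k
  induction k with
  | zero =>
    intro w hw
    rw [Set.mem_singleton_iff.1 hw]
    exact hx
  | succ k ih =>
    rintro _ ⟨a, ha, w, hw, rfl⟩
    exact c.dlD ha (ih w hw)

include hx

/-- Commutators of high degree vanish. -/
theorem high {m : ℕ} (hm : ∀ j, m ≤ j → ∀ w ∈ Wd A x j, w ∈ Y) :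
    ∀ i j, m + 1 ≤ i + j → ∀ v ∈ Wd A x i, ∀ w ∈ Wd A x j, ⁅v, w⁆ = 1 := by
  have hD := c.Wd_D hx
  have main : ∀ d j i, m ≤ j + d → m + 1 ≤ i + j → ∀ v ∈ Wd A x i, ∀ w ∈ Wd A x j, ⁅v, w⁆ = 1 := by
    intro d
    induction d with
    | zero =>
      intro j i h1 _ v hv w hw
      exact c.comm_Y_r (hm j (by omega) w hw) (hD i v hv)
    | succ d ih =>
      intro j i h1 h2 v hv w hw
      by_cases h : m ≤ j + d
      · exact ih j i h h2 v hv w hw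
      obtain ⟨i', rfl⟩ : ∃ i', i = i' + 2 := ⟨i - 2, by omega⟩
      obtain ⟨b, hb, v₁, hv₁, rfl⟩ := hv
      obtain ⟨a, ha, v₀, hv₀, rfl⟩ := hv₁
      have hwa := Wd_succ ha hw
      have hwb := Wd_succ hb hw
      have hwba := Wd_succ hb hwa
      have hva := Wd_succ ha hv₀
      have hvb := Wd_succ hb hv₀
      have hvba := Wd_succ hb hva
      have e := c.expand2 ha hb (hD i' v₀ hv₀) (hD j w hw)
      rw [ih (j + 2) (i' + 2) (by omega) (by omega) _ hvba _ hwba,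
        ih (j + 1) (i' + 2) (by omega) (by omega) _ hvba _ hwa,
        ih (j + 2) (i' + 1) (by omega) (by omega) _ hva _ hwba,
        ih (j + 1) (i' + 2) (by omega) (by omega) _ hvba _ hwb,
        ih (j + 1) (i' + 1) (by omega) (by omega) _ hva _ hwb,
        ih (j + 2) (i' + 1) (by omega) (by omega) _ hvb _ hwba,
        ih (j + 1) (i' + 1) (by omega) (by omega) _ hvb _ hwa,
        ih (j + 2) i' (by omega) (by omega) _ hv₀ _ hwba] at e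
      simpa only [one_mul, mul_one] using e
  intro i j hij v hv w hw
  exact main m j i (by omega) hij v hv w hw

omit hx in
/-- `[I²D, w] = 1` if `[A, w] ≤ Y`. -/
theorem star {a b v w : G} (ha : a ∈ A) (hb : b ∈ A) (hv : v ∈ D) (hw : w ∈ D)
    (hA : ∀ a ∈ A, ⁅a, w⁆ ∈ Y) : ⁅⁅b, ⁅a, v⁆⁆, w⁆ = 1 := by
  have e := c.ww ha hb hv hw
  have hav := c.dlD ha hv
  rw [c.expand ha hv hw, c.comm_Y_r (hA a ha) hav, c.comm_Y_r (hA a ha) hv, one_mul, mul_one,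
    c.expand hb hav hw, c.comm_Y_r (hA b hb) (c.dlD hb hav), c.comm_Y_r (hA b hb) hav, one_mul, mul_one] at e
  exact e

end Ctx

end Cfsg.Agent.Lib.JCtl.Core
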