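import Cfsg.Agent.Lib.JCtl.Degree

/-!
# The four-step bound on a section of class two
-/

set_option autoImplicit false
set_option linter.unusedSectionVars false

namespace Cfsg.Agent.Lib.JCtl.Core

open Subgroup Cfsg Cfsg.Agent.Lib.JCtl.Exchange Cfsg.Agent.Lib.JCtl.Dich
open scoped commutatorElement

variable {G : Type*} [Group G] [Finite G]

/-- Degree `(1, 4)` commutators on one base element. -/
def f5 (x a b c' d e : G) : G := ⁅⁅a, x⁆, ⁅b, ⁅c', ⁅d, ⁅e, x⁆⁆⁆⁆⁆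

namespace Ctx

variable {p : ℕ} [Fact p.Prime] {S O A D Y : Subgroup G} (c : Ctx p S O A D Y) {x : G}
  (hx : x ∈ D)

include c

lemma swapY {a b z : G} (ha : a ∈ A) (hb : b ∈ A) (hz : z ∈ D) :
    ∃ η ∈ Y, ⁅a, ⁅b, z⁆⁆ = ⁅b, ⁅a, z⁆⁆ * η :=
  ⟨_, c.DD _ (c.dlD ha hz) _ (c.dlD hb hz), swap_eq (c.am.comm a ha b hb)⟩

lemma dl_mod {b w η : G} (hb : b ∈ A) (hw : w ∈ D) (hη : η ∈ Y) :
    ∃ η' ∈ Y, ⁅b, w * η⁆ = ⁅b, w⁆ * η' := by
  refine ⟨⁅b, η⁆, c.dlY hb hη, ?_⟩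
  rw [Cfsg.Agent.Lib.KInf.Comm.comm_mul_right, c.Yc _ (c.dlY hb hη) w hw]
  group

lemma comm_mod {u w η : G} (hu : u ∈ D) (hw : w ∈ D) (hη : η ∈ Y) : ⁅u, w * η⁆ = ⁅u, w⁆ := by
  rw [c.bil_r hu hw (c.YD hη), c.comm_Y_r hη hu, mul_one]

include hx

lemma f5_12 {a b c' d e : G} (ha : a ∈ A) (hb : b ∈ A) (hc : c' ∈ A) (hd : d ∈ A) (he : e ∈ A) :
    f5 x a b c' d e = f5 x a c' b d e := by
  have h1 := c.dlD hd (c.dlD he hx)
  obtain ⟨η, hη, e1⟩ := c.swapY hb hc h1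
  unfold f5
  rw [e1, c.comm_mod (c.dlD ha hx) (c.dlD hc (c.dlD hb h1)) hη]

lemma f5_23 {a b c' d e : G} (ha : a ∈ A) (hb : b ∈ A) (hc : c' ∈ A) (hd : d ∈ A) (he : e ∈ A) :
    f5 x a b c' d e = f5 x a b d c' e := by
  have h1 := c.dlD he hx
  obtain ⟨η, hη, e1⟩ := c.swapY hc hd h1
  have h2 := c.dlD hd (c.dlD hc h1)
  obtain ⟨η', hη', e2⟩ := c.dl_mod hb h2 hη
  unfold f5
  rw [e1, e2, c.comm_mod (c.dlD ha hx) (c.dlD hb h2) hη']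

lemma f5_34 {a b c' d e : G} (ha : a ∈ A) (hb : b ∈ A) (hc : c' ∈ A) (hd : d ∈ A) (he : e ∈ A) :
    f5 x a b c' d e = f5 x a b c' e d := by
  obtain ⟨η, hη, e1⟩ := c.swapY hd he hx
  have h2 := c.dlD he (c.dlD hd hx)
  obtain ⟨η', hη', e2⟩ := c.dl_mod hc h2 hη
  have h3 := c.dlD hc h2
  obtain ⟨η'', hη'', e3⟩ := c.dl_mod hb h3 hη'
  unfold f5
  rw [e1, e2, e3, c.comm_mod (c.dlD ha hx) (c.dlD hb h3) hη'']

lemma f5_p3 {t p' q r s : G} (ht : t ∈ A) (hp : p' ∈ A) (hq : q ∈ A) (hr : r ∈ A) (hs : s ∈ A) :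
    f5 x t p' q r s = f5 x t q r p' s := by
  rw [c.f5_12 hx ht hp hq hr hs, c.f5_23 hx ht hq hp hr hs]

lemma f5_p2 {t p' q r s : G} (ht : t ∈ A) (hp : p' ∈ A) (hq : q ∈ A) (hr : r ∈ A) (hs : s ∈ A) :
    f5 x t p' q r s = f5 x t r q p' s := by
  rw [c.f5_p3 hx ht hp hq hr hs, c.f5_12 hx ht hq hr hp hs]

lemma f5_p1 {t p' q r s : G} (ht : t ∈ A) (hp : p' ∈ A) (hq : q ∈ A) (hr : r ∈ A) (hs : s ∈ A) :
    f5 x t p' q r s = f5 x t r q s p' := by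
  rw [c.f5_p2 hx ht hp hq hr hs, c.f5_34 hx ht hr hq hp hs]

lemma f5_mem {a b c' d e : G} (ha : a ∈ A) (hb : b ∈ A) (hc : c' ∈ A) (hd : d ∈ A) (he : e ∈ A) :
    f5 x a b c' d e ∈ Y :=
  c.DD _ (c.dlD ha hx) _ (c.dlD hb (c.dlD hc (c.dlD hd (c.dlD he hx))))

variable (h5 : ∀ j, 5 ≤ j → ∀ w ∈ Wd A x j, w ∈ Y)
  (hh : ∀ i j, 6 ≤ i + j → ∀ v ∈ Wd A x i, ∀ w ∈ Wd A x j, ⁅v, w⁆ = 1)

omit c hx in
lemma W0 : x ∈ Wd A x 0 := rfl

include h5 hh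

lemma R1 {a b c' d e : G} (ha : a ∈ A) (hb : b ∈ A) (hc : c' ∈ A) (hd : d ∈ A) (he : e ∈ A) :
    ⁅⁅b, ⁅a, x⁆⁆, ⁅c', ⁅d, ⁅e, x⁆⁆⁆⁆ = (f5 x a b c' d e * f5 x b a c' d e)⁻¹ := by
  have he1 := Wd_succ he (W0 (A := A) (x := x))
  have hd2 := Wd_succ hd he1
  have hW := Wd_succ hc hd2
  have hwa := Wd_succ ha hW
  have hwb := Wd_succ hb hW
  have hwba := Wd_succ hb hwa
  have hva := Wd_succ ha (W0 (A := A) (x := x))
  have hvb := Wd_succ hb (W0 (A := A) (x := x))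
  have hvba := Wd_succ hb hva
  have e0 := c.expand2 ha hb hx (c.Wd_D hx 3 _ hW)
  rw [hh 2 5 (by omega) _ hvba _ hwba, hh 2 4 (by omega) _ hvba _ hwa, hh 1 5 (by omega) _ hva _ hwba,
    hh 2 4 (by omega) _ hvba _ hwb, hh 1 5 (by omega) _ hvb _ hwba,
    c.comm_Y_r (h5 5 le_rfl _ hwba) hx] at e0
  simp only [one_mul, mul_one] at e0
  unfold f5
  apply eq_inv_of_mul_eq_one_left
  rw [← mul_assoc]
  exact e0

lemma R2 {a b c' d e : G} (ha : a ∈ A) (hb : b ∈ A) (hc : c' ∈ A) (hd : d ∈ A) (he : e ∈ A) :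
    f5 x e a b c' d * f5 x d a b c' e = f5 x b a c' d e * (f5 x c' a b d e * f5 x a b c' d e) := by
  have he1 := Wd_succ he (W0 (A := A) (x := x))
  have hW := Wd_succ hd he1
  have hwa := Wd_succ ha hW
  have hwb := Wd_succ hb hW
  have hwba := Wd_succ hb hwa
  have hv := Wd_succ hc (W0 (A := A) (x := x))
  have hva := Wd_succ ha hv
  have hvb := Wd_succ hb hv
  have hvba := Wd_succ hb hva
  have e0 := c.expand2 ha hb (c.Wd_D hx 1 _ hv) (c.Wd_D hx 2 _ hW)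
  rw [hh 3 4 (by omega) _ hvba _ hwba, hh 3 3 (by omega) _ hvba _ hwa, hh 2 4 (by omega) _ hva _ hwba,
    hh 3 3 (by omega) _ hvba _ hwb, hh 2 4 (by omega) _ hvb _ hwba] at e0
  simp only [one_mul, mul_one] at e0
  -- the three `R1` relations
  have t1 := c.R1 hx h5 hh he hd hb ha hc
  have t2 := c.R1 hx h5 hh hc ha hb hd he
  have t3 := c.R1 hx h5 hh hc hb ha hd he
  have t0 : ⁅⁅b, ⁅a, ⁅c', x⁆⁆⁆, ⁅d, ⁅e, x⁆⁆⁆ = f5 x e d b a c' * f5 x d e b a c' := by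
    rw [← commutatorElement_inv ⁅d, ⁅e, x⁆⁆ ⁅b, ⁅a, ⁅c', x⁆⁆⁆, t1, inv_inv]
  rw [t0, t2, t3] at e0
  have t4 : f5 x c' b a d e = f5 x c' a b d e := c.f5_12 hx hc hb ha hd he
  have t5 : f5 x a c' b d e = f5 x a b c' d e := c.f5_12 hx ha hc hb hd he
  have t6 : f5 x b c' a d e = f5 x b a c' d e := c.f5_12 hx hb hc ha hd he
  have t7 : f5 x e d b a c' = f5 x e a b c' d := c.f5_p1 hx he hd hb ha hc
  have t8 : f5 x d e b a c' = f5 x d a b c' e := c.f5_p1 hx hd he hb ha hc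
  have e3 : ⁅⁅c', x⁆, ⁅b, ⁅a, ⁅d, ⁅e, x⁆⁆⁆⁆⁆ = f5 x c' b a d e := rfl
  rw [e3, t7, t8, t5, t6, t4] at e0
  generalize f5 x e a b c' d = pe at *
  generalize f5 x d a b c' e = pd at *
  generalize f5 x c' a b d e = pc at *
  generalize f5 x a b c' d e = pa at *
  generalize f5 x b a c' d e = pb at *
  calc pe * pd = (pe * pd * (pc * pa)⁻¹ * ((pc * pb)⁻¹ * pc)) * (pb * (pc * pa)) := by group
    _ = _ := by rw [e0, one_mul]

lemma G5 (hp : p ≠ 2) {a b c' d e : G} (ha : a ∈ A) (hb : b ∈ A) (hc : c' ∈ A) (hd : d ∈ A) (he : e ∈ A) :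
    f5 x d a b c' e = f5 x c' a b d e := by
  have E1 := c.R2 hx h5 hh ha hb hc hd he
  have E2 := c.R2 hx h5 hh ha hb hd hc he
  rw [c.f5_34 hx he ha hb hd hc, c.f5_23 hx hb ha hd hc he, c.f5_23 hx ha hb hd hc he] at E2
  have := c.alg_eq' (c.f5_mem hx ha hb hc hd he) (c.f5_mem hx hb ha hc hd he) (c.f5_mem hx hc ha hb hd he)
    (c.f5_mem hx hd ha hb hc he) (c.f5_mem hx he ha hb hc hd) E1 E2
  exact c.Y_odd hp (c.f5_mem hx hd ha hb hc he) (c.f5_mem hx hc ha hb hd he) this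

/-- Degree `(1, 4)` commutators on one base element vanish. -/
theorem five (hp : p ≠ 2) {a b c' d e : G} (ha : a ∈ A) (hb : b ∈ A) (hc : c' ∈ A) (hd : d ∈ A) (he : e ∈ A) :
    f5 x a b c' d e = 1 := by
  have h1 : f5 x d a b c' e = f5 x c' a b d e := c.G5 hx h5 hh hp ha hb hc hd he
  have h2 : f5 x c' a b d e = f5 x a b c' d e := by
    have := c.G5 hx h5 hh hp hb hd ha hc he
    rw [← c.f5_p3 hx hc ha hb hd he, c.f5_23 hx ha hb hd hc he] at this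
    exact this
  have h3 : f5 x c' a b d e = f5 x b a c' d e := by
    have := c.G5 hx h5 hh hp ha hd hb hc he
    rw [c.f5_23 hx hc ha hd hb he, c.f5_23 hx hb ha hd hc he] at this
    exact this
  have h4 : f5 x d a b c' e = f5 x e a b c' d := by
    have := c.G5 hx h5 hh hp ha hb he hd hc
    rw [c.f5_34 hx hd ha hb he hc, c.f5_34 hx he ha hb hd hc] at this
    exact this
  have E1 := c.R2 hx h5 hh ha hb hc hd he
  rw [← h4, h1, ← h2, ← h3] at E1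
  have h5' : f5 x c' a b d e = 1 := by
    have h7 := mul_left_cancel E1
    have h6 : f5 x c' a b d e * 1 = f5 x c' a b d e * f5 x c' a b d e := by rw [mul_one]; exact h7
    exact (mul_left_cancel h6).symm
  rw [← h2]
  exact h5'

/-- All commutators of total degree at least `5` on one base element vanish. -/
theorem comm_five (hp : p ≠ 2) : ∀ i j, 1 ≤ i → 1 ≤ j → 5 ≤ i + j →
    ∀ v ∈ Wd A x i, ∀ w ∈ Wd A x j, ⁅v, w⁆ = 1 := by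
  have h14 : ∀ v ∈ Wd A x 1, ∀ w ∈ Wd A x 4, ⁅v, w⁆ = 1 := by
    rintro _ ⟨a, ha, _, h0, rfl⟩ _ ⟨b, hb, _, ⟨c', hc, _, ⟨d, hd, _, ⟨e, he, _, h0', rfl⟩, rfl⟩, rfl⟩, rfl⟩
    rw [Set.mem_singleton_iff.1 h0, Set.mem_singleton_iff.1 h0']
    exact c.five hx h5 hh hp ha hb hc hd he
  have h23 : ∀ v ∈ Wd A x 2, ∀ w ∈ Wd A x 3, ⁅v, w⁆ = 1 := by
    rintro _ ⟨b, hb, _, ⟨a, ha, _, h0, rfl⟩, rfl⟩ _ ⟨c', hc, _, ⟨d, hd, _, ⟨e, he, _, h0', rfl⟩, rfl⟩, rfl⟩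
    rw [Set.mem_singleton_iff.1 h0, Set.mem_singleton_iff.1 h0', c.R1 hx h5 hh ha hb hc hd he,
      c.five hx h5 hh hp ha hb hc hd he, c.five hx h5 hh hp hb ha hc hd he]
    simp
  intro i j hi hj hij v hv w hw
  by_cases h6 : 6 ≤ i + j
  · exact hh i j h6 v hv w hw
  have hsum : i + j = 5 := by omega
  have anti : ⁅v, w⁆ = ⁅w, v⁆⁻¹ := (commutatorElement_inv w v).symm
  obtain rfl | rfl | rfl | rfl : i = 1 ∨ i = 2 ∨ i = 3 ∨ i = 4 := by omega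
  · obtain rfl : j = 4 := by omega
    exact h14 v hv w hw
  · obtain rfl : j = 3 := by omega
    exact h23 v hv w hw
  · obtain rfl : j = 2 := by omega
    rw [anti, h23 w hw v hv, inv_one]
  · obtain rfl : j = 1 := by omega
    rw [anti, h14 w hw v hv, inv_one]

end Ctx

end Cfsg.Agent.Lib.JCtl.Core
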