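import Cfsg.Agent.Lib.JCtl.Degree2

/-!
# The four-step bound on a section of class two: the descent
-/

set_option autoImplicit false
set_option linter.unusedSectionVars false

namespace Cfsg.Agent.Lib.JCtl.Core

open Subgroup Cfsg Cfsg.Agent.Lib.JCtl.Exchange Cfsg.Agent.Lib.JCtl.Dich
open scoped commutatorElement

variable {G : Type*} [Group G] [Finite G]

/-- The subgroup generated by `Y` and the words of length at least `k`. -/
def Lk (A Y : Subgroup G) (x : G) (k : ℕ) : Subgroup G :=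
  closure ({z | ∃ j, k ≤ j ∧ z ∈ Wd A x j} ∪ Y)

lemma Wd_mem_Lk {A Y : Subgroup G} {x z : G} {k j : ℕ} (hj : k ≤ j) (hz : z ∈ Wd A x j) : z ∈ Lk A Y x k :=
  subset_closure (Or.inl ⟨j, hj, hz⟩)

lemma Y_le_Lk {A Y : Subgroup G} {x : G} {k : ℕ} : Y ≤ Lk A Y x k := fun _ hz => subset_closure (Or.inr hz)

lemma Lk_anti {A Y : Subgroup G} {x : G} {k k' : ℕ} (h : k ≤ k') : Lk A Y x k' ≤ Lk A Y x k := by
  refine closure_mono ?_
  rintro z (⟨j, hj, hz⟩ | hz)
  · exact Or.inl ⟨j, h.trans hj, hz⟩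
  · exact Or.inr hz

lemma Wd_shift {A : Subgroup G} {a w : G} (ha : a ∈ A) : ∀ k, Wd A ⁅a, w⁆ k ⊆ Wd A w (k + 1) := by
  intro k
  induction k with
  | zero =>
    intro z hz
    rw [Set.mem_singleton_iff.1 hz]
    exact Wd_succ ha rfl
  | succ k ih =>
    rintro _ ⟨b, hb, z, hz, rfl⟩
    exact Wd_succ hb (ih hz)

namespace Ctx

variable {p : ℕ} [Fact p.Prime] {S O A D Y : Subgroup G} (c : Ctx p S O A D Y) {x : G}
  (hx : x ∈ D)

include c

lemma Lk_conj {a : G} (ha : a ∈ A) (k : ℕ) : ∀ z ∈ Lk A Y x k, a * z * a⁻¹ ∈ Lk A Y x k := by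
  refine conj_closure ?_
  rintro z (⟨j, hj, hz⟩ | hz)
  · rw [conj_eq]
    exact Subgroup.mul_mem _ (Wd_mem_Lk (hj.trans (Nat.le_succ j)) (Wd_succ ha hz)) (Wd_mem_Lk hj hz)
  · exact Y_le_Lk (c.AY a ha z hz)

include hx

/-- The step of the descent. -/
theorem step_word (hp : p ≠ 2) (k : ℕ)
    (hcomm : ∀ i j, 1 ≤ i → 1 ≤ j → 2 * k + 5 ≤ i + j → ∀ v ∈ Wd A x i, ∀ w ∈ Wd A x j, ⁅v, w⁆ = 1) :
    ∀ w ∈ Wd A x (k + 4), w ∈ Y := by
  rintro _ ⟨d', hd', _, ⟨a, ha, _, ⟨b, hb, x₀, hx₀, rfl⟩, rfl⟩, rfl⟩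
  have hD := c.Wd_D hx
  have hx₀D : x₀ ∈ D := hD _ _ hx₀
  have hWy : ∀ a' ∈ A, ⁅a', x₀⁆ ∈ Wd A x (k + 2) := fun a' ha' => Wd_succ ha' hx₀
  have hEL : EE A x₀ ≤ Lk A Y x (k + 3) := by
    refine EE_le ?_ (fun a' ha' => c.Lk_conj ha' _)
    intro c' hc' a' ha'
    exact Wd_mem_Lk le_rfl (Wd_succ hc' (hWy a' ha'))
  -- commutation with `Lk`
  have hcommL : ∀ {i l : ℕ} {v : G}, 1 ≤ i → 1 ≤ l → 2 * k + 5 ≤ i + l → v ∈ Wd A x i →
      ∀ z ∈ Lk A Y x l, v * z = z * v := by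
    intro i l v hi hl hil hv
    refine comm_closure ?_
    rintro z (⟨j, hj, hz⟩ | hz)
    · exact commutatorElement_eq_one_iff_mul_comm.1 (hcomm i j hi (hl.trans hj) (by omega) v hv z hz)
    · exact (c.Yc z hz v (hD _ _ hv))
  have hLab : ∀ z ∈ Lk A Y x (k + 3), ∀ z' ∈ Lk A Y x (k + 3), z * z' = z' * z := by
    refine Core.Ctx.comm_closure2 ?_
    rintro z (⟨j, hj, hz⟩ | hz) z' (⟨j', hj', hz'⟩ | hz')
    · exact commutatorElement_eq_one_iff_mul_comm.1 (hcomm j j' (by omega) (by omega) (by omega) z hz z' hz')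
    · exact c.Yc z' hz' z (hD _ _ hz)
    · exact (c.Yc z hz z' (hD _ _ hz')).symm
    · exact c.Yab hz hz'
  have hdl : ∀ b' ∈ A, ∀ z ∈ Lk A Y x (k + 3), ⁅b', z⁆ ∈ Lk A Y x (k + 4) := by
    intro b' hb'
    let P : Subgroup G := finSub (fun z => z ∈ Lk A Y x (k + 3) ∧ ⁅b', z⁆ ∈ Lk A Y x (k + 4))
      ⟨Subgroup.one_mem _, by simp [Subgroup.one_mem]⟩
      (fun z z' hz hz' => ⟨Subgroup.mul_mem _ hz.1 hz'.1, by
        rw [Cfsg.Agent.Lib.KInf.Comm.comm_mul_right, hLab z hz.1 _ (Lk_anti (by omega) hz'.2)]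
        have e : ⁅b', z⁆ * (⁅b', z'⁆ * z * z⁻¹) = ⁅b', z⁆ * ⁅b', z'⁆ := by group
        rw [e]
        exact Subgroup.mul_mem _ hz.2 hz'.2⟩)
    have hP : Lk A Y x (k + 3) ≤ P := by
      rw [Lk, closure_le]
      rintro z (⟨j, hj, hz⟩ | hz)
      · exact ⟨Wd_mem_Lk hj hz, Wd_mem_Lk (by omega) (Wd_succ hb' hz)⟩
      · exact ⟨Y_le_Lk hz, Y_le_Lk (c.dlY hb' hz)⟩
    intro z hz
    exact (hP hz).2
  have hCH : CH A D x₀ := by
    refine ⟨?_, ?_, ?_, ?_⟩
    · intro a' ha' z hz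
      exact hcommL (by omega) (by omega) (by omega) (hWy a' ha') z (hEL hz)
    · intro z hz z' hz'
      exact hLab z (hEL hz) z' (hEL hz')
    · intro b' hb' z hz
      exact hcommL (i := k + 1) (by omega) (by omega) (by omega) hx₀ _ (hdl b' hb' z (hEL hz))
    · intro a' ha' α hα
      obtain ⟨d₀, hd₀, x₁, hx₁, rfl⟩ := hx₀
      have h1 := c.star hd₀ ha' (hD _ _ hx₁) hα.2 (fun a'' ha'' => by
        rw [commutatorElement_eq_one_iff_mul_comm.2 (c.am.comm a'' ha'' α hα.1)]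
        exact Y.one_mem)
      exact commutatorElement_eq_one_iff_mul_comm.1 h1
  exact c.core_main hx₀D hCH hp b hb a ha d' hd'

lemma exists_Wd_one : ∃ N, ∀ w ∈ Wd A x N, w = 1 := by
  have hnil : Group.IsNilpotent S := c.pS.isNilpotent
  obtain ⟨n, hn⟩ := Subgroup.nilpotent_iff_lowerCentralSeries.1 hnil
  have hxS : x ∈ S := c.D_le_S hx hx
  refine ⟨n, ?_⟩
  have key : ∀ j, ∀ w ∈ Wd A x j, w ∈ ((⊤ : Subgroup S).lowerCentralSeries j).map S.subtype := by
    intro j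
    induction j with
    | zero =>
      intro w hw
      rw [Set.mem_singleton_iff.1 hw]
      exact ⟨⟨x, hxS⟩, trivial, rfl⟩
    | succ j ih =>
      rintro _ ⟨a, ha, w, hw, rfl⟩
      rw [Subgroup.lowerCentralSeries_succ, Subgroup.map_commutator, Subgroup.commutator_comm]
      refine Subgroup.commutator_mem_commutator ?_ (ih w hw)
      exact ⟨⟨a, c.am.le ha⟩, trivial, rfl⟩
  intro w hw
  have := key n w hw
  rw [hn, Subgroup.map_bot] at this
  exact this

/-- The four-step bound. -/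
theorem words4 (hp : p ≠ 2) : ∀ w ∈ Wd A x 4, w ∈ Y := by
  obtain ⟨N, hN⟩ := c.exists_Wd_one hx
  have hup : ∀ t, ∀ w ∈ Wd A x (N + t), w ∈ Y := by
    intro t
    induction t with
    | zero =>
      intro w hw
      rw [hN w hw]
      exact Y.one_mem
    | succ t ih =>
      rintro _ ⟨a, ha, w, hw, rfl⟩
      exact c.dlY ha (ih w hw)
  have key : ∀ t n, 4 ≤ n → N ≤ n + t → ∀ j, n ≤ j → ∀ w ∈ Wd A x j, w ∈ Y := by
    intro t
    induction t with
    | zero =>
      intro n _ hN' j hj w hw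
      obtain ⟨s, rfl⟩ : ∃ s, j = N + s := ⟨j - N, by omega⟩
      exact hup s w hw
    | succ t ih =>
      intro n hn hN' j hj w hw
      by_cases hjn : j = n
      · subst hjn
        obtain ⟨k, rfl⟩ : ∃ k, j = k + 4 := ⟨j - 4, by omega⟩
        have hup' : ∀ j', k + 4 + 1 ≤ j' → ∀ w ∈ Wd A x j', w ∈ Y := ih (k + 4 + 1) (by omega) (by omega)
        refine c.step_word hx hp k ?_ w hw
        rcases Nat.eq_zero_or_pos k with rfl | hk
        · refine c.comm_five hx hup' (c.high hx hup') hp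
        · intro i j' _ _ hij v hv z hz
          exact c.high hx hup' i j' (by omega) v hv z hz
      · exact ih (n + 1) (by omega) (by omega) j (by omega) w hw
  exact key N 4 le_rfl (by omega) 4 le_rfl

/-! ### From words to iterated commutators -/

/-- Elements of `D` whose commutators with elements of `A` land in `Y` after `n` steps. -/
def Rp (A D Y : Subgroup G) : ℕ → G → Prop
  | 0, d => d ∈ Y
  | n + 1, d => d ∈ D ∧ ∀ a ∈ A, Rp A D Y n ⁅a, d⁆

omit hx in
lemma Y_Rp {η : G} (hη : η ∈ Y) (n : ℕ) : Rp A D Y n η := by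
  induction n generalizing η with
  | zero => exact hη
  | succ n ih => exact ⟨c.YD hη, fun a ha => ih (c.dlY ha hη)⟩

omit hx in
lemma Rp_D {d : G} (n : ℕ) (h : Rp A D Y n d) : d ∈ D := by
  cases n with
  | zero => exact c.YD h
  | succ n => exact h.1

omit hx in
lemma Rp_mul (n : ℕ) : ∀ {d d' : G}, Rp A D Y n d → Rp A D Y n d' → Rp A D Y n (d * d') := by
  induction n with
  | zero =>
    intro d d' h h'
    exact Y.mul_mem h h'
  | succ n ih =>
    intro d d' h h'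
    refine ⟨D.mul_mem h.1 h'.1, fun a ha => ?_⟩
    rw [Cfsg.Agent.Lib.KInf.Comm.comm_mul_right, conj_eq]
    refine ih (h.2 a ha) (ih (c.Y_Rp (c.DD _ h.1 _ (c.Rp_D n (h'.2 a ha))) n) (h'.2 a ha))

/-- The subgroup attached to `Rp`. -/
def Rs (n : ℕ) : Subgroup G := finSub (Rp A D Y n) (c.Y_Rp Y.one_mem n) (fun _ _ => c.Rp_mul n)

omit hx in
lemma Rp_of_words (k : ℕ) : ∀ {w : G}, w ∈ D → (∀ z ∈ Wd A w k, z ∈ Y) → Rp A D Y k w := by
  induction k with
  | zero =>
    intro w _ h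
    exact h w rfl
  | succ k ih =>
    intro w hw h
    exact ⟨hw, fun a ha => ih (c.dlD ha hw) (fun z hz => h z (Wd_shift ha k hz))⟩

omit hx in
/-- Words bound iterated commutators. -/
theorem iter_le_of_words {u : G} (hu : u ∈ A) {k : ℕ} (hw : ∀ x ∈ D, ∀ w ∈ Wd A x k, w ∈ Y) :
    iterCommutator D (zpowers u) k ≤ Y := by
  have hH : zpowers u ≤ A := Subgroup.zpowers_le.2 hu
  have key : ∀ n m, (∀ d ∈ D, Rp A D Y (n + m) d) → ∀ z ∈ iterCommutator D (zpowers u) n, Rp A D Y m z := by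
    intro n
    induction n with
    | zero =>
      intro m h z hz
      have := h z hz
      simpa using this
    | succ n ih =>
      intro m h
      have h1 : ∀ z ∈ iterCommutator D (zpowers u) n, Rp A D Y (m + 1) z :=
        ih (m + 1) (fun d hd => by
          have := h d hd
          rwa [show n + 1 + m = n + (m + 1) by omega] at this)
      have h2 : iterCommutator D (zpowers u) (n + 1) ≤ c.Rs m := by
        show ⁅iterCommutator D (zpowers u) n, zpowers u⁆ ≤ c.Rs m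
        rw [Subgroup.commutator_le]
        intro z hz g hg
        rw [← commutatorElement_inv]
        exact Subgroup.inv_mem _ ((h1 z hz).2 g (hH hg))
      exact fun z hz => h2 hz
  intro z hz
  exact key k 0 (fun d hd => c.Rp_of_words k hd (hw d hd)) z hz

end Ctx

end Cfsg.Agent.Lib.JCtl.Core
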