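import Cfsg.Agent.Lib.JCtl.Exchange

/-!
# The dichotomy for extremal abelian subgroups of largest order

`O ≤ S`, `A` an abelian subgroup of largest order of `S`, not inside `O`, with `|A ∩ O|` largest possible.
-/

set_option autoImplicit false
set_option linter.unusedSectionVars false

namespace Cfsg.Agent.Lib.JCtl.Dich

open Subgroup Cfsg Cfsg.Agent.Lib.JCtl.Exchange
open scoped commutatorElement

variable {G : Type*} [Group G] [Finite G]

/-- Subgroups of a finite group from multiplicatively closed predicates. -/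
def finSub (P : G → Prop) (h1 : P 1) (hm : ∀ a b, P a → P b → P (a * b)) : Subgroup G where
  carrier := {a | P a}
  one_mem' := h1
  mul_mem' := fun ha hb => hm _ _ ha hb
  inv_mem' := by
    intro a ha
    have hpos : 0 < orderOf a := orderOf_pos a
    have e : a⁻¹ = a ^ (orderOf a - 1) := by
      apply mul_left_cancel (a := a)
      rw [mul_inv_cancel, ← pow_succ']
      have : orderOf a - 1 + 1 = orderOf a := by omega
      rw [this, pow_orderOf_eq_one]
    have hpow : ∀ n : ℕ, P (a ^ n) := by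
      intro n
      induction n with
      | zero => simpa using h1
      | succ n ih =>
        rw [pow_succ]
        exact hm _ _ ih ha
    show P a⁻¹
    rw [e]
    exact hpow _

lemma mem_finSub {P : G → Prop} {h1 : P 1} {hm : ∀ a b, P a → P b → P (a * b)} {a : G} :
    a ∈ finSub P h1 hm ↔ P a := Iff.rfl

/-- `A ∈ A(S)` not inside `O` with `|A ∩ O|` largest possible. -/
def Extremal (S O A : Subgroup G) : Prop :=
  ∀ A' : Subgroup G, AM S A' → ¬ A' ≤ O → Nat.card (A' ⊓ O : Subgroup G) ≤ Nat.card (A ⊓ O : Subgroup G)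

variable {S O A : Subgroup G}

omit [Finite G] in
lemma inf_centr_bot (A : Subgroup G) : A ⊓ centralizer ((⊥ : Subgroup G) : Set G) = A := by
  apply le_antisymm inf_le_left
  intro x hx
  refine ⟨hx, Subgroup.mem_centralizer_iff.2 ?_⟩
  intro g hg
  have : g = 1 := by simpa using hg
  simp [this]

/-- The dichotomy. -/
theorem dichotomy (hA : AM S A) (hext : Extremal S O A) (hOS : O ≤ S) {E : Subgroup G} (hEO : E ≤ O)
    (hEc : ∀ x ∈ E, ∀ y ∈ E, x * y = y * x)
    (hExt : Nat.card E * Nat.card (A ⊓ centralizer (E : Set G) : Subgroup G) =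
      Nat.card A * Nat.card (E ⊓ A : Subgroup G))
    (hC : ¬ A ⊓ centralizer (E : Set G) ≤ O) :
    ∀ a ∈ A, ∃ c ∈ A ⊓ centralizer (E : Set G), ∃ t ∈ A ⊓ O, a = c * t := by
  set C := A ⊓ centralizer (E : Set G) with hCdef
  have hCA : C ≤ A := inf_le_left
  have hCE : ∀ c ∈ C, ∀ e ∈ E, c * e = e * c := by
    rintro c ⟨-, hc⟩ e he
    exact ((Subgroup.mem_centralizer_iff.1 hc) e he).symm
  have hCc : ∀ x ∈ C, ∀ y ∈ C, x * y = y * x := fun x hx y hy => hA.comm x (hCA hx) y (hCA hy)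
  have hinf : C ⊓ E = E ⊓ A := by
    apply le_antisymm
    · rintro x ⟨hx, hxE⟩
      exact ⟨hxE, hCA hx⟩
    · rintro x ⟨hxE, hxA⟩
      refine ⟨⟨hxA, Subgroup.mem_centralizer_iff.2 fun e he => hEc e he x hxE⟩, hxE⟩
  have h1 := Cfsg.Agent.Lib.Transfer.JCore.card_sup_mul_card_inf_of_comm hCE
  rw [hinf] at h1
  have hIpos : 0 < Nat.card (E ⊓ A : Subgroup G) := Nat.card_pos
  have hcard : Nat.card (C ⊔ E : Subgroup G) = Nat.card A := by
    apply Nat.eq_of_mul_eq_mul_right hIpos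
    rw [h1, mul_comm (Nat.card C), hExt]
  have hAM : AM S (C ⊔ E) := by
    refine ⟨sup_le (hCA.trans hA.le) (hEO.trans hOS), comm_sup hCc hEc hCE, ?_⟩
    intro B hB hBc
    rw [hcard]
    exact hA.max B hB hBc
  have hnot : ¬ C ⊔ E ≤ O := fun h => hC (le_sup_left.trans h)
  have h2 := hext _ hAM hnot
  -- the intersection
  have hL : (C ⊓ O) ⊔ E ≤ (C ⊔ E) ⊓ O :=
    sup_le (inf_le_inf_right _ le_sup_left) (le_inf le_sup_right hEO)
  have h3 := Subgroup.card_le_of_le hL
  have hinf2 : (C ⊓ O) ⊓ E = E ⊓ A := by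
    rw [← hinf]
    apply le_antisymm
    · exact inf_le_inf_right _ inf_le_left
    · rintro x ⟨hx, hxE⟩
      exact ⟨⟨hx, hEO hxE⟩, hxE⟩
  have h4 := Cfsg.Agent.Lib.Transfer.JCore.card_sup_mul_card_inf_of_comm
    (H := C ⊓ O) (K := E) (fun c hc e he => hCE c hc.1 e he)
  rw [hinf2] at h4
  have h5 : Nat.card (C ⊓ O : Subgroup G) * Nat.card E ≤
      Nat.card (A ⊓ O : Subgroup G) * Nat.card (E ⊓ A : Subgroup G) := by
    rw [← h4]
    exact Nat.mul_le_mul_right _ (h3.trans h2)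
  -- the conclusion
  have h6 : Nat.card (C ⊓ O : Subgroup G) * Nat.card A ≤ Nat.card (A ⊓ O : Subgroup G) * Nat.card C := by
    apply Nat.le_of_mul_le_mul_right (c := Nat.card (E ⊓ A : Subgroup G)) _ hIpos
    calc _ = Nat.card (C ⊓ O : Subgroup G) * (Nat.card A * Nat.card (E ⊓ A : Subgroup G)) := by ring
      _ = (Nat.card (C ⊓ O : Subgroup G) * Nat.card E) * Nat.card C := by rw [← hExt]; ring
      _ ≤ (Nat.card (A ⊓ O : Subgroup G) * Nat.card (E ⊓ A : Subgroup G)) * Nat.card C :=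
          Nat.mul_le_mul_right _ h5
      _ = _ := by ring
  set T := A ⊓ O with hT
  have hTA : T ≤ A := inf_le_left
  have hCT : ∀ c ∈ C, ∀ t ∈ T, c * t = t * c := fun c hc t ht => hA.comm c (hCA hc) t (hTA ht)
  have h7 := Cfsg.Agent.Lib.Transfer.JCore.card_sup_mul_card_inf_of_comm hCT
  have hinf3 : C ⊓ T = C ⊓ O := by
    apply le_antisymm
    · exact inf_le_inf_left _ inf_le_right
    · rintro x ⟨hx, hxO⟩
      exact ⟨hx, ⟨hCA hx, hxO⟩⟩
  rw [hinf3] at h7
  have hsup : C ⊔ T = A := by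
    apply Subgroup.eq_of_le_of_card_ge (sup_le hCA hTA)
    have hpos : 0 < Nat.card (C ⊓ O : Subgroup G) := Nat.card_pos
    apply Nat.le_of_mul_le_mul_left _ hpos
    rw [mul_comm (Nat.card (C ⊓ O : Subgroup G)) (Nat.card (C ⊔ T : Subgroup G)), h7, mul_comm (Nat.card C)]
    exact h6
  intro a ha
  rw [← hsup] at ha
  exact mem_sup_of_conj (fun c hc t ht => by rw [hCT c hc t ht]; simpa using ht) ha

variable {p : ℕ} [Fact p.Prime]

/-- An abelian `A`-invariant subgroup of `O` centralized by `A ∩ O` is acted on quadratically. -/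
theorem quad_of_T (hp : IsPGroup p S) (hA : AM S A) (hext : Extremal S O A) (hOS : O ≤ S) (hAO : ¬ A ≤ O)
    {W : Subgroup G} (hWO : W ≤ O) (hWc : ∀ x ∈ W, ∀ y ∈ W, x * y = y * x)
    (hAW : ∀ a ∈ A, ∀ w ∈ W, a * w * a⁻¹ ∈ W) (hTW : ∀ t ∈ A ⊓ O, ∀ w ∈ W, t * w = w * t) :
    ∀ a ∈ A, ∀ b ∈ A, ∀ w ∈ W, ⁅b, ⁅a, w⁆⁆ = 1 := by
  have hWS : W ≤ S := hWO.trans hOS
  have hEx := exchange hA hWS hWc hAW
  set E : Subgroup G := ⁅A, W⁆ with hE
  have hEW : E ≤ W := by
    rw [hE, Subgroup.commutator_le]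
    intro a ha q hq
    rw [commutatorElement_def]
    exact W.mul_mem (hAW a ha q hq) (W.inv_mem hq)
  have hEc : ∀ x ∈ E, ∀ y ∈ E, x * y = y * x := fun x hx y hy => hWc x (hEW hx) y (hEW hy)
  have hTE : A ⊓ O ≤ A ⊓ centralizer (E : Set G) := by
    rintro t ⟨htA, htO⟩
    refine ⟨htA, Subgroup.mem_centralizer_iff.2 fun e he => ?_⟩
    exact (hTW t ⟨htA, htO⟩ e (hEW he)).symm
  have hnot : ¬ A ⊓ centralizer (E : Set G) ≤ O := by
    intro hle
    have hEq : A ⊓ centralizer (E : Set G) = A ⊓ O := le_antisymm (le_inf inf_le_left hle) hTE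
    rw [hEq] at hEx
    have h1 := aux_bound hA hWS hWc (P := A ⊓ O) (R := W) inf_le_left le_rfl
      (fun t ht w hw => hTW t ht w hw)
    have h2 : Nat.card (A ⊓ O ⊓ W : Subgroup G) ≤ Nat.card (W ⊓ A : Subgroup G) :=
      Subgroup.card_le_of_le (fun x hx => ⟨hx.2, hx.1.1⟩)
    have h3 : Nat.card (A ⊓ O : Subgroup G) * Nat.card W ≤ Nat.card A * Nat.card (W ⊓ A : Subgroup G) :=
      h1.trans (Nat.mul_le_mul_left _ h2)
    have hcomm : ∀ e ∈ E, ∀ α ∈ W ⊓ A, e * α = α * e := fun e he α hα => hWc e (hEW he) α hα.1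
    have h4 := Cfsg.Agent.Lib.Transfer.JCore.card_sup_mul_card_inf_of_comm hcomm
    have hinf : E ⊓ (W ⊓ A) = E ⊓ A := by
      apply le_antisymm
      · exact inf_le_inf_left _ inf_le_right
      · rintro x ⟨hx, hxA⟩
        exact ⟨hx, ⟨hEW hx, hxA⟩⟩
    rw [hinf] at h4
    have hsup : E ⊔ (W ⊓ A) = W := by
      apply Subgroup.eq_of_le_of_card_ge (sup_le hEW inf_le_left)
      have hpos : 0 < Nat.card (A ⊓ O : Subgroup G) * Nat.card (E ⊓ A : Subgroup G) :=
        Nat.mul_pos Nat.card_pos Nat.card_pos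
      apply Nat.le_of_mul_le_mul_left _ hpos
      calc _ = (Nat.card (A ⊓ O : Subgroup G) * Nat.card W) * Nat.card (E ⊓ A : Subgroup G) := by ring
        _ ≤ (Nat.card A * Nat.card (W ⊓ A : Subgroup G)) * Nat.card (E ⊓ A : Subgroup G) :=
            Nat.mul_le_mul_right _ h3
        _ = (Nat.card A * Nat.card (E ⊓ A : Subgroup G)) * Nat.card (W ⊓ A : Subgroup G) := by ring
        _ = (Nat.card E * Nat.card (A ⊓ O : Subgroup G)) * Nat.card (W ⊓ A : Subgroup G) := by rw [hEx]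
        _ = Nat.card (A ⊓ O : Subgroup G) * (Nat.card E * Nat.card (W ⊓ A : Subgroup G)) := by ring
        _ = Nat.card (A ⊓ O : Subgroup G) * (Nat.card (E ⊔ (W ⊓ A) : Subgroup G) * Nat.card (E ⊓ A : Subgroup G)) := by
            rw [h4]
        _ = _ := by ring
    have hEE : E ≤ ⁅E, S⁆ := by
      rw [hE, Subgroup.commutator_le]
      intro a ha w hw
      rw [← hE]
      rw [← hsup] at hw
      obtain ⟨e, he, α, hα, rfl⟩ := mem_sup_of_conj
        (fun e he α hα => by rw [hcomm e he α hα]; simpa using hα) hw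
      have e1 : ⁅a, e * α⁆ = ⁅a, e⁆ := by
        have : a * α = α * a := hA.comm a ha α hα.2
        rw [commutatorElement_def, commutatorElement_def]
        calc a * (e * α) * a⁻¹ * (e * α)⁻¹ = a * e * (α * a⁻¹) * α⁻¹ * e⁻¹ := by group
          _ = a * e * (a⁻¹ * α) * α⁻¹ * e⁻¹ := by
              congr 3
              have h := congrArg (fun z => a⁻¹ * z * a⁻¹) this
              simp only [mul_assoc, inv_mul_cancel_left, mul_inv_cancel, mul_one] at h
              exact h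
          _ = _ := by group
      rw [e1, Subgroup.commutator_comm]
      exact Subgroup.commutator_mem_commutator (hA.le ha) he
    have hbot : E = ⊥ := Cfsg.Agent.Lib.KInf.Comm.comm_ne_self hp (hEW.trans hWS) hEE
    apply hAO
    have h5 : A ⊓ centralizer (E : Set G) = A := by
      rw [hbot]
      exact inf_centr_bot A
    rw [h5] at hle
    exact hle
  have hd := dichotomy hA hext hOS (hEW.trans hWO) hEc hEx hnot
  intro a ha b hb w hw
  obtain ⟨c, hc, t, ht, rfl⟩ := hd b hb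
  have hz : ⁅a, w⁆ ∈ E := Subgroup.commutator_mem_commutator ha hw
  have h1 : c * ⁅a, w⁆ = ⁅a, w⁆ * c := ((Subgroup.mem_centralizer_iff.1 hc.2) _ hz).symm
  have h2 : t * ⁅a, w⁆ = ⁅a, w⁆ * t := hTW t ht _ (hEW hz)
  rw [commutatorElement_eq_one_iff_mul_comm, mul_assoc, h2, ← mul_assoc, h1, mul_assoc]

/-! ### Chains of commutators -/

/-- The chain `Q, [A, Q], [A, [A, Q]], …`. -/
def chain (A Q : Subgroup G) : ℕ → Subgroup G
  | 0 => Q
  | j + 1 => ⁅A, chain A Q j⁆

lemma chain_succ (A Q : Subgroup G) (j : ℕ) : chain A Q (j + 1) = ⁅A, chain A Q j⁆ := rfl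

section chain

variable {Q : Subgroup G} (hAQ : ∀ a ∈ A, ∀ q ∈ Q, a * q * a⁻¹ ∈ Q)

include hAQ in
lemma chain_inv (hA : AM S A) (j : ℕ) : ∀ a ∈ A, ∀ q ∈ chain A Q j, a * q * a⁻¹ ∈ chain A Q j := by
  induction j with
  | zero => exact hAQ
  | succ j ih =>
    intro a ha
    refine Cfsg.Agent.Lib.KInf.Comm.conj_mem_commutator ?_ (ih a ha)
    intro b hb
    exact A.mul_mem (A.mul_mem ha hb) (A.inv_mem ha)

include hAQ in
lemma chain_succ_le (hA : AM S A) (j : ℕ) : chain A Q (j + 1) ≤ chain A Q j := by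
  rw [chain_succ, Subgroup.commutator_le]
  intro a ha q hq
  rw [commutatorElement_def]
  exact Subgroup.mul_mem _ (chain_inv hAQ hA j a ha q hq) (Subgroup.inv_mem _ hq)

include hAQ in
lemma chain_antitone (hA : AM S A) {i j : ℕ} (hij : i ≤ j) : chain A Q j ≤ chain A Q i := by
  induction j, hij using Nat.le_induction with
  | base => exact le_rfl
  | succ j _ ih => exact (chain_succ_le hAQ hA j).trans ih

include hAQ in
lemma chain_ext (hA : AM S A) (hQS : Q ≤ S) (hQc : ∀ x ∈ Q, ∀ y ∈ Q, x * y = y * x) (j : ℕ) :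
    Nat.card (chain A Q (j + 1)) *
        Nat.card (A ⊓ centralizer ((chain A Q (j + 1) : Subgroup G) : Set G) : Subgroup G) =
      Nat.card A * Nat.card (chain A Q (j + 1) ⊓ A : Subgroup G) := by
  have hle : chain A Q j ≤ Q := chain_antitone hAQ hA (Nat.zero_le j)
  exact exchange hA (hle.trans hQS) (fun x hx y hy => hQc x (hle hx) y (hle hy))
    (chain_inv hAQ hA j)

lemma chain_bot (hp : IsPGroup p S) (hAS : A ≤ S) (hQS : Q ≤ S) : ∃ n, chain A Q n = ⊥ := by
  have hnil : Group.IsNilpotent S := hp.isNilpotent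
  obtain ⟨n, hn⟩ := Subgroup.nilpotent_iff_lowerCentralSeries.1 hnil
  refine ⟨n, ?_⟩
  have key : ∀ j, chain A Q j ≤ ((⊤ : Subgroup S).lowerCentralSeries j).map S.subtype := by
    intro j
    induction j with
    | zero =>
      intro x hx
      exact ⟨⟨x, hQS hx⟩, trivial, rfl⟩
    | succ j ih =>
      rw [chain_succ, Subgroup.lowerCentralSeries_succ, Subgroup.map_commutator,
        Subgroup.commutator_comm]
      refine Subgroup.commutator_mono ih ?_
      intro x hx
      exact ⟨⟨x, hAS hx⟩, trivial, rfl⟩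
  have := key n
  rw [hn, Subgroup.map_bot] at this
  exact le_bot_iff.1 this

include hAQ in
lemma exists_index (hp : IsPGroup p S) (hA : AM S A) (hQS : Q ≤ S) (hAO : ¬ A ≤ O) :
    ∃ i, 1 ≤ i ∧ ¬ A ⊓ centralizer ((chain A Q i : Subgroup G) : Set G) ≤ O ∧
      ∀ j, 1 ≤ j → j < i → A ⊓ centralizer ((chain A Q j : Subgroup G) : Set G) ≤ O := by
  classical
  obtain ⟨n, hn⟩ := chain_bot hp hA.le hQS
  have hex : ∃ i, 1 ≤ i ∧ ¬ A ⊓ centralizer ((chain A Q i : Subgroup G) : Set G) ≤ O := by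
    refine ⟨n + 1, by omega, ?_⟩
    have h1 : chain A Q (n + 1) = ⊥ := le_bot_iff.1 ((chain_succ_le hAQ hA n).trans hn.le)
    rw [h1, inf_centr_bot]
    exact hAO
  refine ⟨Nat.find hex, (Nat.find_spec hex).1, (Nat.find_spec hex).2, ?_⟩
  intro j hj hlt
  by_contra hnot
  exact Nat.find_min hex hlt ⟨hj, hnot⟩

end chain

end Cfsg.Agent.Lib.JCtl.Dich
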