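import Cfsg.Agent.Lib.PLocal.Thompson
import Cfsg.Agent.Lib.QuadAct.Basic
import Cfsg.Agent.Lib.Transfer.JCore
import Cfsg.Agent.Lib.KInf.Comm

/-!
# The exchange lemma for abelian subgroups of largest order

`A` is an abelian subgroup of largest order of `S`, `Q ≤ S` is abelian and normalized by `A`, and
`E = [A, Q]`.  Then `|E| |C_A(E)| = |A| |E ∩ A|`.  The proof uses the measure `H ↦ |H| |C_K(H)|`.
-/

set_option autoImplicit false
set_option linter.unusedSectionVars false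

namespace Cfsg.Agent.Lib.JCtl.Exchange

open Subgroup Cfsg
open scoped commutatorElement

variable {G : Type*} [Group G]

/-- `A` is an abelian subgroup of largest order of `S`. -/
structure AM (S A : Subgroup G) : Prop where
  le : A ≤ S
  comm : ∀ x ∈ A, ∀ y ∈ A, x * y = y * x
  max : ∀ B : Subgroup G, B ≤ S → (∀ x ∈ B, ∀ y ∈ B, x * y = y * x) → Nat.card B ≤ Nat.card A

lemma comm_sup_right {X Y : Subgroup G} {g : G} (h1 : ∀ x ∈ X, g * x = x * g)
    (h2 : ∀ y ∈ Y, g * y = y * g) : ∀ z ∈ X ⊔ Y, g * z = z * g := by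
  have : X ⊔ Y ≤ Subgroup.centralizer ({g} : Set G) := by
    refine sup_le ?_ ?_ <;> intro x hx <;> rw [Subgroup.mem_centralizer_singleton_iff]
    · exact (h1 x hx).symm
    · exact (h2 x hx).symm
  intro z hz
  exact (Subgroup.mem_centralizer_singleton_iff.1 (this hz)).symm

lemma comm_sup {X Y : Subgroup G} (hX : ∀ x ∈ X, ∀ y ∈ X, x * y = y * x)
    (hY : ∀ x ∈ Y, ∀ y ∈ Y, x * y = y * x) (hXY : ∀ x ∈ X, ∀ y ∈ Y, x * y = y * x) :
    ∀ x ∈ X ⊔ Y, ∀ y ∈ X ⊔ Y, x * y = y * x := by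
  intro x hx y hy
  refine comm_sup_right (X := X) (Y := Y) ?_ ?_ y hy
  · intro a ha
    exact (comm_sup_right (X := X) (Y := Y) (g := a) (hX a ha) (hXY a ha) x hx).symm
  · intro b hb
    refine (comm_sup_right (X := X) (Y := Y) (g := b) ?_ (hY b hb) x hx).symm
    intro a ha
    exact (hXY a ha b hb).symm

lemma comm_closure {s : Set G} {g : G} (h : ∀ x ∈ s, g * x = x * g) :
    ∀ z ∈ Subgroup.closure s, g * z = z * g := by
  have : Subgroup.closure s ≤ Subgroup.centralizer ({g} : Set G) := by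
    rw [Subgroup.closure_le]
    intro x hx
    rw [SetLike.mem_coe, Subgroup.mem_centralizer_singleton_iff]
    exact (h x hx).symm
  intro z hz
  exact (Subgroup.mem_centralizer_singleton_iff.1 (this hz)).symm

lemma mem_sup_of_conj {X Y : Subgroup G} (h : ∀ x ∈ X, ∀ y ∈ Y, x * y * x⁻¹ ∈ Y) {z : G}
    (hz : z ∈ X ⊔ Y) : ∃ x ∈ X, ∃ y ∈ Y, z = x * y := by
  let R : Subgroup G :=
    { carrier := {w | ∃ x ∈ X, ∃ y ∈ Y, w = x * y}
      one_mem' := ⟨1, X.one_mem, 1, Y.one_mem, by simp⟩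
      mul_mem' := by
        rintro _ _ ⟨a, ha, q, hq, rfl⟩ ⟨a', ha', q', hq', rfl⟩
        refine ⟨a * a', X.mul_mem ha ha', (a'⁻¹ * q * a'⁻¹⁻¹) * q',
          Y.mul_mem (h _ (X.inv_mem ha') q hq) hq', ?_⟩
        group
      inv_mem' := by
        rintro _ ⟨a, ha, q, hq, rfl⟩
        refine ⟨a⁻¹, X.inv_mem ha, a * q⁻¹ * a⁻¹, h a ha _ (Y.inv_mem hq), ?_⟩
        group }
  have hR : X ⊔ Y ≤ R := by
    refine sup_le ?_ ?_
    · intro x hx
      exact ⟨x, hx, 1, Y.one_mem, by simp⟩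
    · intro y hy
      exact ⟨1, X.one_mem, y, hy, by simp⟩
  exact hR hz

lemma centr_mono {X Y : Subgroup G} (h : X ≤ Y) :
    centralizer (Y : Set G) ≤ centralizer (X : Set G) := Subgroup.centralizer_le h

variable [Finite G]

lemma AM.mem_of_comm {S A : Subgroup G} (h : AM S A) {x : G} (hxS : x ∈ S)
    (hc : ∀ a ∈ A, a * x = x * a) : x ∈ A := by
  have h1 : ∀ u ∈ A ⊔ zpowers x, ∀ v ∈ A ⊔ zpowers x, u * v = v * u := by
    refine comm_sup h.comm ?_ ?_
    · rintro _ ⟨m, rfl⟩ _ ⟨n, rfl⟩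
      simp only
      rw [← zpow_add, ← zpow_add, add_comm]
    · rintro a ha _ ⟨m, rfl⟩
      exact Commute.zpow_right (hc a ha) m
  have hle : A ⊔ zpowers x ≤ S := sup_le h.le (Subgroup.zpowers_le.2 hxS)
  have hcard := h.max _ hle h1
  have hEq : A = A ⊔ zpowers x := Subgroup.eq_of_le_of_card_ge le_sup_left hcard
  rw [hEq]
  exact Subgroup.mem_sup_right (Subgroup.mem_zpowers x)

/-- The conjugate of `A` by `q`. -/
def cnj (q : G) (A : Subgroup G) : Subgroup G := A.map (MulAut.conj q).toMonoidHom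

lemma mem_cnj {q : G} {A : Subgroup G} {x : G} : x ∈ cnj q A ↔ ∃ a ∈ A, x = q * a * q⁻¹ := by
  constructor
  · rintro ⟨a, ha, rfl⟩
    exact ⟨a, ha, rfl⟩
  · rintro ⟨a, ha, rfl⟩
    exact ⟨a, ha, rfl⟩

lemma card_cnj (q : G) (A : Subgroup G) : Nat.card (cnj q A) = Nat.card A :=
  Subgroup.card_map_of_injective (MulAut.conj q).injective

lemma AM.cnj {S A : Subgroup G} (h : AM S A) {q : G} (hq : q ∈ S) : AM S (cnj q A) := by
  refine ⟨?_, ?_, ?_⟩
  · intro x hx
    obtain ⟨a, ha, rfl⟩ := mem_cnj.1 hx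
    exact S.mul_mem (S.mul_mem hq (h.le ha)) (S.inv_mem hq)
  · intro x hx y hy
    obtain ⟨a, ha, rfl⟩ := mem_cnj.1 hx
    obtain ⟨b, hb, rfl⟩ := mem_cnj.1 hy
    have := h.comm a ha b hb
    calc q * a * q⁻¹ * (q * b * q⁻¹) = q * (a * b) * q⁻¹ := by group
      _ = q * (b * a) * q⁻¹ := by rw [this]
      _ = _ := by group
  · intro B hB hc
    rw [card_cnj]
    exact h.max B hB hc

/-- General inequality for orders of joins and intersections. -/
lemma card_mul_card_le (H₁ H₂ : Subgroup G) :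
    Nat.card H₁ * Nat.card H₂ ≤ Nat.card (H₁ ⊔ H₂ : Subgroup G) * Nat.card (H₁ ⊓ H₂ : Subgroup G) := by
  have h1 : Nat.card (H₁ ⊓ H₂ : Subgroup G) * H₂.relIndex H₁ = Nat.card H₁ := by
    have := Subgroup.relIndex_mul_relIndex (⊥ : Subgroup G) (H₁ ⊓ H₂) H₁ bot_le inf_le_left
    rwa [Subgroup.relIndex_bot_left, Subgroup.relIndex_bot_left, Subgroup.inf_relIndex_left] at this
  have h2 : Nat.card H₂ * H₂.relIndex (H₁ ⊔ H₂) = Nat.card (H₁ ⊔ H₂ : Subgroup G) := by
    have := Subgroup.relIndex_mul_relIndex (⊥ : Subgroup G) H₂ (H₁ ⊔ H₂) bot_le le_sup_right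
    rwa [Subgroup.relIndex_bot_left, Subgroup.relIndex_bot_left] at this
  have h3 : H₂.relIndex H₁ ≤ H₂.relIndex (H₁ ⊔ H₂) := by
    apply Subgroup.relIndex_le_of_le_right le_sup_left
    exact Subgroup.FiniteIndex.index_ne_zero
  rw [← h1, ← h2]
  calc _ = Nat.card (H₁ ⊓ H₂ : Subgroup G) * Nat.card H₂ * H₂.relIndex H₁ := by ring
    _ ≤ Nat.card (H₁ ⊓ H₂ : Subgroup G) * Nat.card H₂ * H₂.relIndex (H₁ ⊔ H₂) :=
        Nat.mul_le_mul_left _ h3
    _ = _ := by ring

/-- The measure of `H` in `K`. -/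
noncomputable def meas (K H : Subgroup G) : ℕ :=
  Nat.card H * Nat.card (K ⊓ centralizer (H : Set G) : Subgroup G)

lemma meas_sup_inf (K H₁ H₂ : Subgroup G) :
    meas K H₁ * meas K H₂ ≤ meas K (H₁ ⊔ H₂) * meas K (H₁ ⊓ H₂) := by
  set C₁ := K ⊓ centralizer (H₁ : Set G) with hC₁
  set C₂ := K ⊓ centralizer (H₂ : Set G) with hC₂
  have h1 : K ⊓ centralizer ((H₁ ⊔ H₂ : Subgroup G) : Set G) = C₁ ⊓ C₂ := by
    apply le_antisymm
    · rintro x ⟨hx, hc⟩
      exact ⟨⟨hx, centr_mono le_sup_left hc⟩, ⟨hx, centr_mono le_sup_right hc⟩⟩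
    · rintro x ⟨⟨hx, hc₁⟩, ⟨_, hc₂⟩⟩
      refine ⟨hx, Subgroup.mem_centralizer_iff.2 ?_⟩
      intro z hz
      exact (comm_sup_right (X := H₁) (Y := H₂) (g := x)
        (fun y hy => ((Subgroup.mem_centralizer_iff.1 hc₁) y hy).symm)
        (fun y hy => ((Subgroup.mem_centralizer_iff.1 hc₂) y hy).symm) z hz).symm
  have h2 : C₁ ⊔ C₂ ≤ K ⊓ centralizer ((H₁ ⊓ H₂ : Subgroup G) : Set G) := by
    refine sup_le ?_ ?_
    · rintro x ⟨hx, hc⟩
      exact ⟨hx, centr_mono inf_le_left hc⟩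
    · rintro x ⟨hx, hc⟩
      exact ⟨hx, centr_mono inf_le_right hc⟩
  have h3 := card_mul_card_le H₁ H₂
  have h4 := card_mul_card_le C₁ C₂
  have h5 := Subgroup.card_le_of_le h2
  unfold meas
  rw [h1]
  calc _ = (Nat.card H₁ * Nat.card H₂) * (Nat.card C₁ * Nat.card C₂) := by ring
    _ ≤ (Nat.card (H₁ ⊔ H₂ : Subgroup G) * Nat.card (H₁ ⊓ H₂ : Subgroup G)) *
        (Nat.card (C₁ ⊔ C₂ : Subgroup G) * Nat.card (C₁ ⊓ C₂ : Subgroup G)) := Nat.mul_le_mul h3 h4
    _ ≤ (Nat.card (H₁ ⊔ H₂ : Subgroup G) * Nat.card (H₁ ⊓ H₂ : Subgroup G)) *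
        (Nat.card (K ⊓ centralizer ((H₁ ⊓ H₂ : Subgroup G) : Set G) : Subgroup G) *
          Nat.card (C₁ ⊓ C₂ : Subgroup G)) :=
        Nat.mul_le_mul_left _ (Nat.mul_le_mul_right _ h5)
    _ = _ := by ring

section bound

variable {S A Q : Subgroup G} (hA : AM S A) (hQS : Q ≤ S)
  (hQc : ∀ x ∈ Q, ∀ y ∈ Q, x * y = y * x) (hAQ : ∀ a ∈ A, ∀ q ∈ Q, a * q * a⁻¹ ∈ Q)

include hAQ in
lemma sup_le_normalizer : A ⊔ Q ≤ normalizer (Q : Set G) := by
  refine sup_le ?_ le_normalizer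
  intro a ha
  rw [Subgroup.mem_normalizer_iff]
  intro q
  constructor
  · exact hAQ a ha q
  · intro h
    have := hAQ a⁻¹ (A.inv_mem ha) _ h
    simpa [mul_assoc] using this

include hAQ in
lemma proj_card {H : Subgroup G} (hH : H ≤ A ⊔ Q) :
    Nat.card H * Nat.card (((H ⊔ Q) ⊓ A) ⊓ Q : Subgroup G) =
      Nat.card ((H ⊔ Q) ⊓ A : Subgroup G) * Nat.card (H ⊓ Q : Subgroup G) := by
  set P := (H ⊔ Q) ⊓ A with hP
  have hN := sup_le_normalizer (A := A) hAQ
  have h1 : H ⊔ Q = P ⊔ Q := by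
    apply le_antisymm
    · refine sup_le ?_ le_sup_right
      intro h hh
      obtain ⟨a, ha, q, hq, rfl⟩ := mem_sup_of_conj hAQ (hH hh)
      refine Subgroup.mul_mem _ (Subgroup.mem_sup_left ⟨?_, ha⟩) (Subgroup.mem_sup_right hq)
      have : a = (a * q) * q⁻¹ := by group
      rw [this]
      exact Subgroup.mul_mem _ (Subgroup.mem_sup_left hh) (Subgroup.mem_sup_right (Q.inv_mem hq))
    · exact sup_le (inf_le_left.trans le_rfl |>.trans (le_refl _)) le_sup_right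
  have e1 := Cfsg.Agent.Lib.QuadAct.Basic.card_sup_mul_card_inf_of_le_normalizer H Q (hH.trans hN)
  have e2 := Cfsg.Agent.Lib.QuadAct.Basic.card_sup_mul_card_inf_of_le_normalizer P Q
    ((inf_le_right.trans le_sup_left).trans hN)
  rw [← h1] at e2
  have hQpos : 0 < Nat.card Q := Nat.card_pos
  apply Nat.eq_of_mul_eq_mul_left hQpos
  calc _ = (Nat.card H * Nat.card Q) * Nat.card (P ⊓ Q : Subgroup G) := by ring
    _ = Nat.card (H ⊔ Q : Subgroup G) * Nat.card (H ⊓ Q : Subgroup G) * Nat.card (P ⊓ Q : Subgroup G) := by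
        rw [e1]
    _ = (Nat.card (H ⊔ Q : Subgroup G) * Nat.card (P ⊓ Q : Subgroup G)) * Nat.card (H ⊓ Q : Subgroup G) := by
        ring
    _ = (Nat.card P * Nat.card Q) * Nat.card (H ⊓ Q : Subgroup G) := by rw [e2]
    _ = _ := by ring

include hA hQS hQc in
lemma aux_bound {P R : Subgroup G} (hPA : P ≤ A) (hRQ : R ≤ Q)
    (hc : ∀ p ∈ P, ∀ r ∈ R, p * r = r * p) :
    Nat.card P * Nat.card R ≤ Nat.card A * Nat.card (P ⊓ Q : Subgroup G) := by
  have h1 : ∀ x ∈ P ⊔ R, ∀ y ∈ P ⊔ R, x * y = y * x :=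
    comm_sup (fun x hx y hy => hA.comm x (hPA hx) y (hPA hy))
      (fun x hx y hy => hQc x (hRQ hx) y (hRQ hy)) hc
  have h2 := hA.max _ (sup_le (hPA.trans hA.le) (hRQ.trans hQS)) h1
  have h3 := Cfsg.Agent.Lib.Transfer.JCore.card_sup_mul_card_inf_of_comm hc
  rw [← h3]
  exact Nat.mul_le_mul h2 (Subgroup.card_le_of_le (inf_le_inf_left _ hRQ))

include hA hQS hQc hAQ in
/-- The measure is bounded by `|A|²`. -/
theorem meas_le {H : Subgroup G} (hH : H ≤ A ⊔ Q) :
    meas (A ⊔ Q) H ≤ Nat.card A * Nat.card A := by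
  set C := (A ⊔ Q) ⊓ centralizer (H : Set G) with hC
  have hCK : C ≤ A ⊔ Q := inf_le_left
  set P := (H ⊔ Q) ⊓ A with hP
  set P' := (C ⊔ Q) ⊓ A with hP'
  have e1 : Nat.card H * Nat.card (P ⊓ Q : Subgroup G) = Nat.card P * Nat.card (H ⊓ Q : Subgroup G) :=
    proj_card hAQ hH
  have e2 : Nat.card C * Nat.card (P' ⊓ Q : Subgroup G) = Nat.card P' * Nat.card (C ⊓ Q : Subgroup G) :=
    proj_card hAQ hCK
  have e3 : Nat.card P * Nat.card (C ⊓ Q : Subgroup G) ≤ Nat.card A * Nat.card (P ⊓ Q : Subgroup G) := by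
    refine aux_bound hA hQS hQc inf_le_right inf_le_right ?_
    rintro p ⟨hp, -⟩ r ⟨⟨-, hrc⟩, hrQ⟩
    refine (comm_sup_right (X := H) (Y := Q) (g := r) ?_ (hQc r hrQ) p hp).symm
    intro y hy
    exact ((Subgroup.mem_centralizer_iff.1 hrc) y hy).symm
  have e4 : Nat.card P' * Nat.card (H ⊓ Q : Subgroup G) ≤ Nat.card A * Nat.card (P' ⊓ Q : Subgroup G) := by
    refine aux_bound hA hQS hQc inf_le_right inf_le_right ?_
    rintro p ⟨hp, -⟩ r ⟨hrH, hrQ⟩
    refine (comm_sup_right (X := C) (Y := Q) (g := r) ?_ (hQc r hrQ) p hp).symm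
    rintro y ⟨-, hyc⟩
    exact (Subgroup.mem_centralizer_iff.1 hyc) r hrH
  have hi : 0 < Nat.card (P ⊓ Q : Subgroup G) := Nat.card_pos
  have hi' : 0 < Nat.card (P' ⊓ Q : Subgroup G) := Nat.card_pos
  unfold meas
  apply Nat.le_of_mul_le_mul_right (c := Nat.card (P ⊓ Q : Subgroup G) * Nat.card (P' ⊓ Q : Subgroup G))
    _ (Nat.mul_pos hi hi')
  calc _ = (Nat.card H * Nat.card (P ⊓ Q : Subgroup G)) * (Nat.card C * Nat.card (P' ⊓ Q : Subgroup G)) := by
        ring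
    _ = (Nat.card P * Nat.card (C ⊓ Q : Subgroup G)) * (Nat.card P' * Nat.card (H ⊓ Q : Subgroup G)) := by
        rw [e1, e2]; ring
    _ ≤ (Nat.card A * Nat.card (P ⊓ Q : Subgroup G)) * (Nat.card A * Nat.card (P' ⊓ Q : Subgroup G)) :=
        Nat.mul_le_mul e3 e4
    _ = _ := by ring

include hA hQS in
/-- Abelian subgroups of largest order in `A ⊔ Q` have the full measure. -/
lemma meas_AM {B : Subgroup G} (hB : AM S B) (hBK : B ≤ A ⊔ Q) :
    meas (A ⊔ Q) B = Nat.card A * Nat.card A := by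
  have hKS : A ⊔ Q ≤ S := sup_le hA.le hQS
  have h1 : (A ⊔ Q) ⊓ centralizer (B : Set G) = B := by
    apply le_antisymm
    · rintro x ⟨hx, hc⟩
      exact hB.mem_of_comm (hKS hx) (fun a ha => (Subgroup.mem_centralizer_iff.1 hc) a ha)
    · intro x hx
      exact ⟨hBK hx, Subgroup.mem_centralizer_iff.2 fun b hb => hB.comm b hb x hx⟩
  have h2 : Nat.card B = Nat.card A := le_antisymm (hA.max B hB.le hB.comm) (hB.max A hA.le hA.comm)
  unfold meas
  rw [h1, h2]

include hA hQS hQc hAQ in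
/-- The exchange lemma. -/
theorem exchange :
    Nat.card (⁅A, Q⁆ : Subgroup G) * Nat.card (A ⊓ centralizer ((⁅A, Q⁆ : Subgroup G) : Set G) : Subgroup G) =
      Nat.card A * Nat.card (⁅A, Q⁆ ⊓ A : Subgroup G) := by
  classical
  set E : Subgroup G := ⁅A, Q⁆ with hE
  have hEQ : E ≤ Q := by
    rw [hE, Subgroup.commutator_le]
    intro a ha q hq
    rw [commutatorElement_def]
    exact Q.mul_mem (hAQ a ha q hq) (Q.inv_mem hq)
  set K := A ⊔ Q with hK
  set M := A ⊔ E with hM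
  have hMK : M ≤ K := sup_le_sup_left hEQ _
  have hAK : A ≤ K := le_sup_left
  let 𝓖 : Set (Subgroup G) := {H | H ≤ M ∧ meas K H = Nat.card A * Nat.card A}
  have hne : 𝓖.Nonempty := ⟨A, le_sup_left, meas_AM hA hQS hA hAK⟩
  obtain ⟨H, hHmax⟩ := (Set.toFinite 𝓖).exists_maximal hne
  obtain ⟨⟨hHM, hHm⟩, hHm'⟩ := hHmax
  have hApos : 0 < Nat.card A * Nat.card A := Nat.mul_pos Nat.card_pos Nat.card_pos
  -- every conjugate of `A` lies in `H`
  have hconj : ∀ q ∈ Q, cnj q A ≤ H := by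
    intro q hq
    have hc : cnj q A ≤ M := by
      intro x hx
      obtain ⟨a, ha, rfl⟩ := mem_cnj.1 hx
      have e : q * a * q⁻¹ = ⁅q, a⁆ * a := by
        rw [commutatorElement_def]; group
      rw [e]
      refine M.mul_mem (Subgroup.mem_sup_right ?_) (Subgroup.mem_sup_left ha)
      rw [hE, Subgroup.commutator_comm]
      exact Subgroup.commutator_mem_commutator hq ha
    have hAMc : AM S (cnj q A) := hA.cnj (hQS hq)
    have hm : meas K (cnj q A) = Nat.card A * Nat.card A := meas_AM hA hQS hAMc (hc.trans hMK)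
    have h1 := meas_sup_inf K H (cnj q A)
    rw [hHm, hm] at h1
    have h2 : meas K (H ⊔ cnj q A) ≤ Nat.card A * Nat.card A :=
      meas_le hA hQS hQc hAQ ((sup_le hHM hc).trans hMK)
    have h3 : meas K (H ⊓ cnj q A) ≤ Nat.card A * Nat.card A :=
      meas_le hA hQS hQc hAQ ((inf_le_left.trans hHM).trans hMK)
    have h4 : meas K (H ⊔ cnj q A) = Nat.card A * Nat.card A := by
      apply le_antisymm h2
      by_contra hlt
      push Not at hlt
      have h5 : meas K (H ⊔ cnj q A) * meas K (H ⊓ cnj q A) < (Nat.card A * Nat.card A) * (Nat.card A * Nat.card A) := by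
        calc _ ≤ meas K (H ⊔ cnj q A) * (Nat.card A * Nat.card A) := Nat.mul_le_mul_left _ h3
          _ < _ := Nat.mul_lt_mul_of_pos_right hlt hApos
      omega
    have h6 : H ⊔ cnj q A ∈ 𝓖 := ⟨sup_le hHM hc, h4⟩
    have h7 : H ⊔ cnj q A ≤ H := hHm' h6 le_sup_left
    exact le_sup_right.trans h7
  have hAH : A ≤ H := by
    have := hconj 1 Q.one_mem
    intro a ha
    apply this
    exact mem_cnj.2 ⟨a, ha, by simp⟩
  have hEH : E ≤ H := by
    rw [hE, Subgroup.commutator_le]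
    intro a ha q hq
    have e : ⁅a, q⁆ = a * (q * a⁻¹ * q⁻¹) := by
      rw [commutatorElement_def]; group
    rw [e]
    exact H.mul_mem (hAH ha) (hconj q hq (mem_cnj.2 ⟨a⁻¹, A.inv_mem ha, rfl⟩))
  have hHeq : H = M := le_antisymm hHM (sup_le hAH hEH)
  subst hHeq
  -- compute
  have hC : K ⊓ centralizer ((M : Subgroup G) : Set G) = A ⊓ centralizer (E : Set G) := by
    apply le_antisymm
    · rintro x ⟨hx, hc⟩
      refine ⟨hA.mem_of_comm ((sup_le hA.le hQS) hx) fun a ha => ?_, centr_mono le_sup_right hc⟩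
      exact (Subgroup.mem_centralizer_iff.1 hc) a (Subgroup.mem_sup_left ha)
    · rintro x ⟨hx, hc⟩
      refine ⟨hAK hx, Subgroup.mem_centralizer_iff.2 fun z hz => ?_⟩
      exact (comm_sup_right (X := A) (Y := E) (g := x)
        (fun a ha => hA.comm x hx a ha)
        (fun y hy => ((Subgroup.mem_centralizer_iff.1 hc) y hy).symm) z hz).symm
  have hAEN : A ≤ normalizer (E : Set G) := by
    intro a ha
    rw [Subgroup.mem_normalizer_iff]
    intro z
    have key : ∀ c ∈ A, ∀ e ∈ E, c * e * c⁻¹ ∈ E := by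
      intro c hc
      refine Cfsg.Agent.Lib.KInf.Comm.conj_mem_commutator ?_ ?_
      · intro b hb
        exact A.mul_mem (A.mul_mem hc hb) (A.inv_mem hc)
      · exact hAQ c hc
    constructor
    · exact key a ha z
    · intro h
      have := key a⁻¹ (A.inv_mem ha) _ h
      simpa [mul_assoc] using this
  have e1 := Cfsg.Agent.Lib.QuadAct.Basic.card_sup_mul_card_inf_of_le_normalizer A E hAEN
  have e2 : Nat.card (M : Subgroup G) * Nat.card (A ⊓ centralizer (E : Set G) : Subgroup G) = Nat.card A * Nat.card A := by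
    have := hHm
    unfold meas at this
    rwa [hC] at this
  have hApos' : 0 < Nat.card A := Nat.card_pos
  apply Nat.eq_of_mul_eq_mul_left hApos'
  rw [inf_comm E A]
  calc _ = (Nat.card A * Nat.card E) * Nat.card (A ⊓ centralizer (E : Set G) : Subgroup G) := by ring
    _ = Nat.card (M : Subgroup G) * Nat.card (A ⊓ E : Subgroup G) * Nat.card (A ⊓ centralizer (E : Set G) : Subgroup G) := by
        rw [e1]
    _ = (Nat.card (M : Subgroup G) * Nat.card (A ⊓ centralizer (E : Set G) : Subgroup G)) * Nat.card (A ⊓ E : Subgroup G) := by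
        ring
    _ = _ := by rw [e2]; ring

end bound

end Cfsg.Agent.Lib.JCtl.Exchange
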