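import Cfsg.Agent.Lib.JCtl.Chief
import Cfsg.Agent.Lib.KInf.Transfer
import Cfsg.Agent.Lib.Transfer.Tate
import Cfsg.Agent.Lib.PLocal.Thompson

/-!
# The Thompson subgroup controls transfer for `p ≥ 7`

The subgroup `J(S)` generated by the abelian subgroups of largest order of a Sylow subgroup `S`
controls transfer when `p ≥ 7`; the largest `p`-factor group of `G` is that of `N_G(J(S))`.
-/

set_option autoImplicit false

namespace Cfsg.Agent.Lib.JCtl.Main

open Subgroup Cfsg Cfsg.Agent.Lib.JCtl.Exchange Cfsg.Agent.Lib.JCtl.Dich Cfsg.Agent.Lib.JCtl.Chief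
  Cfsg.Agent.Lib.PLocal.Thompson Cfsg.Agent.Lib.TransferCtl.Basic Cfsg.Agent.Lib.Transfer.Basic
  Cfsg.Agent.Lib.Transfer.Tate
open scoped commutatorElement

universe u v

variable {p : ℕ} [Fact p.Prime]

theorem isCharP_thompson : IsCharPFunctor.{u} p thompsonSubgroupA := by
  refine ⟨?_, ?_⟩
  · intro Q _ _ hQ hnt h
    have hc : Subgroup.center Q ≠ ⊥ := Cfsg.Agent.Lib.KInf.Transfer.center_ne_bot hQ hnt
    apply hc
    rw [eq_bot_iff, ← h, thompsonSubgroupA_eq]
    intro z hz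
    obtain ⟨A, hA⟩ := exists_isMaxIn 0 (⊤ : Subgroup Q)
    exact hA.le_jOf (hA.mem_of_commute (Subgroup.mem_top z) (by simp)
      (fun a _ => Subgroup.mem_center_iff.1 hz a))
  · intro Q R _ _ _ _ φ
    rw [thompsonSubgroupA_eq, thompsonSubgroupA_eq, jOf_map_equiv]
    congr 1
    exact Subgroup.map_top_of_surjective _ φ.surjective

lemma am_of_isMaxIn {Y : Type*} [Group Y] {S A : Subgroup Y} (h : IsMaxIn 0 S A) : AM S A :=
  ⟨h.1, (isAbExp_iff.1 h.2.1).1, fun B hB hc => h.2.2 B hB (isAbExp_iff.2 ⟨hc, by simp⟩)⟩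

lemma map_conj_of_normal {Y : Type*} [Group Y] {O : Subgroup Y} (hO : O.Normal) (g : Y) :
    O.map (MulAut.conj g).toMonoidHom = O := by
  ext y
  constructor
  · rintro ⟨x, hx, rfl⟩
    exact hO.conj_mem x hx g
  · intro hy
    refine ⟨g⁻¹ * y * g, ?_, ?_⟩
    · simpa using hO.conj_mem y hy g⁻¹
    · show g * (g⁻¹ * y * g) * g⁻¹ = y
      group

lemma jOf_normal_of_normal {Y : Type*} [Group Y] {O : Subgroup Y} (hO : O.Normal) :
    (jOf 0 O).Normal := by
  constructor
  intro x hx g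
  have h : (jOf 0 O).map (MulAut.conj g).toMonoidHom = jOf 0 O := by
    rw [jOf_map_equiv, map_conj_of_normal hO]
  rw [← h]
  exact ⟨x, hx, rfl⟩

/-- The Engel element of the minimal failure argument. -/
theorem exists_engel {Y : Type u} [Group Y] [Finite Y] (hp : 7 ≤ p) (S : Sylow p Y)
    (hn : ¬ (jOf 0 (S : Subgroup Y)).Normal) :
    ∃ u ∈ (S : Subgroup Y), u ∉ pCore p Y ∧ ∀ U V : Subgroup Y, IsChiefFactor U V →
      U ≤ pCore p Y → iterCommutator U (zpowers u) (p - 1) ≤ V := by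
  classical
  have hp2 : p ≠ 2 := by omega
  have hOp : IsPGroup p (pCore p Y) := Cfsg.Agent.Lib.Core.Basic.pCore_isPGroup
  have hOn : (pCore p Y).Normal := inferInstance
  have hOS : pCore p Y ≤ (S : Subgroup Y) := Cfsg.Agent.Lib.KInf.Main.pCore_le_sylow S
  have hSp : IsPGroup p (S : Subgroup Y) := S.isPGroup'
  have hex : ∃ A, IsMaxIn 0 (S : Subgroup Y) A ∧ ¬ A ≤ pCore p Y := by
    by_contra hno
    push_neg at hno
    apply hn
    have hle : jOf 0 (S : Subgroup Y) ≤ pCore p Y := sSup_le fun A hA => hno A hA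
    rw [← jOf_eq_of_le hOS hle]
    exact jOf_normal_of_normal hOn
  obtain ⟨A₀, hA₀, hA₀O⟩ := hex
  let s : Set (Subgroup Y) := {A | AM (S : Subgroup Y) A ∧ ¬ A ≤ pCore p Y}
  obtain ⟨A, hA, hmax⟩ := Set.exists_max_image s
    (fun A => Nat.card (A ⊓ pCore p Y : Subgroup Y)) (Set.toFinite s)
    ⟨A₀, am_of_isMaxIn hA₀, hA₀O⟩
  have hext : Extremal (S : Subgroup Y) (pCore p Y) A := fun A' hA' hA'O => hmax A' ⟨hA', hA'O⟩
  obtain ⟨u, hu, huO⟩ := SetLike.not_le_iff_exists.1 hA.2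
  refine ⟨u, hA.1.le hu, huO, ?_⟩
  intro U V hUV hU
  have hUn : U.Normal := hUV.2.1
  have hle : iterCommutator U (zpowers u) (p - 1) ≤ iterCommutator U (zpowers u) 6 :=
    Cfsg.Agent.Lib.KInf.Comm.iter_antitone
      (Cfsg.Agent.Lib.KInf.Comm.comm_normal_le hUn (zpowers u)) (show 6 ≤ p - 1 by omega)
  exact hle.trans (chief_six hp2 hSp hOp hOn hOS hA.1 hext hA.2 hu hUV hU)

/-- For `p ≥ 7`, the Thompson subgroup controls transfer in all sections. -/
theorem ctl_sections {X : Type u} [Group X] [Finite X] (hp : 7 ≤ p) :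
    ∀ (K R : Subgroup X) [hR : (R.subgroupOf K).Normal],
      Ctl p {(thompsonSubgroupA : ∀ (Q : Type u) [Group Q], Subgroup Q)} (↥K ⧸ R.subgroupOf K) := by
  have hW' : ∀ W' ∈ ({(thompsonSubgroupA : ∀ (Q : Type u) [Group Q], Subgroup Q)} :
      Set (∀ (Q : Type u) [Group Q], Subgroup Q)), IsCharPFunctor.{u} p W' := by
    rintro _ rfl
    exact isCharP_thompson
  by_contra hnot
  obtain ⟨K, R, hR, hf⟩ := Cfsg.Agent.Lib.TransferCtl.Section.exists_minFail hW' hnot
  obtain ⟨S⟩ : Nonempty (Sylow p (↥K ⧸ R.subgroupOf K)) := inferInstance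
  have hSO := Cfsg.Agent.Lib.TransferCtl.MinFail.ne_pCore hW' ⟨thompsonSubgroupA, rfl⟩ hf S
  by_cases hn : (inducedFunctor (G := (↥K ⧸ R.subgroupOf K)) thompsonSubgroupA
      ((S : Subgroup (↥K ⧸ R.subgroupOf K)))).Normal
  · apply Cfsg.Agent.Lib.TransferCtl.MinFail.not_le_Phi hW' hf S
    refine le_trans ?_ (Cfsg.Agent.Lib.TransferCtl.Basic.inf_le_Phi
      (𝓦 := {thompsonSubgroupA}) rfl _)
    rw [Subgroup.normalizer_eq_top_iff.2 hn]
    exact le_rfl
  · have hn' : ¬ (jOf 0 (S : Subgroup (↥K ⧸ R.subgroupOf K))).Normal := by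
      rw [← thompsonSubgroupAOf_eq]
      exact hn
    obtain ⟨u, hu, huO, hE⟩ := exists_engel hp S hn'
    exact Cfsg.Agent.Lib.TransferCtl.Main.no_engel hW' hf S hSO hu huO hE

theorem ctl_thompson {G : Type u} [Group G] [Finite G] (hp : 7 ≤ p) :
    Ctl p {(thompsonSubgroupA : ∀ (Q : Type u) [Group Q], Subgroup Q)} G := by
  refine Cfsg.Agent.Lib.TransferCtl.Main.ctl_of_sections ?_ (ctl_sections hp)
  rintro _ rfl
  exact isCharP_thompson

/-- `S ∩ G' = S ∩ N_G(J(S))'`. -/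
theorem inf_commutator_eq {G : Type u} [Group G] [Finite G] (hp : 7 ≤ p) (S : Sylow p G) :
    (S : Subgroup G) ⊓ commutator G = (S : Subgroup G) ⊓
      ⁅normalizer (thompsonSubgroupAOf (S : Subgroup G) : Set G),
        normalizer (thompsonSubgroupAOf (S : Subgroup G) : Set G)⁆ :=
  Cfsg.Agent.Lib.KInf.Transfer.eq_of_ctl (ctl_thompson hp) S

lemma le_normalizer_thompsonOf {Y : Type*} [Group Y] (S : Subgroup Y) :
    S ≤ normalizer (thompsonSubgroupAOf S : Set Y) := by
  rw [thompsonSubgroupAOf_eq]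
  intro s hs
  rw [Subgroup.mem_normalizer_iff]
  have hconj : S.map (MulAut.conj s).toMonoidHom = S := by
    ext y
    constructor
    · rintro ⟨x, hx, rfl⟩
      exact S.mul_mem (S.mul_mem hs hx) (S.inv_mem hs)
    · intro hy
      refine ⟨s⁻¹ * y * s, S.mul_mem (S.mul_mem (S.inv_mem hs) hy) hs, ?_⟩
      show s * (s⁻¹ * y * s) * s⁻¹ = y
      group
  have h := jOf_map_equiv (e := 0) S (MulAut.conj s)
  rw [hconj] at h
  intro y
  constructor
  · intro hy
    rw [← h]
    exact ⟨y, hy, rfl⟩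
  · intro hy
    rw [← h] at hy
    obtain ⟨y', hy', he⟩ := hy
    have he' : s * y' * s⁻¹ = s * y * s⁻¹ := he
    have : y' = y := by
      simpa [mul_assoc] using he'
    rwa [← this]

/-- Homomorphisms of `M ≥ S` into abelian `p`-groups are `G`-invariant once `S ∩ G' ≤ M'`. -/
theorem conj_inv {G : Type*} [Group G] [Finite G] (S : Sylow p G) (M : Subgroup G)
    (hSM : (S : Subgroup G) ≤ M) (hctl : (S : Subgroup G) ⊓ commutator G ≤ ⁅M, M⁆)
    {A : Type v} [CommGroup A] (hA : IsPGroup p A) (f : M →* A) (x y : M) (g : G)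
    (hxy : (y : G) = g * x * g⁻¹) : f y = f x := by
  have hcomm : commutator M ≤ f.ker := by
    rw [_root_.commutator_def, Subgroup.commutator_le]
    intro a _ b _
    rw [MonoidHom.mem_ker, commutatorElement_def, map_mul, map_mul, map_mul, map_inv, map_inv,
      mul_comm (f a), mul_assoc, mul_assoc, mul_inv_cancel_left, mul_inv_cancel]
  have key : ∀ (a b : M), (∃ k : ℕ, a ^ p ^ k = 1) → (b : G) = g * a * g⁻¹ → f b = f a := by
    rintro a b ⟨k, hk⟩ hb
    have hak : (a : G) ^ p ^ k = 1 := by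
      rw [← Subgroup.coe_pow, hk, Subgroup.coe_one]
    have hbk : (b : G) ^ p ^ k = 1 := by
      rw [hb, conj_pow, hak]
      group
    obtain ⟨v, hv, hav⟩ := exists_conj_mem_sylow S M hSM a.2 ⟨k, hak⟩
    obtain ⟨w, hw, hbw⟩ := exists_conj_mem_sylow S M hSM b.2 ⟨k, hbk⟩
    have hcommG : (w⁻¹ * b * w) * (v⁻¹ * a * v)⁻¹ ∈ commutator G := by
      rw [_root_.commutator_def]
      have h := Subgroup.commutator_mem_commutator (mem_top (w⁻¹ * g * v))
        (mem_top (v⁻¹ * (a : G) * v))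
      have he : ⁅w⁻¹ * g * v, v⁻¹ * (a : G) * v⁆ = (w⁻¹ * b * w) * (v⁻¹ * a * v)⁻¹ := by
        rw [hb, commutatorElement_def]
        group
      rwa [he] at h
    have hin := hctl ⟨S.toSubgroup.mul_mem hbw (S.toSubgroup.inv_mem hav), hcommG⟩
    rw [← Subgroup.map_subtype_commutator] at hin
    obtain ⟨c, hc, hce⟩ := hin
    have hc1 : f c = 1 := hcomm hc
    have hce' : c = (⟨w, hw⟩ : M)⁻¹ * b * ⟨w, hw⟩ * ((⟨v, hv⟩ : M)⁻¹ * a * ⟨v, hv⟩)⁻¹ :=
      Subtype.ext hce
    rw [hce'] at hc1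
    simp only [map_mul, map_inv] at hc1
    have hw1 : (f ⟨w, hw⟩)⁻¹ * f b * f ⟨w, hw⟩ = f b := by
      rw [mul_comm (f ⟨w, hw⟩)⁻¹, mul_assoc, inv_mul_cancel, mul_one]
    have hv1 : (f ⟨v, hv⟩)⁻¹ * f a * f ⟨v, hv⟩ = f a := by
      rw [mul_comm (f ⟨v, hv⟩)⁻¹, mul_assoc, inv_mul_cancel, mul_one]
    rw [hw1, hv1] at hc1
    exact mul_inv_eq_one.1 hc1
  obtain ⟨a, b, hab, -, ⟨i, hi⟩, ⟨j, hj⟩, hap, hbp⟩ := exists_pPart_decomp (p := p) x
  have hconj : ∀ n : ℤ, ((y ^ n : M) : G) = g * ((x ^ n : M) : G) * g⁻¹ := by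
    intro n
    simp only [Subgroup.coe_zpow, hxy]
    rw [conj_zpow]
  have hy_dec : y = y ^ i * y ^ j := by
    have h1 : x = x ^ i * x ^ j := by
      simp only at hi hj
      rw [hi, hj]
      exact hab
    apply Subtype.ext
    rw [Subgroup.coe_mul, hconj, hconj]
    have h2 : (x : G) = ((x ^ i : M) : G) * ((x ^ j : M) : G) := by
      rw [← Subgroup.coe_mul, ← h1]
    rw [hxy]
    nth_rewrite 1 [h2]
    group
  have hbf : f b = 1 := map_eq_one_of_coprime_of_isPGroup hA f hbp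
  have hyj : f (y ^ j) = 1 := by
    apply map_eq_one_of_coprime_of_isPGroup hA f
    have h1 : orderOf (y ^ j) = orderOf b := by
      rw [← Subgroup.orderOf_coe, hconj, ← Subgroup.orderOf_coe b]
      have h2 : ((x ^ j : M) : G) = b := by
        rw [← hj]
      rw [h2]
      have : g * (b : G) * g⁻¹ = MulAut.conj g b := rfl
      rw [this, MulEquiv.orderOf_eq]
    rw [h1]; exact hbp
  have hfa : f (y ^ i) = f a := by
    have h1 : ((y ^ i : M) : G) = g * (a : G) * g⁻¹ := by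
      rw [hconj, ← hi]
    exact key a (y ^ i) hap h1
  calc f y = f (y ^ i * y ^ j) := by rw [← hy_dec]
    _ = f (y ^ i) * f (y ^ j) := map_mul _ _ _
    _ = f a := by rw [hfa, hyj, mul_one]
    _ = f a * f b := by rw [hbf, mul_one]
    _ = f x := by rw [← map_mul, ← hab]

/-- The factor groups `G/O^p(G)` and `M/O^p(M)` are isomorphic when `M ≥ S` and `S ∩ G' ≤ M'`. -/
theorem nonempty_residual_equiv {G : Type*} [Group G] [Finite G] (S : Sylow p G) (M : Subgroup G)
    (hSM : (S : Subgroup G) ≤ M) (hctl : (S : Subgroup G) ⊓ commutator G ≤ ⁅M, M⁆)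
    [hn : (pResidual p G).Normal] [hm : (pResidual p ↥M).Normal] :
    Nonempty (G ⧸ pResidual p G ≃* ↥M ⧸ pResidual p ↥M) := by
  have hidx : ¬ p ∣ M.index := fun h =>
    S.not_dvd_index (h.trans (Subgroup.index_dvd_of_le hSM))
  have hE : HomExtends p M := homExtends_of_conj_invariant M hidx
    (fun f x y g hxy => conj_inv S M hSM hctl isPGroup_multiplicative_zmod f x y g hxy)
  have hT := pResidual_inf_eq_of_homExtends M hidx hE
  let φ : M →* G ⧸ pResidual p G := (QuotientGroup.mk' (pResidual p G)).comp M.subtype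
  have hsurj : Function.Surjective φ := by
    intro q
    obtain ⟨g, rfl⟩ := QuotientGroup.mk'_surjective (pResidual p G) q
    have hg : g ∈ (S : Subgroup G) ⊔ pResidual p G := by
      rw [sylow_sup_pResidual S]
      exact mem_top g
    obtain ⟨s, hs, r, hr, rfl⟩ := Subgroup.mem_sup_of_normal_right.1 hg
    refine ⟨⟨s, hSM hs⟩, ?_⟩
    show QuotientGroup.mk' (pResidual p G) s = QuotientGroup.mk' (pResidual p G) (s * r)
    have hr1 : QuotientGroup.mk' (pResidual p G) r = 1 := (QuotientGroup.eq_one_iff r).2 hr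
    rw [map_mul, hr1, mul_one]
  have hker : φ.ker = pResidual p ↥M := by
    ext x
    have h1 : x ∈ φ.ker ↔ (x : G) ∈ pResidual p G := by
      rw [MonoidHom.mem_ker]
      exact QuotientGroup.eq_one_iff (x : G)
    rw [h1]
    constructor
    · intro hx
      have h2 : (x : G) ∈ pResidual p G ⊓ M := ⟨hx, x.2⟩
      rw [hT] at h2
      obtain ⟨x', hx', he⟩ := h2
      have : x' = x := Subtype.ext he
      rwa [← this]
    · intro hx
      have h2 : (x : G) ∈ (pResidual p ↥M).map M.subtype := ⟨x, hx, rfl⟩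
      rw [← hT] at h2
      exact h2.1
  exact ⟨((QuotientGroup.quotientKerEquivOfSurjective φ hsurj).symm).trans
    (QuotientGroup.quotientMulEquivOfEq hker)⟩

end Cfsg.Agent.Lib.JCtl.Main
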